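import Cfsg.Agent.M12Type.Emb

/-!
Counting pairs of involutions whose product has a given power.
-/

set_option autoImplicit false

namespace Cfsg.Agent.M12Type

theorem pair_commute {G : Type*} [Group G] {u v w : G} (hu : u * u = 1) (hv : v * v = 1)
    (hw : w * w = 1) (hmem : w ∈ Subgroup.zpowers (u * v)) : u * w = w * u ∧ v * w = w * v := by
  have hi : w⁻¹ = w := inv_eq_of_mul_eq_one_right hw
  obtain ⟨n, rfl⟩ := hmem
  have hui : u⁻¹ = u := inv_eq_of_mul_eq_one_right hu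
  have hvi : v⁻¹ = v := inv_eq_of_mul_eq_one_right hv
  have e1 : u * (u * v) * u⁻¹ = (u * v)⁻¹ := by
    rw [mul_inv_rev, hui, hvi, ← mul_assoc, hu, one_mul]
  have e2 : v * (u * v) * v⁻¹ = (u * v)⁻¹ := by
    rw [mul_inv_rev, hui, hvi, mul_assoc, mul_assoc, hv, mul_one]
  constructor
  · refine mul_inv_eq_iff_eq_mul.1 ?_
    rw [← conj_zpow, e1, inv_zpow, hi]
  · refine mul_inv_eq_iff_eq_mul.1 ?_
    rw [← conj_zpow, e2, inv_zpow, hi]

theorem sq_of_conj_two {G : Type*} [Group G] {a u : G} (ha : orderOf a = 2) (h : IsConj a u) :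
    u * u = 1 ∧ orderOf u = 2 := by
  obtain ⟨g, rfl⟩ := isConj_iff.1 h
  have e : orderOf (g * a * g⁻¹) = 2 := by rw [← MulAut.conj_apply, MulEquiv.orderOf_eq, ha]
  exact ⟨by rw [← pow_two, ← e, pow_orderOf_eq_one], e⟩

theorem card_pair_list {l : List Ix} (hl : l.Nodup) (P : Ix → Ix → Bool) :
    Nat.card {x : Ix × Ix // x.1 ∈ l ∧ x.2 ∈ l ∧ P x.1 x.2 = true} =
      (l.map fun i => (l.filter fun j => P i j).length).sum := by
  rw [Nat.card_eq_fintype_card]
  let L : List (Ix × Ix) := l.flatMap fun i => (l.filter fun j => P i j).map fun j => (i, j)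
  have hnd : L.Nodup := by
    refine List.nodup_flatMap.2 ⟨fun i _ => (hl.filter _).map fun a b h => (Prod.ext_iff.1 h).2, ?_⟩
    refine List.Pairwise.imp (fun {i j} hij => ?_) hl
    intro x h1 h2
    simp only [List.mem_map] at h1 h2
    obtain ⟨a, -, rfl⟩ := h1
    obtain ⟨b, -, hb⟩ := h2
    exact hij (Prod.ext_iff.1 hb).1.symm
  rw [Fintype.card_of_subtype ⟨(L : Multiset (Ix × Ix)), Multiset.coe_nodup.2 hnd⟩ (fun x => by
    obtain ⟨i, j⟩ := x
    simp [L, List.mem_flatMap, List.mem_filter])]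
  show L.length = _
  simp [L, List.length_flatMap, List.length_map]

namespace Emb

variable {G : Type*} [Group G] {z : G} (E : Emb G z)

/-- The pairs over `z`. -/
theorem card_pairs_z {y : G} (hy : orderOf y = 2) {p q : Ix → Bool}
    (hp : ∀ i, p i = true ↔ IsConj z (E.e i)) (hq : ∀ i, q i = true ↔ IsConj y (E.e i)) :
    Nat.card {x : G × G // IsConj z x.1 ∧ IsConj y x.2 ∧ z ∈ Subgroup.zpowers (x.1 * x.2)} =
      ((List.finRange 192).map fun i =>
        ((List.finRange 192).filter fun j => p i && q j && inPow zI (mu i j)).length).sum := by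
  rw [← card_pair_list (List.nodup_finRange 192) fun i j => p i && q j && inPow zI (mu i j)]
  refine (Nat.card_congr (Equiv.ofBijective
    (fun x => (⟨(E.e x.1.1, E.e x.1.2), ?hmem⟩ :
      {x : G × G // IsConj z x.1 ∧ IsConj y x.2 ∧ z ∈ Subgroup.zpowers (x.1 * x.2)}))
    ⟨?hinj, ?hsurj⟩)).symm
  case hmem =>
    obtain ⟨-, -, h⟩ := x.2
    simp only [Bool.and_eq_true] at h
    refine ⟨(hp _).1 h.1.1, (hq _).1 h.1.2, ?_⟩
    show z ∈ Subgroup.zpowers (E.e x.1.1 * E.e x.1.2)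
    have h' := E.inPow_iff.2 h.2
    rwa [E.map_z, E.map_mu] at h'
  case hinj =>
    intro a b h
    have h' := Prod.ext_iff.1 (congrArg Subtype.val h :)
    exact Subtype.ext (Prod.ext (E.inj h'.1) (E.inj h'.2))
  case hsurj =>
    rintro ⟨⟨u, v⟩, hu, hv, hmem⟩
    obtain ⟨h1, h2⟩ := pair_commute (sq_of_conj_two E.order_z hu).1 (sq_of_conj_two hy hv).1
      (by rw [← pow_two, ← E.order_z, pow_orderOf_eq_one]) hmem
    obtain ⟨i, rfl⟩ := E.mem_range u h1
    obtain ⟨j, rfl⟩ := E.mem_range v h2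
    refine ⟨⟨(i, j), List.mem_finRange i, List.mem_finRange j, ?_⟩, rfl⟩
    simp only [Bool.and_eq_true]
    refine ⟨⟨(hp i).2 hu, (hq j).2 hv⟩, E.inPow_iff.1 ?_⟩
    rw [E.map_z, E.map_mu]
    exact hmem

end Emb

end Cfsg.Agent.M12Type
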