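import Cfsg.Agent.M12Type.Emb
import Mathlib.Data.List.GetD

/-!
A homomorphism of the centraliser of `b` is determined by the images of five generators.
-/

set_option autoImplicit false

namespace Cfsg.Agent.M12Type

/-- Multiplicative on the centraliser of `b`. -/
structure RHom (f : Ix → Ix) : Prop where
  one : f (ix 0) = ix 0
  mul : ∀ i ∈ rI, ∀ j ∈ rI, f (mu i j) = mu (f i) (f j)

theorem rTree_len : rTree.length = 31 := by decide +kernel

theorem rI_succ {n : ℕ} (hn : n < 31) (h : n < rTree.length) :
    (rTree[n]).1 ≤ n ∧ (rTree[n]).2.1 < 5 ∧ rI.getD (n + 1) (ix 0) = ix (rTree[n]).2.2 ∧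
      mu (rI.getD (rTree[n]).1 (ix 0)) (gR.getD (rTree[n]).2.1 (ix 0)) = rI.getD (n + 1) (ix 0) := by
  obtain ⟨h1, h2⟩ := rTree_facts
  obtain ⟨a, b, c⟩ := h2 (rTree[n], n) (by
    rw [List.mem_zipIdx_iff_getElem?]
    exact List.getElem?_eq_getElem h)
  have e : rI.getD (n + 1) (ix 0) = ix (rTree[n]).2.2 := by
    rw [h1, List.getD_cons_succ, List.getD_eq_getElem _ _ (by simpa using h), List.getElem_map]
  exact ⟨a, b, e, by rw [e]; exact c⟩

theorem getD_mem {l : List Ix} {n : ℕ} (h : n < l.length) : l.getD n (ix 0) ∈ l := by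
  rw [List.getD_eq_getElem _ _ h]
  exact List.getElem_mem h

theorem imgs_eq {f : Ix → Ix} (hf : RHom f) :
    imgs (gR.map f) = rI.map f := by
  have hlen : rI.length = 32 := rI_facts.1
  have key : ∀ n, n ≤ 31 →
      (rTree.take n).foldl (treeStep (gR.map f)) [ix 0] = (rI.take (n + 1)).map f := by
    intro n
    induction n with
    | zero =>
      intro _
      rw [List.take_zero, List.foldl_nil, rTree_facts.1, List.take_succ_cons, List.take_zero,
        List.map_singleton, hf.one]
    | succ n ih =>
      intro hn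
      have hn' : n < rTree.length := by rw [rTree_len]; omega
      obtain ⟨h1, h2, -, h4⟩ := rI_succ (n := n) (by omega) hn'
      have hg : (gR.map f).getD (rTree[n]).2.1 (ix 0) = f (gR.getD (rTree[n]).2.1 (ix 0)) := by
        have hl : (rTree[n]).2.1 < gR.length := h2
        rw [List.getD_eq_getElem _ _ (by simpa using hl), List.getD_eq_getElem _ _ hl, List.getElem_map]
      have hp : ((rI.take (n + 1)).map f).getD (rTree[n]).1 (ix 0) = f (rI.getD (rTree[n]).1 (ix 0)) := by
        rw [List.getD_eq_getElem _ _ (by simp [hlen]; omega),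
          List.getD_eq_getElem _ _ (by omega), List.getElem_map, List.getElem_take]
      rw [List.take_succ_eq_append_getElem hn', List.foldl_append, ih (by omega), List.foldl_cons,
        List.foldl_nil, List.take_succ_eq_append_getElem (l := rI) (i := n + 1) (by omega),
        List.map_append, List.map_singleton, treeStep, hg, hp,
        ← hf.mul _ (getD_mem (by omega)) _ (rI_facts.2.2.2 _ (getD_mem (l := gR) h2)), h4,
        List.getD_eq_getElem _ _ (by omega)]
  have h := key 31 le_rfl
  rwa [List.take_of_length_le rTree_len.le, List.take_of_length_le hlen.le] at h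

theorem look_eq {f : Ix → Ix} (hf : RHom f) {h : Ix} (hh : h ∈ rI) :
    look (imgs (gR.map f)) h = f h := by
  have h1 : rI.idxOf h < rI.length := List.idxOf_lt_length_iff.2 hh
  rw [look, imgs_eq hf, List.getD_eq_getElem _ _ (by simpa using h1), List.getElem_map,
    List.getElem_idxOf]

theorem rI_closed {i j : Ix} (hi : i ∈ rI) (hj : j ∈ rI) : mu i j ∈ rI := by
  revert i j
  decide +kernel

theorem homOK_of {f : Ix → Ix} (hf : RHom f) :
    homOK (gR.map f) (imgs (gR.map f)) = true := by
  simp only [homOK, List.all_eq_true, List.mem_range, beq_iff_eq]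
  intro r hr s hs
  have hl : s < gR.length := hs
  have hg : gR.getD s (ix 0) ∈ rI := rI_facts.2.2.2 _ (getD_mem hl)
  rw [look_eq hf (rI_closed hr hg), look_eq hf hr, hf.mul r hr _ hg,
    List.getD_eq_getElem (gR.map f) _ (by simpa using hl), List.getElem_map,
    List.getD_eq_getElem gR _ hl]

/-- Conjugation by an element normalising the pair gives a homomorphism. -/
theorem Emb.rHom_of_conj {G : Type*} [Group G] {z : G} (E : Emb G z) {g : G} {f : Ix → Ix}
    (hf : ∀ i ∈ rI, E.e (f i) = g * E.e i * g⁻¹) : RHom f := by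
  refine ⟨E.inj ?_, fun i hi j hj => E.inj ?_⟩
  · rw [hf _ rI_facts.2.2.1, E.e_one]; group
  · rw [hf _ (rI_closed hi hj), E.map_mu, E.map_mu, hf i hi, hf j hj]; group

end Cfsg.Agent.M12Type
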