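import Cfsg.Agent.M12Type.Emb
import Mathlib.GroupTheory.Sylow
import Mathlib.GroupTheory.Nilpotent

/-!
A Sylow 2-subgroup of the centraliser of the second kind of involution.
-/

set_option autoImplicit false

namespace Cfsg.Agent.M12Type.Emb

variable {G : Type*} [Group G] {z : G} (E : Emb G z)

/-- The centraliser of `y`. -/
abbrev CY : Subgroup G := Subgroup.centralizer ({E.e yI} : Set G)

theorem mem_CY {g : G} : g ∈ E.CY ↔ g * E.e yI = E.e yI * g := Subgroup.mem_centralizer_singleton_iff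

theorem e_mem_CY {i : Ix} (hi : i ∈ tI) : E.e i ∈ E.CY :=
  E.mem_CY.2 ((E.commute_iff i yI).2 ((mem_tI i).2 hi))

theorem z_mem_CY : z ∈ E.CY := E.mem_CY.2 (E.comm_z yI).symm

theorem exists_index_CY {g : G} (hg : g ∈ E.CY) (hgz : g * z = z * g) : ∃ i ∈ tI, E.e i = g := by
  obtain ⟨i, rfl⟩ := E.mem_range g hgz
  exact ⟨i, (mem_tI i).1 ((E.commute_iff i yI).1 (E.mem_CY.1 hg)), rfl⟩

variable [Finite G]

theorem exists_sylow_cy : ∃ T : Sylow 2 E.CY,
    ∀ h : E.CY, h ∈ (T : Subgroup E.CY) ↔ ∃ i ∈ tI, E.e i = h := by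
  haveI : Fact (Nat.Prime 2) := ⟨Nat.prime_two⟩
  obtain ⟨hlen, hnd, hty, -, -, htz, -, hsq, -, hmu, -⟩ := tI_facts
  have h0 : ix 0 ∈ tI := by decide +kernel
  have hiv : ∀ i ∈ tI, iv i ∈ tI := by decide +kernel
  obtain ⟨M, hM, hMcard⟩ := E.exists_sub h0 hiv hmu hnd
  have hle : M ≤ E.CY := fun g hg => by
    obtain ⟨i, hi, rfl⟩ := (hM g).1 hg
    exact E.e_mem_CY hi
  have hp : IsPGroup 2 (M.subgroupOf E.CY) := by
    refine IsPGroup.of_card (n := 4) ?_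
    rw [Nat.card_congr (Subgroup.subgroupOfEquivOfLe hle).toEquiv, hMcard, hlen]
    norm_num
  obtain ⟨T, hT⟩ := hp.exists_le_sylow
  suffices h : (T : Subgroup E.CY) = M.subgroupOf E.CY from
    ⟨T, fun w => by rw [h, Subgroup.mem_subgroupOf]; exact hM _⟩
  by_contra hne
  have hlt : (M.subgroupOf E.CY).subgroupOf (T : Subgroup E.CY) < ⊤ := by
    refine lt_top_iff_ne_top.2 fun e => hne (le_antisymm ?_ hT)
    rwa [Subgroup.subgroupOf_eq_top] at e
  have := T.isPGroup'.isNilpotent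
  have hnc : NormalizerCondition (T : Subgroup E.CY) := Group.normalizerCondition_of_isNilpotent
  obtain ⟨w, hwN, hwM⟩ := SetLike.exists_of_lt (hnc _ hlt)
  obtain ⟨c, hc, hcz⟩ : ∃ c ∈ tI, mu c c = zI := by decide +kernel
  have hcz' : E.e c * E.e c = z := by rw [← E.map_mu, hcz, E.map_z]
  have hcT : (⟨E.e c, E.e_mem_CY hc⟩ : E.CY) ∈ (T : Subgroup E.CY) :=
    hT ((hM _).2 ⟨c, hc, rfl⟩)
  obtain ⟨j, hj, hje⟩ := (hM _).1
    (((Subgroup.mem_normalizer_iff.1 hwN) ⟨_, hcT⟩).1 ((hM _).2 ⟨c, hc, rfl⟩))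
  have hje' : E.e j = ((w : E.CY) : G) * E.e c * ((w : E.CY) : G)⁻¹ := hje
  have hsqj : E.e (mu j j) = ((w : E.CY) : G) * z * ((w : E.CY) : G)⁻¹ := by
    rw [E.map_mu, hje']
    calc ((w : E.CY) : G) * E.e c * ((w : E.CY) : G)⁻¹ * (((w : E.CY) : G) * E.e c * ((w : E.CY) : G)⁻¹)
        = ((w : E.CY) : G) * (E.e c * E.e c) * ((w : E.CY) : G)⁻¹ := by group
      _ = _ := by rw [hcz']
  rcases hsq j hj with h | h
  · rw [h, E.e_one] at hsqj
    exact E.z_ne_one (conj_eq_one_iff.1 hsqj.symm)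
  · rw [h, E.map_z] at hsqj
    refine hwM ((hM _).2 ?_)
    exact E.exists_index_CY (w : E.CY).2 (mul_inv_eq_iff_eq_mul.1 hsqj.symm)

end Cfsg.Agent.M12Type.Emb
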