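import Cfsg.Agent.M12Type.Fusion
import Cfsg.Agent.M12Type.RMap
import Cfsg.Agent.M12Type.Pairs
import Cfsg.Agent.M12Type.Second
import Mathlib.GroupTheory.FixedPointFree
import Cfsg.Agent.S0213
import Cfsg.Agent.Invol.BrauerFowler

/-!
The case in which the outer involution is not fused with `z` is impossible.
-/

set_option autoImplicit false

namespace Cfsg.Agent.M12Type.Emb

open Cfsg

variable {G : Type*} [Group G] [Finite G] {z : G} (E : Emb G z)

omit [Finite G] in
/-- Conjugation from `e a` to `z` and back, inside `C(b)`. -/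
theorem swap_impossible {g : G} (h1 : g * E.e bI * g⁻¹ = z) (h2 : g * z * g⁻¹ = E.e bI)
    {y₁ y₂ : Ix} (hy1 : y₁ ∈ rI) (hc1 : cls y₁ = 3) (hy2 : y₂ ∈ rI) (hc2 : cls y₂ = 3)
    (hgy : g * E.e y₁ * g⁻¹ = E.e y₂)
    (hcls : ∀ i j, IsConj (E.e i) (E.e j) → clsB i = clsB j) : False := by
  obtain ⟨-, f, hf, -⟩ := E.cent_map h1 h2
  have hfR : ∀ i ∈ rI, E.e (f i) = g * E.e i * g⁻¹ := fun i hi => (hf i ((mem_rI i).2 hi)).1
  have hmem : ∀ i ∈ rI, f i ∈ rI := fun i hi => (mem_rI _).1 (hf i ((mem_rI i).2 hi)).2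
  have hhom := E.rHom_of_conj hfR
  have hfz : f zI = bI := E.inj (by rw [hfR _ (rI_facts.2.2.2 _ (by simp [gR])), E.map_z, h2])
  have hfb : f bI = zI := E.inj (by rw [hfR _ (rI_facts.2.2.2 _ (by simp [gR])), E.map_z, h1])
  obtain ⟨v, hv, hyv, hvR⟩ : ∃ v ∈ [ix 0, zI, bI, mu bI zI], yI = mu y₁ v ∧ v ∈ rI := by
    have key : ∀ j ∈ rI, cls j = 3 →
        ∃ v ∈ [ix 0, zI, bI, mu bI zI], yI = mu j v ∧ v ∈ rI := by
      decide +kernel
    exact key y₁ hy1 hc1
  have hfy : f yI = mu y₂ (f v) := by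
    rw [hyv, hhom.mul _ hy1 _ hvR]
    congr 1
    exact E.inj (by rw [hfR _ hy1, hgy])
  have hfv : f v ∈ [ix 0, zI, bI, mu bI zI] := by
    have hbz : f (mu bI zI) = mu zI bI := by
      rw [hhom.mul _ (rI_facts.2.2.2 _ (by simp [gR])) _ (rI_facts.2.2.2 _ (by simp [gR])), hfz, hfb]
    have hcomm : mu zI bI = mu bI zI := by decide +kernel
    simp only [List.mem_cons, List.not_mem_nil, or_false] at hv
    rcases hv with rfl | rfl | rfl | rfl
    · simp [hhom.one]
    · simp [hfz]
    · simp [hfb]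
    · simp [hbz, hcomm]
  have hyy : cls (f yI) = 3 := by
    have key : ∀ j ∈ rI, cls j = 3 → ∀ w ∈ [ix 0, zI, bI, mu bI zI], cls (mu j w) = 3 := by
      decide +kernel
    rw [hfy]
    exact key y₂ hy2 hc2 _ hfv
  have hgR : gR.map f = [bI, zI, f yI, f (ix r3N), f (ix r4N)] := by
    simp [gR, hfz, hfb]
  have hlab : ∀ h ∈ rI, clsB (f h) = clsB h := fun h hh =>
    (hcls h (f h) (isConj_iff.2 ⟨g, (hfR h hh).symm⟩)).symm
  have h3 : ix r3N ∈ rI := rI_facts.2.2.2 _ (by simp [gR])
  have h4 : ix r4N ∈ rI := rI_facts.2.2.2 _ (by simp [gR])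
  refine caseB_swap (f yI) (hmem _ (rI_facts.2.2.2 _ (by simp [gR]))) hyy (f (ix r3N)) (hmem _ h3)
    (hlab _ h3) (f (ix r4N)) (hmem _ h4) (hlab _ h4) ?_ fun h hh => ?_
  · rw [← hgR]; exact homOK_of hhom
  · rw [← hgR, look_eq hhom hh]; exact hlab h hh

variable [IsSimpleGroup G] (hG : ¬ IsMulCommutative G)
include hG

theorem caseB_false (hB : ¬ IsConj z (E.e gI)) : False := by
  classical
  haveI : Fact (Nat.Prime 2) := ⟨Nat.prime_two⟩
  obtain ⟨hclz, hcly, hall⟩ := E.classesB hG hB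
  have hbz := E.b_conj hG
  -- conjugate indices have the same merged class
  have hcls : ∀ i j, IsConj (E.e i) (E.e j) → clsB i = clsB j := by
    intro i j hij
    by_cases hi : orderOf (E.e i) = 2
    · have hj : orderOf (E.e j) = 2 := (Invol.orderOf_eq_of_isConj hij).symm.trans hi
      obtain ⟨i1, i4⟩ := E.cls_of_order_two hi
      obtain ⟨j1, j4⟩ := E.cls_of_order_two hj
      rcases hall _ hi with h | h
      · rw [(hclz i i1 i4).1 h, (hclz j j1 j4).1 (h.trans hij)]
      · rw [(hcly i i1 i4).1 h, (hcly j j1 j4).1 (h.trans hij)]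
    · have hj : orderOf (E.e j) ≠ 2 := fun h => hi ((Invol.orderOf_eq_of_isConj hij).trans h)
      by_cases h0 : i = ix 0
      · subst h0
        rw [E.e_one] at hij
        have : j = ix 0 := E.inj ((isConj_one_right.1 hij).trans E.e_one.symm)
        rw [this]
      · have h0' : j ≠ ix 0 := fun h => h0 (by
          rw [h, E.e_one] at hij
          exact E.inj ((isConj_one_left.1 hij).trans E.e_one.symm))
        have key : ∀ k : Ix, k ≠ ix 0 → ¬ (1 ≤ cls k ∧ cls k ≤ 4) → clsB k = 5 := by decide +kernel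
        rw [key i h0 fun h => hi (E.order_two h.1 h.2), key j h0' fun h => hj (E.order_two h.1 h.2)]
  set y := E.e yI with hy
  have hyo : orderOf y = 2 := E.order_two (by rw [cls_reps.2.2.1]; norm_num) (by rw [cls_reps.2.2.1]; norm_num)
  set H := Subgroup.centralizer ({y} : Set G) with hH
  have memH : ∀ {g : G}, g ∈ H ↔ g * y = y * g := fun {g} => Subgroup.mem_centralizer_singleton_iff
  have hzH : z ∈ H := by
    rw [memH]
    exact (E.comm_z yI).symm
  have hbH : E.e bI ∈ H := by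
    rw [memH]
    exact ((E.commute_iff _ _).2 tI_facts.2.2.2.2.2.2.2.2.2.2.2.2.2.1).symm
  -- `z` is isolated in `C(y) ∩ C(z)`
  have hisoH : ∀ h : G, h ∈ H → ∀ i ∈ tI, h * z * h⁻¹ = E.e i → i = zI := by
    intro h hh i hi he
    by_contra hne
    have hoi : orderOf (E.e i) = 2 := by rw [← he, ← MulAut.conj_apply, MulEquiv.orderOf_eq, E.order_z]
    obtain ⟨i1, i4⟩ := E.cls_of_order_two hoi
    have hiB := (hclz i i1 i4).1 (isConj_iff.2 ⟨h, he⟩)
    have hi2 : cls i = 2 := by
      have : cls i ≠ 1 := fun e => hne ((cls_wit i).1 e)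
      simp only [clsB] at hiB
      split_ifs at hiB with h2 h4' <;> omega
    have h1 : h⁻¹ * E.e i * h⁻¹⁻¹ = z := by rw [← he]; group
    obtain ⟨w, hw, hwz, hw1, hw4⟩ := E.image_z h1 hne
    have hw2 : cls w = 2 := by
      have hwB := (hclz w hw1 hw4).1 (isConj_iff.2 ⟨h⁻¹, hw⟩)
      have : cls w ≠ 1 := fun e => hwz ((cls_wit w).1 e)
      simp only [clsB] at hwB
      split_ifs at hwB with h2 h4' <;> omega
    have hl1 := (cls_wit i).2.1 hi2
    have hl2 := (cls_wit w).2.1 hw2
    have hwT : cm w yI = true := by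
      refine (E.commute_iff w yI).1 ?_
      rw [← hw]
      have hh' : h⁻¹ ∈ H := inv_mem hh
      have hm : h⁻¹ * z * h⁻¹⁻¹ ∈ H := mul_mem (mul_mem hh' hzH) (inv_mem hh')
      rw [memH] at hm
      exact hm
    set g := E.e (wit w) * h⁻¹ * (E.e (wit i))⁻¹ with hg
    refine E.swap_impossible (g := g) (y₁ := cj (wit i) yI) (y₂ := cj (wit w) yI) ?_ ?_ ?_
      (cls_cj_y _) ?_ (cls_cj_y _) ?_ hcls
    · rw [← hl1, E.e_cj, hg]
      calc _ = E.e (wit w) * (h⁻¹ * E.e i * h⁻¹⁻¹) * (E.e (wit w))⁻¹ := by group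
        _ = z := by rw [h1, E.comm_z, mul_inv_cancel_right]
    · rw [← hl2, E.e_cj, ← hw, hg]
      calc E.e (wit w) * h⁻¹ * (E.e (wit i))⁻¹ * z * (E.e (wit w) * h⁻¹ * (E.e (wit i))⁻¹)⁻¹
          = E.e (wit w) * h⁻¹ * ((E.e (wit i))⁻¹ * (z * E.e (wit i))) * (E.e (wit w) * h⁻¹)⁻¹ := by group
        _ = _ := by rw [← E.comm_z]; group
    · refine (mem_rI _).1 ((E.commute_iff _ _).1 ?_)
      rw [← hl1, E.e_cj, E.e_cj]
      exact (conj_commute_iff.2 ((E.commute_iff yI i).2 (by rw [cm_comm]; exact (mem_tI i).2 hi))).eq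
    · refine (mem_rI _).1 ((E.commute_iff _ _).1 ?_)
      rw [← hl2, E.e_cj, E.e_cj]
      exact (conj_commute_iff.2 ((E.commute_iff yI w).2 (by rw [cm_comm]; exact hwT))).eq
    · rw [E.e_cj, E.e_cj, hg]
      have hh' : h⁻¹ * y = y * h⁻¹ := by
        have := inv_mem hh
        rwa [memH] at this
      calc _ = E.e (wit w) * (h⁻¹ * y) * h⁻¹⁻¹ * (E.e (wit w))⁻¹ := by rw [hy]; group
        _ = _ := by rw [hh', hy]; group
  -- a Sylow subgroup of `C(y)` inside `C(z)`
  obtain ⟨htlen, htnd, hty, -, htb, htz, -, hsq, -, htmu, -⟩ := tI_facts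
  have hTH : ∀ i ∈ tI, E.e i ∈ H := fun i hi => by
    rw [memH]
    exact (E.commute_iff i yI).2 ((mem_tI i).2 hi)
  have hmemT : ∀ g : G, g ∈ H → g * z = z * g → ∃ i ∈ tI, E.e i = g := by
    intro g hg hgz
    obtain ⟨i, rfl⟩ := E.mem_range g hgz
    rw [memH] at hg
    exact ⟨i, (mem_tI i).1 ((E.commute_iff i yI).1 hg), rfl⟩
  have hzp : IsPGroup 2 (Subgroup.zpowers (⟨z, hzH⟩ : H)) :=
    IsPGroup.of_card (n := 1) (by rw [Nat.card_zpowers, ← Subgroup.orderOf_coe, pow_one]; exact E.order_z)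
  obtain ⟨T₀, hT₀⟩ := E.exists_sylow_cy
  obtain ⟨N, hN, hodd, hcomm⟩ := S0215.result T₀ (⟨z, hzH⟩ : H)
    (by rw [← Subgroup.orderOf_coe]; exact E.order_z)
    ((hT₀ _).2 ⟨zI, htz, E.map_z⟩) (fun h hh => by
      obtain ⟨i, hi, he⟩ := (hT₀ _).1 hh
      have := hisoH h h.2 i hi he.symm
      subst this
      exact Subtype.ext (he.symm.trans E.map_z))
  -- elements of the four group act without fixed points
  have hNfix : ∀ (u : G) (hu : u ∈ H), IsConj z u → ∀ n : H, n ∈ N → (n : G) * u = u * n → n = 1 := by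
    intro u hu hzu n hn hnu
    obtain ⟨g, hg⟩ := isConj_iff.1 hzu.symm
    have hny : (n : G) * y = y * n := by
      have := n.2
      rwa [memH] at this
    have hyu : u * y = y * u := by
      rwa [memH] at hu
    obtain ⟨j, hj⟩ := E.mem_range (g * y * g⁻¹) (by
      have := (conj_commute_iff (g := g)).2 (show Commute y u from hyu.symm)
      rw [hg] at this; exact this.eq)
    obtain ⟨i, hi⟩ := E.mem_range (g * (n : G) * g⁻¹) (by
      have := (conj_commute_iff (g := g)).2 (show Commute (n : G) u from hnu)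
      rw [hg] at this; exact this.eq)
    have hoj : orderOf (E.e j) = 2 := by rw [hj, ← MulAut.conj_apply, MulEquiv.orderOf_eq, hyo]
    obtain ⟨j1, j4⟩ := E.cls_of_order_two hoj
    have hjB := (hcly j j1 j4).1 (isConj_iff.2 ⟨g, hj.symm⟩)
    have hcij : cm i j = true := (E.commute_iff i j).1 (by
      rw [hi, hj]; exact ((conj_commute_iff (g := g)).2 hny).eq)
    have key : ∀ i j : Ix, clsB j = 3 → cm i j = true → pw i 16 = ix 0 := by decide +kernel
    have h16 : (n : G) ^ 16 = 1 := by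
      have := congrArg E.e (key i j hjB hcij)
      rw [E.e_pw, E.e_one, hi, conj_pow, conj_eq_one_iff] at this
      exact this
    have h2 : orderOf n ∣ 2 ^ 4 := orderOf_dvd_of_pow_eq_one (Subtype.ext h16)
    have h3 : orderOf n ∣ Nat.card N := by
      rw [← Subgroup.orderOf_mk n hn]; exact orderOf_dvd_natCard _
    have h4 : orderOf n = 1 :=
      Nat.eq_one_of_dvd_coprimes (Nat.Coprime.pow_left 4 (Nat.coprime_two_left.2 hodd)) h2 h3
    exact orderOf_eq_one_iff.1 h4
  have hN1 : N = ⊥ := by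
    refine (Subgroup.eq_bot_iff_forall _).2 fun n hn => ?_
    have hinv : ∀ (u : G) (hu : u ∈ H), IsConj z u → u * (n : G) * u = (n : G)⁻¹ := by
      intro u hu hzu
      have huu : u * u = 1 := (sq_of_conj_two E.order_z hzu).1
      have hm : ∀ m : N, (⟨u, hu⟩ : H) * m * ⟨u, hu⟩ ∈ N := fun m => by
        have := hN.conj_mem m m.2 ⟨u, hu⟩
        rwa [show (⟨u, hu⟩ : H)⁻¹ = ⟨u, hu⟩ from Subtype.ext (inv_eq_of_mul_eq_one_right huu)] at this
      let φ : N →* N := MonoidHom.mk' (fun m => ⟨_, hm m⟩) fun a b => Subtype.ext <| Subtype.ext <| by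
        show u * (((a : H) : G) * ((b : H) : G)) * u = u * ((a : H) : G) * u * (u * ((b : H) : G) * u)
        calc u * (((a : H) : G) * ((b : H) : G)) * u
            = u * ((a : H) : G) * (u * u) * ((b : H) : G) * u := by rw [huu]; group
          _ = _ := by group
      have hfix : MonoidHom.FixedPointFree φ := by
        intro m hm'
        have e : u * ((m : H) : G) * u = ((m : H) : G) :=
          congrArg (fun x : N => ((x : H) : G)) hm'
        refine Subtype.ext (hNfix u hu hzu m m.2 ?_)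
        calc ((m : H) : G) * u = u * ((m : H) : G) * u * u := by rw [e]
          _ = u * ((m : H) : G) := by rw [mul_assoc, huu, mul_one]
      have hinv2 : Function.Involutive φ := fun m => Subtype.ext <| Subtype.ext <| by
        show u * (u * ((m : H) : G) * u) * u = ((m : H) : G)
        calc u * (u * ((m : H) : G) * u) * u = (u * u) * ((m : H) : G) * (u * u) := by group
          _ = _ := by rw [huu, one_mul, mul_one]
      exact congrArg (fun x : N => ((x : H) : G)) (congrFun (hfix.coe_eq_inv_of_involutive hinv2) ⟨n, hn⟩)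
    have hzb : IsConj z (E.e (mu bI zI)) := by
      obtain ⟨h1, h4, h2⟩ : 1 ≤ cls (mu bI zI) ∧ cls (mu bI zI) ≤ 4 ∧ clsB (mu bI zI) = 1 := by
        decide +kernel
      exact (hclz _ h1 h4).2 h2
    have a1 := hinv z hzH (IsConj.refl z)
    have a2 := hinv (E.e bI) hbH hbz
    have hbb : E.e bI * E.e bI = 1 := (sq_of_conj_two E.order_z hbz).1
    have hzz : z * z = 1 := (sq_of_conj_two E.order_z (IsConj.refl z)).1
    refine hNfix _ (hTH _ tI_facts.2.2.2.2.2.2.1) hzb n hn ?_
    rw [E.map_mu, E.map_z]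
    calc (n : G) * (E.e bI * z) = E.e bI * (E.e bI * (n : G) * E.e bI) * z := by
          rw [show E.e bI * (E.e bI * (n : G) * E.e bI) * z
            = (E.e bI * E.e bI) * ((n : G) * (E.e bI * z)) by group, hbb, one_mul]
      _ = E.e bI * (z * (n : G) * z) * z := by rw [a1, a2]
      _ = E.e bI * z * (n : G) * (z * z) := by group
      _ = E.e bI * z * (n : G) := by rw [hzz, mul_one]
  have hcz : ∀ g ∈ H, g * z = z * g := by
    intro g hg
    have h := hcomm ⟨g, hg⟩
    rw [hN1, Subgroup.mem_bot, mul_inv_eq_one, mul_inv_eq_iff_eq_mul] at h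
    exact (congrArg Subtype.val h :).symm
  have hcardH : Nat.card H = 16 := by
    rw [← Nat.card_fin 16]
    refine (Nat.card_congr (Equiv.ofBijective
      (fun k : Fin 16 => (⟨E.e (tI.get (k.cast htlen.symm)), hTH _ (List.get_mem _ _)⟩ : H)) ⟨?_, ?_⟩)).symm
    · intro i j h
      have := List.Nodup.injective_get htnd (E.inj (congrArg Subtype.val h :))
      exact Fin.ext (congrArg Fin.val this :)
    · rintro ⟨g, hg⟩
      obtain ⟨i, hi, rfl⟩ := hmemT g hg (hcz g hg)
      obtain ⟨k, hk⟩ := List.get_of_mem hi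
      exact ⟨k.cast htlen, Subtype.ext (congrArg E.e hk)⟩
  -- the order
  have hnc : ¬ IsConj z y := E.y_not_conj
  have hp : ∀ i, (clsB i == 1) = true ↔ IsConj z (E.e i) := by
    intro i
    rw [beq_iff_eq]
    constructor
    · intro h
      have : 1 ≤ cls i ∧ cls i ≤ 4 := by
        simp only [clsB] at h
        split_ifs at h with h2 h4 <;> omega
      exact (hclz i this.1 this.2).2 h
    · intro h
      obtain ⟨h1, h4⟩ := E.cls_of_order_two (sq_of_conj_two E.order_z h).2
      exact (hclz i h1 h4).1 h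
  have hq : ∀ i, (clsB i == 3) = true ↔ IsConj y (E.e i) := by
    intro i
    rw [beq_iff_eq]
    constructor
    · intro h
      have : 1 ≤ cls i ∧ cls i ≤ 4 := by
        simp only [clsB] at h
        split_ifs at h with h2 h4 <;> omega
      exact (hcly i this.1 this.2).2 h
    · intro h
      obtain ⟨h1, h4⟩ := E.cls_of_order_two (sq_of_conj_two hyo h).2
      exact (hcly i h1 h4).1 h
  have haz : Nat.card {x : G × G // IsConj z x.1 ∧ IsConj y x.2 ∧ z ∈ Subgroup.zpowers (x.1 * x.2)} = 48 :=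
    (E.card_pairs_z hyo hp hq).trans count_zB
  have hay : Nat.card {x : G × G // IsConj z x.1 ∧ IsConj y x.2 ∧ y ∈ Subgroup.zpowers (x.1 * x.2)} = 3 := by
    rw [← count_yB, ← card_pair_list htnd fun i j => (clsB i == 1) && (clsB j == 3) && inPow yI (mu i j)]
    refine (Nat.card_congr (Equiv.ofBijective
      (fun x => (⟨(E.e x.1.1, E.e x.1.2), ?hmem⟩ :
        {x : G × G // IsConj z x.1 ∧ IsConj y x.2 ∧ y ∈ Subgroup.zpowers (x.1 * x.2)}))
      ⟨?hinj, ?hsurj⟩)).symm
    case hmem =>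
      obtain ⟨-, -, h⟩ := x.2
      simp only [Bool.and_eq_true] at h
      refine ⟨(hp _).1 h.1.1, (hq _).1 h.1.2, ?_⟩
      show y ∈ Subgroup.zpowers (E.e x.1.1 * E.e x.1.2)
      rw [← E.map_mu]
      exact E.inPow_iff.2 h.2
    case hinj =>
      intro a b h
      have h' := Prod.ext_iff.1 (congrArg Subtype.val h :)
      exact Subtype.ext (Prod.ext (E.inj h'.1) (E.inj h'.2))
    case hsurj =>
      rintro ⟨⟨u, v⟩, hu, hv, hmem⟩
      obtain ⟨h1, h2⟩ := pair_commute (sq_of_conj_two E.order_z hu).1 (sq_of_conj_two hyo hv).1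
        (by rw [← pow_two, ← hyo, pow_orderOf_eq_one]) hmem
      have hu' : u ∈ H := by rw [memH]; exact h1
      have hv' : v ∈ H := by rw [memH]; exact h2
      obtain ⟨i, hi, rfl⟩ := hmemT u hu' (hcz u hu')
      obtain ⟨j, hj, rfl⟩ := hmemT v hv' (hcz v hv')
      refine ⟨⟨(i, j), hi, hj, ?_⟩, rfl⟩
      simp only [Bool.and_eq_true]
      refine ⟨⟨(hp i).2 hu, (hq j).2 hv⟩, E.inPow_iff.1 ?_⟩
      rw [E.map_mu]
      exact hmem
  have hord := S0213.result z y E.order_z hyo hnc hall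
  rw [← hH, hcardH, E.card_centralizer, haz, hay] at hord
  have hidx : (Subgroup.centralizer ({z} : Set G)).index = 7 := by
    have h := Subgroup.card_mul_index (Subgroup.centralizer ({z} : Set G))
    rw [E.card_centralizer, hord] at h
    omega
  have hne : Subgroup.centralizer ({z} : Set G) ≠ ⊤ := fun e => by
    rw [e, Subgroup.index_top] at hidx
    norm_num at hidx
  have hd := Invol.card_dvd_factorial_index hne
  rw [hidx, hord] at hd
  norm_num [Nat.factorial] at hd

end Cfsg.Agent.M12Type.Emb
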