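import Cfsg.Agent.M12Type.Table
import Cfsg.Agent.M12Type.GenWords
import Cfsg.Agent.M12Type.Orbit
import Cfsg.Agent.AutCert.M12

/-!
The table agrees with the codes in M12.
-/

set_option autoImplicit false
set_option maxRecDepth 20000

namespace Cfsg.Agent.M12Type

open Cfsg Cfsg.Agent.SchurCert Cfsg.Agent.Golay Cfsg.Agent.AutCert

/-- the codes -/
def codeOf (i : Ix) : ℕ := (codeList.map Prod.fst).getD i.val permOne

/-- the generators -/
def gensI : List Ix := genList.map ix

/-- the codes with inverses of the generators -/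
def genPairs : List (ℕ × ℕ) := genList.map fun i => codeList.getD i (permOne, permOne)

theorem genPairs_tested : genPairs.all validPair = true ∧ (∀ x ∈ genPairs,
    PreservesRows (codeFun x.1) ∧
      ∀ p, p ∈ Spor.squareDodecad → codeFun x.1 p ∈ Spor.squareDodecad) ∧
    genPairs.map Prod.fst = gensI.map codeOf := by
  decide +kernel

theorem code_mul_gen : ∀ s ∈ gensI, ∀ i : Ix,
    Nat.beq (permMul (codeOf i) (codeOf s)) (codeOf (mu i s)) = true := by
  decide +kernel

theorem word_table : ∀ j : Ix, (∀ s ∈ (genWords.getD j.val []).map ix, s ∈ gensI) ∧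
    ((genWords.getD j.val []).map ix).foldl mu (ix 0) = j := by
  decide +kernel

theorem mu_assoc_gen : gensI.all (fun s => (List.finRange 192).all fun i => (List.finRange 192).all fun p =>
    Nat.beq (mu i (mu p s)).val (mu (mu i p) s).val) = true := by
  decide +kernel

theorem code_zero : codeOf (ix 0) = permOne := by decide +kernel

theorem codes_nodup : codeList.length = 192 ∧ (codeList.map Prod.fst).Nodup := by decide +kernel

/-- one step in the orbit -/
def orbStep (acc : List ℕ) (t : ℕ × ℕ) : List ℕ :=
  acc ++ [permMul (permMul (m12Gens.getD t.2 (permOne, permOne)).1 (acc.getD t.1 permOne))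
    (m12Gens.getD t.2 (permOne, permOne)).2]

/-- the codes of the conjugates -/
def orbCodes : List ℕ := orbTree.foldl orbStep [codeOf zI]

theorem orb_tested : orbCodes.length = 495 ∧ orbCodes.Nodup ∧
    ∀ t ∈ orbTree.zipIdx, t.1.1 ≤ t.2 ∧ t.1.2 < 3 := by
  decide +kernel

end Cfsg.Agent.M12Type
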