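import Cfsg.Agent.M12Type.Fusion
import Cfsg.Agent.M12Type.Second
import Cfsg.Agent.M12Type.Pairs
import Mathlib.GroupTheory.Transfer
import Mathlib.Data.Fintype.Units

/-!
The subgroup of index 4 in the centraliser of the second class.
-/

set_option autoImplicit false

namespace Cfsg.Agent.M12Type

/-- A transfer to a sign at an involution whose conjugates all have the same sign. -/
theorem transfer_sign {H : Type*} [Group H] [Finite H] (S : Sylow 2 H)
    (φ : (S : Subgroup H) →* ℤˣ) [(S : Subgroup H).FiniteIndex] {a : (S : Subgroup H)} (ha : a * a = 1)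
    (hconj : ∀ b : (S : Subgroup H), IsConj (a : H) (b : H) → φ b = φ a) :
    MonoidHom.transfer φ (a : H) = φ a := by
  classical
  haveI : Fact (Nat.Prime 2) := ⟨Nat.prime_two⟩
  letI := (S : Subgroup H).fintypeQuotientOfFiniteIndex
  have hodd : Odd (S : Subgroup H).index := by
    rw [← Nat.not_even_iff_odd, even_iff_two_dvd]; exact S.not_dvd_index
  have key : ∀ (k : ℕ) (g₀ : H) (hk : g₀⁻¹ * (a : H) ^ k * g₀ ∈ (S : Subgroup H)),
      φ ⟨g₀⁻¹ * (a : H) ^ k * g₀, hk⟩ = φ a ^ k := by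
    intro k g₀ hk
    have ha2 : a ^ 2 = 1 := by rw [pow_two, ha]
    have haH : (a : H) ^ 2 = 1 := by rw [← Subgroup.coe_pow, ha2, Subgroup.coe_one]
    rcases Nat.even_or_odd' k with ⟨m, rfl | rfl⟩
    · rw [pow_mul (φ a), Int.units_pow_two, one_pow]
      have e : (⟨g₀⁻¹ * (a : H) ^ (2 * m) * g₀, hk⟩ : (S : Subgroup H)) = 1 := Subtype.ext (by
        show g₀⁻¹ * (a : H) ^ (2 * m) * g₀ = 1
        rw [pow_mul, haH, one_pow]; group)
      rw [e, map_one]
    · rw [pow_succ (φ a), pow_mul (φ a), Int.units_pow_two, one_pow, one_mul]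
      refine hconj _ (isConj_iff.2 ⟨g₀⁻¹, ?_⟩)
      show g₀⁻¹ * (a : H) * g₀⁻¹⁻¹ = g₀⁻¹ * (a : H) ^ (2 * m + 1) * g₀
      rw [pow_succ, pow_mul, haH, one_pow, one_mul, inv_inv]
  rw [MonoidHom.transfer_eq_prod_quotient_orbitRel_zpowers_quot]
  simp only [key, Finset.prod_pow_eq_pow_sum, ← Subgroup.index_eq_sum_minimalPeriod]
  obtain ⟨m, hm⟩ := hodd
  rw [hm, pow_succ, pow_mul, Int.units_pow_two, one_pow, one_mul]

/-- the four group -/
def fourI : List Ix := [ix 0, zI, bI, mu bI zI]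

/-- the kernel of the first sign -/
def oneI : List Ix := [ix 0, zI, bI, mu bI zI, aI, mu aI zI, mu aI bI, mu aI (mu bI zI)]

set_option synthInstance.maxSize 4000 in
set_option synthInstance.maxHeartbeats 400000 in
theorem sign_table : (∀ i ∈ tI, ∀ j ∈ tI, cm (mu i j) bI = (cm i bI == cm j bI)) ∧
    (∀ i ∈ tI, ∀ j ∈ tI, decide (mu i j ∈ oneI) = (decide (i ∈ oneI) == decide (j ∈ oneI))) := by
  decide +kernel

set_option synthInstance.maxSize 4000 in
set_option synthInstance.maxHeartbeats 400000 in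
theorem T_table : (∀ i ∈ fourI, i ∈ tI ∧ cm i bI = true ∧ i ∈ oneI ∧ (i ≠ ix 0 → isA i = true)) ∧
    (∀ i ∈ tI, isA i = true → i ∈ fourI) ∧
    (∀ j ∈ tI, cls j = 3 → cm j bI = true → j = yI ∨ isA (mu yI j) = true) ∧
    (∀ i ∈ tI, ∃ v ∈ fourI, i = v ∨ i = mu v yI ∨ i = mu v aI ∨ i = mu v (mu yI aI)) ∧
    isA (mu yI aI) = false ∧ cm yI bI = true ∧ yI ∉ oneI := by
  decide +kernel

namespace Emb

variable {G : Type*} [Group G] [Finite G] {z : G} (E : Emb G z)

/-- The first fusion case together with the merged classes. -/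
structure CaseA : Prop where
  cls_z : ∀ i, 1 ≤ cls i → cls i ≤ 4 → (IsConj z (E.e i) ↔ isA i = true)
  classes : ∀ u : G, orderOf u = 2 → IsConj z u ∨ IsConj (E.e yI) u

omit [Finite G] in
theorem order_y : orderOf (E.e yI) = 2 :=
  E.order_two (by rw [cls_reps.2.2.1]; norm_num) (by rw [cls_reps.2.2.1]; norm_num)

namespace CaseA

variable {E} (hA : E.CaseA)
include hA

omit [Finite G] in
theorem isA_iff (i : Ix) : isA i = true ↔ IsConj z (E.e i) := by
  constructor
  · intro h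
    have : 1 ≤ cls i ∧ cls i ≤ 4 := by
      simp only [isA, Bool.or_eq_true, beq_iff_eq] at h
      omega
    exact (hA.cls_z i this.1 this.2).2 h
  · intro h
    obtain ⟨h1, h4⟩ := E.cls_of_order_two (sq_of_conj_two E.order_z h).2
    exact (hA.cls_z i h1 h4).1 h

omit [Finite G] in
theorem isY_iff (i : Ix) : (cls i == 3) = true ↔ IsConj (E.e yI) (E.e i) := by
  rw [beq_iff_eq]
  refine ⟨fun h => (E.isConj_rep i).2.2.1 h, fun h => ?_⟩
  obtain ⟨h1, h4⟩ := E.cls_of_order_two (sq_of_conj_two E.order_y h).2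
  by_contra h3
  have : isA i = true := by
    simp only [isA, Bool.or_eq_true, beq_iff_eq]
    omega
  exact E.y_not_conj (((hA.isA_iff i).1 this).trans h.symm)

omit [Finite G] in
/-- All conjugates of `z` commuting with `y` are conjugate in the centraliser of `y`. -/
theorem conj_z_in_CY {u : G} (hu : IsConj z u) (huy : u ∈ E.CY) :
    ∃ h ∈ E.CY, h * z * h⁻¹ = u := by
  obtain ⟨g, hg⟩ := isConj_iff.1 hu.symm
  have hc : Commute (g * E.e yI * g⁻¹) (g * u * g⁻¹) := conj_commute_iff.2 (E.mem_CY.1 huy).symm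
  rw [hg] at hc
  obtain ⟨j, hj⟩ := E.mem_range _ hc.eq
  have h3 : cls j = 3 := by
    have := (hA.isY_iff j).2 (isConj_iff.2 ⟨g, hj.symm⟩)
    simpa using this
  have hl := (cls_wit j).2.2.1 h3
  have hy : E.e (wit j) * g * E.e yI * (E.e (wit j) * g)⁻¹ = E.e yI := by
    calc _ = E.e (wit j) * (g * E.e yI * g⁻¹) * (E.e (wit j))⁻¹ := by group
      _ = _ := by rw [← hj, ← E.e_cj, hl]
  refine ⟨(E.e (wit j) * g)⁻¹, inv_mem (E.mem_CY.2 (mul_inv_eq_iff_eq_mul.1 hy)), ?_⟩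
  have hz : E.e (wit j) * g * u * (E.e (wit j) * g)⁻¹ = z := by
    calc _ = E.e (wit j) * (g * u * g⁻¹) * (E.e (wit j))⁻¹ := by group
      _ = _ := by rw [hg, E.comm_z, mul_inv_cancel_right]
  calc (E.e (wit j) * g)⁻¹ * z * (E.e (wit j) * g)⁻¹⁻¹
      = (E.e (wit j) * g)⁻¹ * (E.e (wit j) * g * u * (E.e (wit j) * g)⁻¹) * (E.e (wit j) * g)⁻¹⁻¹ := by
        rw [hz]
    _ = u := by group

end CaseA

/-- The subgroup of index 4. -/
structure Comp (K : Subgroup E.CY) : Prop where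
  normal : K.Normal
  index : K.index = 4
  sq_mem : ∀ w : E.CY, w * w ∈ K
  y_notMem : ∀ w : E.CY, (w : G) = E.e yI → w ∉ K
  z_class_mem : ∀ w : E.CY, IsConj z (w : G) → w ∈ K
  inf_T : ∀ (w : E.CY) (i : Ix), i ∈ tI → E.e i = (w : G) → (w ∈ K ↔ i ∈ fourI)

theorem CaseA.exists_comp {E : Emb G z} (hA : E.CaseA) : ∃ K : Subgroup E.CY, E.Comp K := by
  classical
  haveI : Fact (Nat.Prime 2) := ⟨Nat.prime_two⟩
  obtain ⟨T, hT⟩ := E.exists_sylow_cy
  haveI : (T : Subgroup E.CY).FiniteIndex := ⟨Subgroup.index_ne_zero_of_finite⟩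
  obtain ⟨hs2, hs1⟩ := sign_table
  obtain ⟨hfour, hfour', hyb, hdec, hya, hycm, hy1⟩ := T_table
  -- signs from the table
  have mk : ∀ q : Ix → Bool, (∀ i ∈ tI, ∀ j ∈ tI, q (mu i j) = (q i == q j)) →
      ∃ φ : (T : Subgroup E.CY) →* ℤˣ, ∀ (w : (T : Subgroup E.CY)) (i : Ix),
        E.e i = ((w : E.CY) : G) → φ w = if q i then 1 else -1 := by
    intro q hq
    choose f hfT hfe using fun w : (T : Subgroup E.CY) => (hT w).1 w.2
    refine ⟨MonoidHom.mk' (fun w => if q (f w) then 1 else -1) fun a b => ?_, fun w i hi => ?_⟩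
    · have e : f (a * b) = mu (f a) (f b) := E.inj (by rw [hfe, E.map_mu, hfe, hfe]; rfl)
      show (if q (f (a * b)) then (1 : ℤˣ) else -1) = _
      rw [e, hq _ (hfT a) _ (hfT b)]
      cases q (f a) <;> cases q (f b) <;> rfl
    · show (if q (f w) then (1 : ℤˣ) else -1) = _
      rw [E.inj ((hfe w).trans hi.symm)]
  obtain ⟨φ₁, h₁⟩ := mk (fun i => decide (i ∈ oneI)) hs1
  obtain ⟨φ₂, h₂⟩ := mk (fun i => cm i bI) hs2
  let τ₁ : E.CY →* ℤˣ := MonoidHom.transfer φ₁
  let τ₂ : E.CY →* ℤˣ := MonoidHom.transfer φ₂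
  have hidx : ∀ w : (T : Subgroup E.CY), ∃ i ∈ tI, E.e i = ((w : E.CY) : G) := fun w => (hT w).1 w.2
  have hconjz : ∀ a b : (T : Subgroup E.CY), IsConj (a : E.CY) (b : E.CY) →
      (IsConj z ((a : E.CY) : G) → IsConj z ((b : E.CY) : G)) := fun a b hab h =>
    h.trans (MonoidHom.map_isConj E.CY.subtype hab)
  have hzval : ∀ w : (T : Subgroup E.CY), IsConj z ((w : E.CY) : G) →
      τ₁ (w : E.CY) = 1 ∧ τ₂ (w : E.CY) = 1 := by
    intro w hw
    have hone : ∀ b : (T : Subgroup E.CY), IsConj z ((b : E.CY) : G) → φ₁ b = 1 ∧ φ₂ b = 1 := by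
      intro b hb
      obtain ⟨i, hi, he⟩ := hidx b
      have hi4 := hfour' i hi ((hA.isA_iff i).2 (by rw [he]; exact hb))
      exact ⟨by rw [h₁ b i he]; simp [(hfour i hi4).2.2.1], by rw [h₂ b i he]; simp [(hfour i hi4).2.1]⟩
    have hw2 : w * w = 1 := Subtype.ext (Subtype.ext (sq_of_conj_two E.order_z hw).1)
    constructor
    · exact (transfer_sign T φ₁ hw2 fun b hb => by
        rw [(hone b (hconjz w b hb hw)).1, (hone w hw).1]).trans (hone w hw).1
    · exact (transfer_sign T φ₂ hw2 fun b hb => by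
        rw [(hone b (hconjz w b hb hw)).2, (hone w hw).2]).trans (hone w hw).2
  let Y : (T : Subgroup E.CY) := ⟨⟨E.e yI, E.e_mem_CY tI_facts.2.2.1⟩, (hT _).2 ⟨yI, tI_facts.2.2.1, rfl⟩⟩
  let A : (T : Subgroup E.CY) :=
    ⟨⟨E.e aI, E.e_mem_CY tI_facts.2.2.2.1⟩, (hT _).2 ⟨aI, tI_facts.2.2.2.1, rfl⟩⟩
  have hY2 : Y * Y = 1 := Subtype.ext (Subtype.ext (sq_of_conj_two E.order_y (IsConj.refl _)).1)
  have hYc : ∀ b : (T : Subgroup E.CY), IsConj (Y : E.CY) (b : E.CY) → b = Y := by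
    intro b hb
    obtain ⟨c, hc⟩ := isConj_iff.1 hb
    refine Subtype.ext (Subtype.ext ?_)
    rw [← hc]
    show (c : G) * E.e yI * (c : G)⁻¹ = E.e yI
    rw [E.mem_CY.1 c.2, mul_inv_cancel_right]
  have hY1 : τ₁ (Y : E.CY) = -1 :=
    (transfer_sign T φ₁ hY2 fun b hb => by rw [hYc b hb]).trans (by
      rw [h₁ Y yI rfl]; simp [hy1])
  have hY2' : τ₂ (Y : E.CY) = 1 :=
    (transfer_sign T φ₂ hY2 fun b hb => by rw [hYc b hb]).trans (by
      rw [h₂ Y yI rfl]; simp [hycm])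
  have hA2 : A * A = 1 := Subtype.ext (Subtype.ext
    (sq_of_conj_two E.order_y ((E.isConj_rep aI).2.2.1 cls_reps.2.2.2.2)).1)
  have hAval : τ₂ (A : E.CY) = -1 := by
    refine (transfer_sign T φ₂ hA2 fun b hb => ?_).trans (by
      rw [h₂ A aI rfl]; simp [tI_facts.2.2.2.2.2.2.2.2.2.2.2.2.1])
    obtain ⟨j, hj, he⟩ := hidx b
    have hab : IsConj (E.e aI) (E.e j) := by rw [he]; exact MonoidHom.map_isConj E.CY.subtype hb
    have hj3 : cls j = 3 := by
      simpa using (hA.isY_iff j).2 (((E.isConj_rep aI).2.2.1 cls_reps.2.2.2.2).trans hab)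
    rw [h₂ b j he, h₂ A aI rfl]
    suffices hcm : cm j bI = false by simp [hcm, tI_facts.2.2.2.2.2.2.2.2.2.2.2.2.1]
    rw [Bool.eq_false_iff]
    intro hcm
    obtain ⟨c, hc⟩ := isConj_iff.1 hb
    have hcy : (c : G) * E.e yI * (c : G)⁻¹ = E.e yI := by
      rw [E.mem_CY.1 c.2, mul_inv_cancel_right]
    have hca : (c : G) * E.e aI * (c : G)⁻¹ = E.e j := by rw [he, ← hc]; rfl
    rcases hyb j hj hj3 hcm with h | h
    · subst h
      have hne : aI ≠ yI := by decide +kernel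
      refine hne (E.inj (mul_left_cancel (a := (c : G)) (mul_right_cancel (b := (c : G)⁻¹) ?_)))
      exact hca.trans hcy.symm
    · have h' := (hA.isA_iff _).1 h
      have : IsConj (E.e (mu yI aI)) (E.e (mu yI j)) := isConj_iff.2 ⟨(c : G), by
        rw [E.map_mu, E.map_mu]
        calc (c : G) * (E.e yI * E.e aI) * (c : G)⁻¹
            = ((c : G) * E.e yI * (c : G)⁻¹) * ((c : G) * E.e aI * (c : G)⁻¹) := by group
          _ = _ := by rw [hcy, hca]⟩
      exact Bool.eq_false_iff.1 hya ((hA.isA_iff _).2 (h'.trans this.symm))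
  let τ : E.CY →* ℤˣ × ℤˣ := τ₁.prod τ₂
  have hsurj : Function.Surjective τ := by
    rintro ⟨s₁, s₂⟩
    rcases Int.units_eq_one_or s₂ with rfl | rfl
    · rcases Int.units_eq_one_or s₁ with rfl | rfl
      · exact ⟨1, map_one _⟩
      · exact ⟨(Y : E.CY), Prod.ext hY1 hY2'⟩
    · rcases Int.units_eq_one_or (τ₁ (A : E.CY)) with h | h <;>
        rcases Int.units_eq_one_or s₁ with rfl | rfl
      · exact ⟨(A : E.CY), Prod.ext h hAval⟩
      · exact ⟨(A : E.CY) * (Y : E.CY), Prod.ext (by simp [τ, h, hY1]) (by simp [τ, hAval, hY2'])⟩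
      · exact ⟨(A : E.CY) * (Y : E.CY), Prod.ext (by simp [τ, h, hY1]) (by simp [τ, hAval, hY2'])⟩
      · exact ⟨(A : E.CY), Prod.ext h hAval⟩
  refine ⟨τ.ker, inferInstance, ?_, fun w => ?_, fun w hw hK => ?_, fun w hw => ?_,
    fun w i hi he => ?_⟩
  · rw [Subgroup.index_ker, MonoidHom.range_eq_top.2 hsurj, Subgroup.card_top, Nat.card_prod,
      Nat.card_eq_fintype_card]
    rfl
  · rw [MonoidHom.mem_ker, map_mul]
    exact Prod.ext (Int.units_mul_self _) (Int.units_mul_self _)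
  · have : w = (Y : E.CY) := Subtype.ext hw
    rw [this, MonoidHom.mem_ker] at hK
    have h := congrArg Prod.fst hK
    exact absurd (hY1.symm.trans h) (by decide)
  · obtain ⟨h, hh, hhz⟩ := hA.conj_z_in_CY hw w.2
    let Z : (T : Subgroup E.CY) :=
      ⟨⟨z, E.z_mem_CY⟩, (hT _).2 ⟨zI, tI_facts.2.2.2.2.2.1, E.map_z⟩⟩
    have : w = ⟨h, hh⟩ * (Z : E.CY) * ⟨h, hh⟩⁻¹ := Subtype.ext hhz.symm
    rw [this, MonoidHom.mem_ker, map_mul, map_mul, map_inv]
    have hZ : τ (Z : E.CY) = 1 := Prod.ext (hzval Z (IsConj.refl z)).1 (hzval Z (IsConj.refl z)).2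
    rw [hZ, mul_one, mul_inv_cancel]
  · have hval : ∀ v ∈ fourI, ∀ x : E.CY, E.e v = (x : G) → τ x = 1 := by
      intro v hv x hx
      by_cases hv0 : v = ix 0
      · subst hv0
        rw [show x = 1 from Subtype.ext (hx.symm.trans E.e_one), map_one]
      · have hz := hzval ⟨x, (hT x).2 ⟨v, (hfour v hv).1, hx⟩⟩
          (show IsConj z (x : G) from hx ▸ (hA.isA_iff v).1 ((hfour v hv).2.2.2 hv0))
        exact Prod.ext hz.1 hz.2
    constructor
    · intro hK
      obtain ⟨v, hv, h | h | h | h⟩ := hdec i hi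
      · exact h ▸ hv
      all_goals exfalso
      · have : w = ⟨E.e v, E.e_mem_CY (hfour v hv).1⟩ * (Y : E.CY) :=
          Subtype.ext (by rw [← he, h, E.map_mu]; rfl)
        rw [this, MonoidHom.mem_ker, map_mul, hval v hv _ rfl, one_mul] at hK
        exact absurd (hY1.symm.trans (congrArg Prod.fst hK)) (by decide)
      · have : w = ⟨E.e v, E.e_mem_CY (hfour v hv).1⟩ * (A : E.CY) :=
          Subtype.ext (by rw [← he, h, E.map_mu]; rfl)
        rw [this, MonoidHom.mem_ker, map_mul, hval v hv _ rfl, one_mul] at hK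
        exact absurd (hAval.symm.trans (congrArg Prod.snd hK)) (by decide)
      · have : w = ⟨E.e v, E.e_mem_CY (hfour v hv).1⟩ * ((Y : E.CY) * (A : E.CY)) :=
          Subtype.ext (by rw [← he, h, E.map_mu, E.map_mu]; rfl)
        rw [this, MonoidHom.mem_ker, map_mul, hval v hv _ rfl, one_mul, map_mul] at hK
        have h' := congrArg Prod.snd hK
        simp [τ, hY2', hAval] at h'
    · intro hi4
      exact hval i hi4 w he

end Emb

end Cfsg.Agent.M12Type
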