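import Cfsg.Agent.M12Type.Table
import Cfsg.Agent.Invol.Counting
import Mathlib.GroupTheory.OrderOfElement
import Mathlib.Algebra.Group.Conj
import Mathlib.Data.List.NodupEquivFin

/-!
A centraliser of an involution identified with the table on 192 indices.
-/

set_option autoImplicit false

namespace Cfsg.Agent.M12Type

/-- The centraliser of `z` is given by the table. -/
structure Emb (G : Type*) [Group G] (z : G) where
  e : Ix → G
  inj : Function.Injective e
  map_mu : ∀ i j, e (mu i j) = e i * e j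
  mem_range : ∀ g : G, g * z = z * g → ∃ i, e i = g
  map_z : e zI = z

theorem conj_commute_iff {G : Type*} [Group G] {g a b : G} :
    Commute (g * a * g⁻¹) (g * b * g⁻¹) ↔ Commute a b := by
  constructor
  · intro h
    have h2 := h.map (MulAut.conj g⁻¹).toMonoidHom
    simpa [mul_assoc] using h2
  · intro h
    simpa using h.map (MulAut.conj g).toMonoidHom

theorem sig_injective : Function.Injective sig := fun i j h => by
  rw [← sig_facts.2.2.2.2.2.1 i, h, sig_facts.2.2.2.2.2.1 j]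

namespace Emb

variable {G : Type*} [Group G] {z : G} (E : Emb G z)

theorem e_one : E.e (ix 0) = 1 := by
  have h := E.map_mu (ix 0) (ix 0)
  rw [(mu_one (ix 0)).1] at h
  exact mul_eq_left.1 h.symm

theorem e_iv (i : Ix) : E.e (iv i) = (E.e i)⁻¹ := by
  refine eq_inv_of_mul_eq_one_left ?_
  rw [← E.map_mu, (mu_one i).2.2.2, E.e_one]

theorem e_cj (l i : Ix) : E.e (cj l i) = E.e l * E.e i * (E.e l)⁻¹ := by
  rw [cj, E.map_mu, E.map_mu, E.e_iv]

theorem e_pw (i : Ix) : ∀ k : ℕ, E.e (pw i k) = E.e i ^ k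
  | 0 => by rw [pw, E.e_one, pow_zero]
  | k + 1 => by rw [pw, E.map_mu, e_pw i k, pow_succ]

theorem commute_iff (i j : Ix) : E.e i * E.e j = E.e j * E.e i ↔ cm i j = true := by
  rw [← E.map_mu, ← E.map_mu, E.inj.eq_iff, cm, beq_iff_eq]

theorem comm_z (i : Ix) : E.e i * z = z * E.e i := by
  have h := (E.commute_iff i zI).2 (z_central i)
  rwa [E.map_z] at h

theorem order_two {i : Ix} (h1 : 1 ≤ cls i) (h4 : cls i ≤ 4) : orderOf (E.e i) = 2 := by
  obtain ⟨h, hne⟩ := (cls_invol i).2 ⟨h1, h4⟩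
  refine orderOf_eq_prime (by rw [pow_two, ← E.map_mu, h, E.e_one]) fun e1 => hne ?_
  exact E.inj (e1.trans E.e_one.symm)

theorem cls_of_order_two {i : Ix} (h : orderOf (E.e i) = 2) : 1 ≤ cls i ∧ cls i ≤ 4 := by
  refine (cls_invol i).1 ⟨E.inj ?_, fun e0 => ?_⟩
  · rw [E.map_mu, E.e_one, ← pow_two, ← h, pow_orderOf_eq_one]
  · rw [e0, E.e_one, orderOf_one] at h
    norm_num at h

theorem order_z (E : Emb G z) : orderOf z = 2 := by
  rw [← E.map_z]
  exact E.order_two (by rw [cls_reps.1]) (by rw [cls_reps.1]; norm_num)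

theorem z_ne_one (E : Emb G z) : z ≠ 1 := fun e => by
  have := E.order_z
  rw [e, orderOf_one] at this
  norm_num at this

theorem inPow_iff {w i : Ix} : E.e w ∈ Subgroup.zpowers (E.e i) ↔ inPow w i = true := by
  simp only [inPow, List.any_eq_true, List.mem_range, beq_iff_eq]
  constructor
  · rintro ⟨n, hn⟩
    have h24 : E.e i ^ (24 : ℤ) = 1 := by
      rw [show (24 : ℤ) = ((24 : ℕ) : ℤ) from rfl, zpow_natCast, ← E.e_pw, pw_24, E.e_one]
    have h2 : n = 24 * (n / 24) + n % 24 := (Int.mul_ediv_add_emod n 24).symm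
    have h3 := Int.emod_nonneg n (b := 24) (by norm_num)
    have h4 := Int.emod_lt_of_pos n (b := 24) (by norm_num)
    refine ⟨(n % 24).toNat, by omega, E.inj ?_⟩
    rw [E.e_pw, ← zpow_natCast, Int.toNat_of_nonneg h3, ← hn]
    show _ = E.e i ^ n
    conv_rhs => rw [h2, zpow_add, zpow_mul, h24, one_zpow, one_mul]
  · rintro ⟨k, -, rfl⟩
    rw [E.e_pw]
    exact Subgroup.npow_mem_zpowers _ _

/-- The elements commuting with `z` and with a given one. -/
noncomputable def indexEquiv (a : Ix) :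
    {i : Ix // cm i a = true} ≃ {x : G // x * z = z * x ∧ x * E.e a = E.e a * x} :=
  Equiv.ofBijective (fun i => ⟨E.e i.1, E.comm_z _, (E.commute_iff _ _).2 i.2⟩)
    ⟨fun i j h => Subtype.ext (E.inj (congrArg Subtype.val h :)), fun x => by
      obtain ⟨i, hi⟩ := E.mem_range x.1 x.2.1
      exact ⟨⟨i, (E.commute_iff _ _).1 (by rw [hi]; exact x.2.2)⟩, Subtype.ext hi⟩⟩

theorem card_filter (p : Ix → Bool) :
    Nat.card {i : Ix // p i = true} = ((List.finRange 192).filter p).length := by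
  rw [Nat.card_eq_fintype_card]
  exact Fintype.card_of_subtype
    ⟨(((List.finRange 192).filter p : List Ix) : Multiset Ix),
      Multiset.coe_nodup.2 ((List.nodup_finRange 192).filter _)⟩
    (fun i => by simp [List.mem_finRange])

theorem cm_comm (i j : Ix) : cm i j = cm j i := Bool.beq_comm ..

theorem card_cent2 (a : Ix) : Nat.card {x : G // x * z = z * x ∧ x * E.e a = E.e a * x} = cc a := by
  rw [← Nat.card_congr (E.indexEquiv a), card_filter, cc]
  exact congrArg List.length (List.filter_congr fun j _ => cm_comm j a)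

theorem card_centralizer (E : Emb G z) : Nat.card (Subgroup.centralizer ({z} : Set G)) = 192 := by
  rw [← Nat.card_fin 192]
  refine (Nat.card_congr (Equiv.ofBijective (fun i : Ix =>
    (⟨E.e i, Subgroup.mem_centralizer_singleton_iff.2 (E.comm_z i)⟩ :
      Subgroup.centralizer ({z} : Set G))) ⟨?_, ?_⟩)).symm
  · exact fun i j h => E.inj (congrArg Subtype.val h :)
  · intro x
    obtain ⟨i, hi⟩ := E.mem_range x.1 (Subgroup.mem_centralizer_singleton_iff.1 x.2)
    exact ⟨i, Subtype.ext hi⟩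

/-- A subgroup given by a closed list of indices. -/
theorem exists_sub {l : List Ix} (h0 : ix 0 ∈ l) (hiv : ∀ i ∈ l, iv i ∈ l)
    (hmu : ∀ i ∈ l, ∀ j ∈ l, mu i j ∈ l) (hnd : l.Nodup) :
    ∃ H : Subgroup G, (∀ g, g ∈ H ↔ ∃ i ∈ l, E.e i = g) ∧ Nat.card H = l.length := by
  let H : Subgroup G :=
    { carrier := {g | ∃ i ∈ l, E.e i = g}
      one_mem' := ⟨_, h0, E.e_one⟩
      mul_mem' := by
        rintro _ _ ⟨i, hi, rfl⟩ ⟨j, hj, rfl⟩
        exact ⟨_, hmu i hi j hj, E.map_mu i j⟩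
      inv_mem' := by
        rintro _ ⟨i, hi, rfl⟩
        exact ⟨_, hiv i hi, E.e_iv i⟩ }
  refine ⟨H, fun g => Iff.rfl, ?_⟩
  rw [← Nat.card_fin l.length]
  refine (Nat.card_congr (Equiv.ofBijective
    (fun k : Fin l.length => (⟨E.e (l.get k), _, List.get_mem l k, rfl⟩ : H)) ⟨?_, ?_⟩)).symm
  · intro i j h
    exact (List.Nodup.injective_get hnd) (E.inj (congrArg Subtype.val h :))
  · rintro ⟨_, i, hi, rfl⟩
    obtain ⟨k, hk⟩ := List.get_of_mem hi
    exact ⟨k, Subtype.ext (congrArg E.e hk)⟩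

/-- Conjugation carries the common centraliser of `(e a, z)` to that of `(z, e w)`. -/
theorem cent_map {g : G} {a w : Ix} (h1 : g * E.e a * g⁻¹ = z) (h2 : g * z * g⁻¹ = E.e w) :
    cc a = cc w ∧ ∃ f : Ix → Ix, (∀ i, cm i a = true → E.e (f i) = g * E.e i * g⁻¹ ∧ cm (f i) w = true) ∧
      ∀ j, cm j w = true → ∃ i, cm i a = true ∧ f i = j := by
  have hfwd : ∀ i, cm i a = true → ∃ j, E.e j = g * E.e i * g⁻¹ ∧ cm j w = true := by
    intro i hi
    have hz : g * E.e i * g⁻¹ * z = z * (g * E.e i * g⁻¹) := by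
      have h3 : Commute (g * E.e i * g⁻¹) (g * E.e a * g⁻¹) :=
        conj_commute_iff.2 ((E.commute_iff i a).2 hi)
      rw [h1] at h3
      exact h3.eq
    obtain ⟨j, hj⟩ := E.mem_range _ hz
    refine ⟨j, hj, (E.commute_iff j w).1 ?_⟩
    rw [hj, ← h2]
    exact (conj_commute_iff.2 (E.comm_z i) : Commute _ _)
  choose! f hf using hfwd
  have hbwd : ∀ j, cm j w = true → ∃ i, cm i a = true ∧ f i = j := by
    intro j hj
    have hc : (g⁻¹ * E.e j * g) * z = z * (g⁻¹ * E.e j * g) := by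
      refine (conj_commute_iff (g := g)).1 ?_
      rw [show g * (g⁻¹ * E.e j * g) * g⁻¹ = E.e j by group, h2]
      exact (E.commute_iff j w).2 hj
    obtain ⟨i, hi⟩ := E.mem_range _ hc
    have hia : cm i a = true := by
      refine (E.commute_iff i a).1 ?_
      rw [hi]
      refine (conj_commute_iff (g := g)).1 ?_
      rw [show g * (g⁻¹ * E.e j * g) * g⁻¹ = E.e j by group, h1]
      exact E.comm_z j
    refine ⟨i, hia, E.inj ?_⟩
    rw [(hf i hia).1, hi]
    group
  refine ⟨?_, f, hf, hbwd⟩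
  have hc : ∀ x : Ix, cc x = Nat.card {i : Ix // cm i x = true} := fun x => by
    rw [card_filter, cc]
    exact congrArg List.length (List.filter_congr fun j _ => cm_comm x j)
  rw [hc a, hc w]
  refine Nat.card_congr (Equiv.ofBijective (fun i => ⟨f i.1, (hf i.1 i.2).2⟩) ⟨?_, ?_⟩)
  · intro i j h
    have h' : E.e (f i.1) = E.e (f j.1) := congrArg E.e (congrArg Subtype.val h :)
    rw [(hf i.1 i.2).1, (hf j.1 j.2).1] at h'
    exact Subtype.ext (E.inj (mul_left_cancel (mul_right_cancel h')))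
  · intro j
    obtain ⟨i, hi, he⟩ := hbwd j.1 j.2
    exact ⟨⟨i, hi⟩, Subtype.ext he⟩

/-- Composition with the automorphism. -/
def twist : Emb G z where
  e i := E.e (sig i)
  inj _ _ h := sig_injective (E.inj h)
  map_mu i j := by rw [sig_mu, E.map_mu]
  mem_range g hg := by
    obtain ⟨i, hi⟩ := E.mem_range g hg
    exact ⟨sig i, by rw [sig_facts.2.2.2.2.2.1, hi]⟩
  map_z := by rw [sig_facts.1, E.map_z]

theorem isConj_cj (l i : Ix) : IsConj (E.e i) (E.e (cj l i)) :=
  isConj_iff.2 ⟨E.e l, (E.e_cj l i).symm⟩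

/-- Every involution of the centraliser is conjugate to a representative. -/
theorem isConj_rep (i : Ix) :
    (cls i = 1 → i = zI) ∧ (cls i = 2 → IsConj (E.e bI) (E.e i)) ∧
      (cls i = 3 → IsConj (E.e yI) (E.e i)) ∧ (cls i = 4 → IsConj (E.e gI) (E.e i)) := by
  obtain ⟨h1, h2, h3, h4⟩ := cls_wit i
  refine ⟨h1, fun h => ?_, fun h => ?_, fun h => ?_⟩
  · rw [← h2 h]; exact (E.isConj_cj _ _).symm
  · rw [← h3 h]; exact (E.isConj_cj _ _).symm
  · rw [← h4 h]; exact (E.isConj_cj _ _).symm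

end Emb

end Cfsg.Agent.M12Type
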