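import Cfsg.Agent.M12Type.Comp
import Cfsg.Agent.TwoFusion.BSW
import Mathlib.GroupTheory.Perm.Basic

/-!
The subgroup of index 4 is either four-normal or of order 60.
-/

set_option autoImplicit false

namespace Cfsg.Agent.M12Type.Emb

open Cfsg

variable {G : Type*} [Group G] [Finite G] {z : G} {E : Emb G z} {K : Subgroup E.CY}

omit [Finite G] in
theorem Comp.inf_z (hK : E.Comp K) {w : E.CY} (hw : w ∈ K) (hwz : (w : G) * z = z * (w : G)) :
    ∃ i ∈ fourI, E.e i = (w : G) := by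
  obtain ⟨i, hi, he⟩ := E.exists_index_CY w.2 hwz
  exact ⟨i, (hK.inf_T w i hi he).1 hw, he⟩

omit [Finite G] in
theorem four_comm {i j : Ix} (hi : i ∈ fourI) (hj : j ∈ fourI) :
    E.e i * E.e j = E.e j * E.e i := by
  refine (E.commute_iff i j).2 ?_
  revert i j
  decide +kernel

omit [Finite G] in
theorem four_sq {i : Ix} (hi : i ∈ fourI) : E.e i * E.e i = 1 := by
  have key : ∀ i ∈ fourI, mu i i = ix 0 := by decide +kernel
  rw [← E.map_mu, key i hi, E.e_one]

/-- The set of conjugates of `z` in the centraliser of `y`. -/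
abbrev zInCY (E : Emb G z) : Type _ := {u : G // u ∈ E.CY ∧ IsConj z u}

theorem CaseA.card_CY (hA : E.CaseA) : Nat.card E.CY = 16 * Nat.card (zInCY E) := by
  have h := Invol.card_isConj_mul (G := E.CY) ⟨z, E.z_mem_CY⟩
  have e1 : Nat.card {w : E.CY // IsConj (⟨z, E.z_mem_CY⟩ : E.CY) w} = Nat.card (zInCY E) := by
    refine Nat.card_congr (Equiv.ofBijective
      (fun w => (⟨((w.1 : E.CY) : G), w.1.2, MonoidHom.map_isConj E.CY.subtype w.2⟩ : zInCY E)) ⟨?_, ?_⟩)
    · exact fun a b hab => Subtype.ext (Subtype.ext (congrArg Subtype.val hab :))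
    · rintro ⟨u, hu, huz⟩
      obtain ⟨g, hg, hgu⟩ := hA.conj_z_in_CY huz hu
      exact ⟨⟨⟨u, hu⟩, isConj_iff.2 ⟨⟨g, hg⟩, Subtype.ext hgu⟩⟩, rfl⟩
  have e2 : Nat.card (Subgroup.centralizer ({(⟨z, E.z_mem_CY⟩ : E.CY)} : Set E.CY)) = 16 := by
    obtain ⟨hlen, hnd, -⟩ := tI_facts
    rw [← Nat.card_fin 16]
    refine (Nat.card_congr (Equiv.ofBijective
      (fun k : Fin 16 => (⟨⟨E.e (tI.get (k.cast hlen.symm)), E.e_mem_CY (List.get_mem _ _)⟩,
        Subgroup.mem_centralizer_singleton_iff.2 (Subtype.ext (E.comm_z _))⟩ :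
          Subgroup.centralizer ({(⟨z, E.z_mem_CY⟩ : E.CY)} : Set E.CY))) ⟨?_, ?_⟩)).symm
    · intro i j hij
      have h' := congrArg (fun w : Subgroup.centralizer ({(⟨z, E.z_mem_CY⟩ : E.CY)} : Set E.CY) =>
        ((w : E.CY) : G)) hij
      exact Fin.cast_injective _ (List.Nodup.injective_get hnd (E.inj h'))
    · rintro ⟨⟨g, hg⟩, hgz⟩
      obtain ⟨i, hi, rfl⟩ := E.exists_index_CY hg
        (congrArg Subtype.val (Subgroup.mem_centralizer_singleton_iff.1 hgz) :)
      obtain ⟨k, hk⟩ := List.get_of_mem hi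
      exact ⟨k.cast hlen, Subtype.ext (Subtype.ext (congrArg E.e hk))⟩
  rw [e1, e2] at h
  omega

/-- A Sylow 2-subgroup of `K` given by the four group. -/
theorem Comp.exists_sylow (hK : E.Comp K) : ∃ V : Sylow 2 K,
    (∀ w : K, w ∈ (V : Subgroup K) ↔ ∃ i ∈ fourI, E.e i = ((w : E.CY) : G)) ∧
      Nat.card (V : Subgroup K) = 4 := by
  haveI : Fact (Nat.Prime 2) := ⟨Nat.prime_two⟩
  obtain ⟨T, hT⟩ := E.exists_sylow_cy
  have hfour : ∀ i ∈ fourI, i ∈ tI := fun i hi => (T_table.1 i hi).1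
  let V₀ : Subgroup K := (T : Subgroup E.CY).subgroupOf K
  have hV₀ : ∀ w : K, w ∈ V₀ ↔ ∃ i ∈ fourI, E.e i = ((w : E.CY) : G) := by
    intro w
    rw [Subgroup.mem_subgroupOf, hT]
    constructor
    · rintro ⟨i, hi, he⟩
      exact ⟨i, (hK.inf_T _ i hi he).1 w.2, he⟩
    · rintro ⟨i, hi, he⟩
      exact ⟨i, hfour i hi, he⟩
  have hmem : ∀ i (hi : i ∈ fourI), (⟨E.e i, E.e_mem_CY (hfour i hi)⟩ : E.CY) ∈ K := fun i hi =>
    (hK.inf_T _ i (hfour i hi) rfl).2 hi
  have hcard : Nat.card V₀ = 4 := by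
    have hnd : fourI.Nodup := by decide +kernel
    rw [← Nat.card_fin 4]
    refine (Nat.card_congr (Equiv.ofBijective
      (fun k : Fin 4 => (⟨⟨_, hmem (fourI.get k) (List.get_mem _ _)⟩,
        (hV₀ _).2 ⟨_, List.get_mem fourI k, rfl⟩⟩ : V₀)) ⟨?_, ?_⟩)).symm
    · intro i j hij
      exact List.Nodup.injective_get hnd
        (E.inj (congrArg (fun w : V₀ => (((w : K) : E.CY) : G)) hij :))
    · rintro ⟨w, hw⟩
      obtain ⟨i, hi, he⟩ := (hV₀ w).1 hw
      obtain ⟨k, hk⟩ := List.get_of_mem hi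
      exact ⟨k, Subtype.ext (Subtype.ext (Subtype.ext ((congrArg E.e hk).trans he)))⟩
  have hT16 : Nat.card (T : Subgroup E.CY) = 16 := by
    obtain ⟨hlen, hnd, -⟩ := tI_facts
    rw [← Nat.card_fin 16]
    refine (Nat.card_congr (Equiv.ofBijective
      (fun k : Fin 16 => (⟨⟨E.e (tI.get (k.cast hlen.symm)), E.e_mem_CY (List.get_mem _ _)⟩,
        (hT _).2 ⟨_, List.get_mem _ _, rfl⟩⟩ : (T : Subgroup E.CY))) ⟨?_, ?_⟩)).symm
    · intro i j hij
      exact Fin.cast_injective _ (List.Nodup.injective_get hnd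
        (E.inj (congrArg (fun w : (T : Subgroup E.CY) => ((w : E.CY) : G)) hij :)))
    · rintro ⟨w, hw⟩
      obtain ⟨i, hi, he⟩ := (hT w).1 hw
      obtain ⟨k, hk⟩ := List.get_of_mem hi
      exact ⟨k.cast hlen, Subtype.ext (Subtype.ext ((congrArg E.e hk).trans he))⟩
  have hidx : ¬ 2 ∣ V₀.index := by
    have h1 := Subgroup.card_mul_index V₀
    have h2 := Subgroup.card_mul_index K
    have h3 := Subgroup.card_mul_index (T : Subgroup E.CY)
    rw [hcard] at h1
    rw [hK.index] at h2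
    rw [hT16] at h3
    rw [show V₀.index = (T : Subgroup E.CY).index by omega]
    exact T.not_dvd_index
  exact ⟨(IsPGroup.of_card (n := 2) (by rw [hcard]; norm_num) : IsPGroup 2 V₀).toSylow hidx,
    hV₀, hcard⟩

theorem Comp.invol_conj_z (hA : E.CaseA) (hK : E.Comp K) {w : K} (hw : w * w = 1) (h1 : w ≠ 1) :
    IsConj z (((w : E.CY)) : G) := by
  haveI : Fact (Nat.Prime 2) := ⟨Nat.prime_two⟩
  obtain ⟨V, hV, -⟩ := hK.exists_sylow
  have hwp : IsPGroup 2 (Subgroup.zpowers w) :=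
    IsPGroup.of_card (n := 1) (by
      rw [Nat.card_zpowers, pow_one, orderOf_eq_prime (by rw [pow_two, hw]) h1])
  obtain ⟨V₂, hV₂⟩ := hwp.exists_le_sylow
  obtain ⟨g, hg⟩ := MulAction.exists_smul_eq K V₂ V
  have hm : g * w * g⁻¹ ∈ (V : Subgroup K) := by
    rw [← hg, Sylow.coe_subgroup_smul, Subgroup.mem_pointwise_smul_iff_inv_smul_mem]
    simpa [MulAut.smul_def, MulAut.conj_apply, mul_assoc] using hV₂ (Subgroup.mem_zpowers w)
  obtain ⟨i, hi, he⟩ := (hV _).1 hm
  have hi0 : i ≠ ix 0 := fun h => by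
    rw [h, E.e_one] at he
    exact h1 (conj_eq_one_iff.1 (Subtype.ext (Subtype.ext he.symm) : g * w * g⁻¹ = 1))
  have := (hA.isA_iff i).1 ((T_table.1 i hi).2.2.2 hi0)
  rw [he] at this
  exact this.trans (isConj_iff.2 ⟨((g : E.CY) : G), rfl⟩ : IsConj (((w : E.CY)) : G) _).symm

theorem Comp.cent_invol (hA : E.CaseA) (hK : E.Comp K) {t : K} (ht : orderOf t = 2) :
    IsMulCommutative (Subgroup.centralizer ({t} : Set K)) ∧
      ∀ c ∈ Subgroup.centralizer ({t} : Set K), c ^ 2 = 1 := by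
  have hne : t ≠ 1 := fun e => by rw [e, orderOf_one] at ht; norm_num at ht
  have hz := hK.invol_conj_z hA (by rw [← pow_two, ← ht, pow_orderOf_eq_one]) hne
  obtain ⟨h, hh, hht⟩ := hA.conj_z_in_CY hz (t : E.CY).2
  have key : ∀ c ∈ Subgroup.centralizer ({t} : Set K), ∃ i ∈ fourI,
      E.e i = h⁻¹ * ((c : E.CY) : G) * h := by
    intro c hc
    have hct := congrArg (fun x : K => ((x : E.CY) : G)) (Subgroup.mem_centralizer_singleton_iff.1 hc)
    refine hK.inf_z (w := (⟨h, hh⟩ : E.CY)⁻¹ * (c : E.CY) * (⟨h, hh⟩ : E.CY)) ?_ ?_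
    · simpa using hK.normal.conj_mem _ c.2 (⟨h, hh⟩ : E.CY)⁻¹
    · show h⁻¹ * ((c : E.CY) : G) * h * z = z * (h⁻¹ * ((c : E.CY) : G) * h)
      refine (conj_commute_iff (g := h)).1 ?_
      rw [show h * (h⁻¹ * ((c : E.CY) : G) * h) * h⁻¹ = ((c : E.CY) : G) by group, hht]
      exact hct
  refine ⟨⟨⟨fun a b => Subtype.ext (Subtype.ext (Subtype.ext ?_))⟩⟩, fun c hc => ?_⟩
  · obtain ⟨i, hi, hi'⟩ := key a a.2
    obtain ⟨j, hj, hj'⟩ := key b b.2
    have h2 := four_comm (E := E) hi hj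
    rw [hi', hj'] at h2
    exact (conj_commute_iff (g := h⁻¹)).1 (by rw [inv_inv]; exact h2)
  · obtain ⟨i, hi, hi'⟩ := key c hc
    have h2 := four_sq (E := E) hi
    rw [hi'] at h2
    refine Subtype.ext (Subtype.ext ?_)
    show ((c : E.CY) : G) ^ 2 = 1
    rw [pow_two]
    calc ((c : E.CY) : G) * ((c : E.CY) : G)
        = h * (h⁻¹ * ((c : E.CY) : G) * h * (h⁻¹ * ((c : E.CY) : G) * h)) * h⁻¹ := by group
      _ = 1 := by rw [h2]; group

/-- Either few conjugates of `z` commute with `y`, or `K` has order 60 and acts on five points. -/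
theorem Comp.dichotomy (hA : E.CaseA) (hK : E.Comp K) :
    (Nat.card E.CY = 48 ∧ ∀ u, u ∈ E.CY → IsConj z u → ∃ i ∈ fourI, E.e i = u) ∨
      (Nat.card K = 60 ∧ ∃ f : E.CY →* Equiv.Perm (Fin 5),
        Function.Injective (f.comp K.subtype) ∧ f ⟨E.e yI, E.e_mem_CY tI_facts.2.2.1⟩ = 1) := by
  classical
  haveI : Fact (Nat.Prime 2) := ⟨Nat.prime_two⟩
  obtain ⟨V, hV, hV4⟩ := hK.exists_sylow
  by_cases hn : (V : Subgroup K).Normal
  · left
    have hmem : ∀ u, u ∈ E.CY → IsConj z u → ∃ i ∈ fourI, E.e i = u := by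
      intro u hu huz
      have huK : (⟨u, hu⟩ : E.CY) ∈ K := hK.z_class_mem _ huz
      obtain ⟨hu2, huo⟩ := sq_of_conj_two E.order_z huz
      have hup : IsPGroup 2 (Subgroup.zpowers (⟨⟨u, hu⟩, huK⟩ : K)) :=
        IsPGroup.of_card (n := 1) (by
          rw [Nat.card_zpowers, ← Subgroup.orderOf_coe, ← Subgroup.orderOf_coe, pow_one]; exact huo)
      obtain ⟨V₂, hV₂⟩ := hup.exists_le_sylow
      haveI := Sylow.unique_of_normal V hn
      rw [Subsingleton.elim V₂ V] at hV₂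
      obtain ⟨i, hi, he⟩ := (hV _).1 (hV₂ (Subgroup.mem_zpowers _))
      exact ⟨i, hi, he⟩
    refine ⟨?_, hmem⟩
    rw [hA.card_CY]
    have hset : ∀ u : G, u ∈ E.CY ∧ IsConj z u ↔ u ∈ ({z, E.e bI, E.e (mu bI zI)} : Finset G) := by
      intro u
      simp only [Finset.mem_insert, Finset.mem_singleton]
      constructor
      · rintro ⟨hu, huz⟩
        obtain ⟨i, hi, rfl⟩ := hmem u hu huz
        simp only [fourI, List.mem_cons, List.not_mem_nil, or_false] at hi
        rcases hi with rfl | rfl | rfl | rfl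
        · exact absurd (isConj_one_left.1 (E.e_one ▸ huz)) E.z_ne_one
        · exact Or.inl E.map_z
        · exact Or.inr (Or.inl rfl)
        · exact Or.inr (Or.inr rfl)
      · have key : ∀ i, i ∈ [zI, bI, mu bI zI] → E.e i ∈ E.CY ∧ IsConj z (E.e i) := by
          intro i hi
          have : i ∈ fourI ∧ i ≠ ix 0 := by
            revert i
            decide +kernel
          exact ⟨E.e_mem_CY (T_table.1 i this.1).1, (hA.isA_iff i).1 ((T_table.1 i this.1).2.2.2 this.2)⟩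
        rintro (rfl | rfl | rfl)
        · exact ⟨E.z_mem_CY, IsConj.refl _⟩
        · exact key bI (by simp)
        · exact key (mu bI zI) (by simp)
    rw [zInCY, Nat.card_congr (Equiv.subtypeEquivRight hset), Nat.card_eq_finsetCard,
      Finset.card_eq_three.2 ⟨z, E.e bI, E.e (mu bI zI), ?_, ?_, ?_, rfl⟩]
    · intro h
      exact tI_facts.2.2.2.2.2.2.2.2.2.2.2.2.2.2.2.2.2.2.2 (E.inj (h.symm.trans E.map_z.symm))
    · intro h
      exact tI_facts.2.2.2.2.2.2.2.2.2.2.2.2.2.2.2.2.2.2.1 (E.inj (h.symm.trans E.map_z.symm))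
    · intro h
      exact tI_facts.2.2.2.2.2.2.2.2.2.2.2.2.2.2.2.2.2.1 (E.inj h.symm)
  · right
    have hncyc : ¬ IsCyclic (V : Subgroup K) := by
      intro hc
      have h1 := hc.exponent_eq_card
      have h2 : Monoid.exponent (V : Subgroup K) ∣ 2 :=
        Monoid.exponent_dvd_of_forall_pow_eq_one fun w => by
          obtain ⟨i, hi, he⟩ := (hV _).1 w.2
          refine Subtype.ext (Subtype.ext (Subtype.ext ?_))
          show (((w : K) : E.CY) : G) ^ 2 = 1
          rw [pow_two, ← he, four_sq hi]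
      rw [h1, hV4] at h2
      norm_num at h2
    have hyp : TwoFusion.BSW.Hyp V := ⟨hncyc, hn, fun t ht => hK.cent_invol hA ht⟩
    obtain ⟨a, ha⟩ := TwoFusion.BSW.exists_not_mem hyp
    have hN12 : Nat.card (TwoFusion.BSW.nT V) = 12 := by
      rw [TwoFusion.BSW.card_nT hyp ha, show Nat.card V = 4 from hV4]
    have h5 : (TwoFusion.BSW.nT V).index = 5 := by
      have h1 := TwoFusion.BSW.card_outside hyp
      haveI : Fintype (K ⧸ TwoFusion.BSW.nT V) := Fintype.ofFinite _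
      have h2 : Nat.card {q : K ⧸ TwoFusion.BSW.nT V // q ≠ QuotientGroup.mk 1} =
          Nat.card (K ⧸ TwoFusion.BSW.nT V) - 1 := by
        rw [Nat.card_eq_fintype_card, Nat.card_eq_fintype_card, Fintype.card_subtype_compl,
          Fintype.card_subtype_eq]
      rw [h2, show Nat.card V = 4 from hV4] at h1
      rw [Subgroup.index_eq_card]
      omega
    have h60 : Nat.card K = 60 := by
      rw [← Subgroup.card_mul_index (TwoFusion.BSW.nT V), hN12, h5]
    refine ⟨h60, ?_⟩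
    have hs5 : Nat.card (Sylow 2 K) = 5 := by rw [Sylow.card_eq_index_normalizer V]; exact h5
    haveI := hK.normal
    let e5 : Sylow 2 K ≃ Fin 5 := Finite.equivFinOfCardEq hs5
    let f : E.CY →* Equiv.Perm (Fin 5) :=
      e5.permCongrHom.toMonoidHom.comp
        ((MulAction.toPermHom (MulAut K) (Sylow 2 K)).comp MulAut.conjNormal)
    refine ⟨f, ?_, ?_⟩
    · rw [injective_iff_map_eq_one]
      intro g hg
      have hfix : ∀ P : Sylow 2 K, g • P = P := by
        intro P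
        have h1 : (MulAction.toPermHom (MulAut K) (Sylow 2 K)) (MulAut.conjNormal (g : E.CY)) = 1 :=
          e5.permCongrHom.injective (hg.trans (map_one _).symm)
        have h2 := Equiv.Perm.congr_fun h1 P
        rw [MulAction.toPermHom_apply, MulAction.toPerm_apply, MulAut.conjNormal_val] at h2
        exact h2
      have hgN : ∀ c : K, c⁻¹ * g * c ∈ TwoFusion.BSW.nT V := by
        intro c
        have h1 : (c⁻¹ * g * c) • V = V := by rw [mul_smul, mul_smul, hfix, inv_smul_smul]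
        exact Sylow.smul_eq_iff_mem_normalizer.1 h1
      have hdD : ∀ c : K, g ∈ TwoFusion.BSW.dD V c := by
        intro c
        refine ⟨by simpa using hgN 1, ?_⟩
        refine ⟨c⁻¹ * g * c, hgN c, ?_⟩
        show c * (c⁻¹ * g * c) * c⁻¹ = g
        group
      obtain ⟨t, ht, htne⟩ : ∃ t ∈ (V : Subgroup K), t ≠ 1 := by
        haveI : Nontrivial (V : Subgroup K) := Finite.one_lt_card_iff_nontrivial.1 (by rw [hV4]; norm_num)
        obtain ⟨t, ht⟩ := exists_ne (1 : (V : Subgroup K))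
        exact ⟨t, t.2, fun e => ht (Subtype.ext e)⟩
      have htN : t ∈ TwoFusion.BSW.nT V := TwoFusion.BSW.le_nT ht
      have hb : t * a ∉ TwoFusion.BSW.nT V := fun h => ha (by
        have := mul_mem (inv_mem htN) h
        rwa [inv_mul_cancel_left] at this)
      have hab : a⁻¹ * (t * a) ∉ TwoFusion.BSW.nT V := fun h => htne (by
        refine TwoFusion.BSW.T_semireg hyp ht (one_mem _) ha ?_
        rw [one_smul, TwoFusion.BSW.smul_mk_iff, mul_assoc]
        exact h)
      exact TwoFusion.BSW.three_fixed hyp ha hb hab (hdD a) (hdD (t * a))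
    · have : MulAut.conjNormal (⟨E.e yI, E.e_mem_CY tI_facts.2.2.1⟩ : E.CY) = (1 : MulAut K) := by
        refine MulEquiv.ext fun k => Subtype.ext (Subtype.ext ?_)
        rw [MulAut.conjNormal_apply]
        show E.e yI * ((k : E.CY) : G) * (E.e yI)⁻¹ = ((k : E.CY) : G)
        rw [← E.mem_CY.1 (k : E.CY).2, mul_inv_cancel_right]
      show e5.permCongrHom ((MulAction.toPermHom (MulAut K) (Sylow 2 K))
        (MulAut.conjNormal (⟨E.e yI, E.e_mem_CY tI_facts.2.2.1⟩ : E.CY))) = 1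
      rw [this, map_one, map_one]

end Cfsg.Agent.M12Type.Emb
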