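import Cfsg.Agent.M12Type.Emb
import Cfsg.Agent.Invol.IndexTwo
import Cfsg.Agent.S0215
import Mathlib.GroupTheory.Sylow

/-!
Fusion of involutions in a simple group with the centraliser of an involution given by the table.
-/

set_option autoImplicit false

namespace Cfsg.Agent.M12Type.Emb

open Cfsg

variable {G : Type*} [Group G] [Finite G] {z : G} (E : Emb G z)

/-- The Sylow subgroup inside the centraliser. -/
theorem exists_sylow : ∃ S : Sylow 2 G, (∀ g, g ∈ (S : Subgroup G) ↔ ∃ i ∈ sI, E.e i = g) ∧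
    Nat.card (S : Subgroup G) = 64 := by
  haveI : Fact (Nat.Prime 2) := ⟨Nat.prime_two⟩
  obtain ⟨hlen, hnd, h0, hz, -, hiv, hmu, hgens⟩ := sI_facts
  obtain ⟨H, hH, hcard⟩ := E.exists_sub h0 hiv hmu hnd
  rw [hlen] at hcard
  obtain ⟨S, hS⟩ := (IsPGroup.of_card (n := 6) (by rw [hcard]; norm_num) : IsPGroup 2 H).exists_le_sylow
  suffices h : (S : Subgroup G) = H from ⟨S, fun g => by rw [h]; exact hH g, by rw [h, hcard]⟩
  haveI : Nontrivial (S : Subgroup G) :=
    ⟨⟨⟨z, hS ((hH z).2 ⟨zI, hz, E.map_z⟩)⟩, 1, fun h => E.z_ne_one (congrArg Subtype.val h)⟩⟩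
  haveI := S.isPGroup'.center_nontrivial
  obtain ⟨⟨c, hc⟩, hc1⟩ := exists_ne (1 : Subgroup.center (S : Subgroup G))
  have hcomm : ∀ w ∈ (S : Subgroup G), w * c = c * w := fun w hw =>
    congrArg Subtype.val (Subgroup.mem_center_iff.1 hc ⟨w, hw⟩)
  obtain ⟨i, hi⟩ := E.mem_range (c : G) (hcomm z (hS ((hH z).2 ⟨zI, hz, E.map_z⟩))).symm
  rcases sI_center i (fun s hs => (E.commute_iff i s).1 (by
      rw [hi]; exact (hcomm _ (hS ((hH _).2 ⟨s, hgens s hs, rfl⟩))).symm)) with rfl | rfl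
  · exact absurd (Subtype.ext (Subtype.ext (hi.symm.trans E.e_one))) hc1
  have hle : (S : Subgroup G) ≤ Subgroup.centralizer ({z} : Set G) := fun w hw =>
    Subgroup.mem_centralizer_singleton_iff.2 (by rw [← E.map_z, hi]; exact hcomm w hw)
  have h1 := Subgroup.card_dvd_of_le hle
  rw [E.card_centralizer] at h1
  obtain ⟨k, hk⟩ := S.isPGroup'.exists_card_eq
  rw [hk] at h1
  have hk6 : k ≤ 6 := by
    by_contra hk7
    have h2 : 2 ^ 7 ∣ 192 := dvd_trans (pow_dvd_pow 2 (by omega)) h1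
    norm_num at h2
  refine (Subgroup.eq_of_le_of_card_ge hS ?_).symm
  rw [hk, hcard]
  exact (Nat.pow_le_pow_right two_pos hk6).trans (by norm_num)

theorem exists_conj_index {u : G} (hu : orderOf u = 2) :
    ∃ (g : G) (i : Ix), i ∈ sI ∧ 1 ≤ cls i ∧ cls i ≤ 4 ∧ g * u * g⁻¹ = E.e i := by
  haveI : Fact (Nat.Prime 2) := ⟨Nat.prime_two⟩
  obtain ⟨S, hS, -⟩ := E.exists_sylow
  have hup : IsPGroup 2 (Subgroup.zpowers u) :=
    IsPGroup.of_card (n := 1) (by rw [Nat.card_zpowers, hu, pow_one])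
  obtain ⟨S₂, hS₂⟩ := hup.exists_le_sylow
  obtain ⟨g, hg⟩ := MulAction.exists_smul_eq G S₂ S
  have hm : g * u * g⁻¹ ∈ (S : Subgroup G) := by
    rw [← hg, Sylow.coe_subgroup_smul, Subgroup.mem_pointwise_smul_iff_inv_smul_mem]
    simpa [MulAut.smul_def, MulAut.conj_apply, mul_assoc] using hS₂ (Subgroup.mem_zpowers u)
  obtain ⟨i, hi, he⟩ := (hS _).1 hm
  have ho : orderOf (E.e i) = 2 := by
    rw [he, ← hu, ← MulAut.conj_apply, MulEquiv.orderOf_eq]
  obtain ⟨h1, h4⟩ := E.cls_of_order_two ho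
  exact ⟨g, i, hi, h1, h4, he.symm⟩

/-- Every involution is conjugate to one of the four representatives. -/
theorem four_classes {u : G} (hu : orderOf u = 2) :
    IsConj z u ∨ IsConj (E.e bI) u ∨ IsConj (E.e yI) u ∨ IsConj (E.e gI) u := by
  obtain ⟨g, i, -, h1, h4, he⟩ := E.exists_conj_index hu
  have hiu : IsConj (E.e i) u := (isConj_iff.2 ⟨g, he⟩ : IsConj u (E.e i)).symm
  obtain ⟨c1, c2, c3, c4⟩ := E.isConj_rep i
  have hc : cls i = 1 ∨ cls i = 2 ∨ cls i = 3 ∨ cls i = 4 := by omega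
  rcases hc with h | h | h | h
  · exact Or.inl (by rw [← E.map_z]; exact (c1 h) ▸ hiu)
  · exact Or.inr (Or.inl ((c2 h).trans hiu))
  · exact Or.inr (Or.inr (Or.inl ((c3 h).trans hiu)))
  · exact Or.inr (Or.inr (Or.inr ((c4 h).trans hiu)))

omit [Finite G] in
/-- A conjugate of `z` in the centraliser. -/
theorem image_z {g : G} {a : Ix} (h1 : g * E.e a * g⁻¹ = z) (hne : a ≠ zI) :
    ∃ w : Ix, g * z * g⁻¹ = E.e w ∧ w ≠ zI ∧ 1 ≤ cls w ∧ cls w ≤ 4 := by
  have hz : Commute (g * z * g⁻¹) (g * E.e a * g⁻¹) :=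
    conj_commute_iff.2 (E.comm_z a).symm
  rw [h1] at hz
  obtain ⟨w, hw⟩ := E.mem_range _ hz.eq
  have ho : orderOf (E.e w) = 2 := by
    rw [hw, ← E.order_z, ← MulAut.conj_apply, MulEquiv.orderOf_eq]
  refine ⟨w, hw.symm, fun h => hne (E.inj ?_), E.cls_of_order_two ho⟩
  rw [h, E.map_z] at hw
  rw [E.map_z]
  calc E.e a = g⁻¹ * (g * E.e a * g⁻¹) * g := by group
    _ = g⁻¹ * (g * z * g⁻¹) * g := by rw [h1, ← hw]
    _ = z := by group

omit [Finite G] in
theorem y_not_conj : ¬ IsConj z (E.e yI) := by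
  intro h
  obtain ⟨g, hg⟩ := isConj_iff.1 h.symm
  obtain ⟨w, hw, hwz, hw1, hw4⟩ := E.image_z hg (by decide +kernel)
  obtain ⟨hcc, f, hf, -⟩ := E.cent_map hg hw
  have hw3 : cls w = 3 := (cc_cls w hw1 hw4).1 (hcc.symm.trans cc_reps.1)
  obtain ⟨c, hc, hcz⟩ : ∃ c : Ix, cm c yI = true ∧ mu c c = zI := by decide +kernel
  refine sq_not_y (f c) ?_
  have hcc' : E.e c * E.e c = z := by rw [← E.map_mu, hcz, E.map_z]
  have : mu (f c) (f c) = w := E.inj (by
    rw [E.map_mu, (hf c hc).1, ← hw]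
    calc g * E.e c * g⁻¹ * (g * E.e c * g⁻¹) = g * (E.e c * E.e c) * g⁻¹ := by group
      _ = g * z * g⁻¹ := by rw [hcc'])
  rw [this, hw3]

omit [Finite G] in
theorem b_conj_of_g (h : IsConj z (E.e gI)) : IsConj z (E.e bI) := by
  obtain ⟨g, hg⟩ := isConj_iff.1 h.symm
  obtain ⟨w, hw, -, hw1, hw4⟩ := E.image_z hg (by decide +kernel)
  obtain ⟨hcc, -⟩ := E.cent_map hg hw
  have hw4' : cls w = 4 := (cc_cls w hw1 hw4).2 (hcc.symm.trans cc_reps.2)
  -- move `w` back to the representative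
  have hl := (cls_wit w).2.2.2 hw4'
  set g' := E.e (wit w) * g with hg'
  have hg1 : g' * E.e gI * g'⁻¹ = z := by
    rw [hg', show E.e (wit w) * g * E.e gI * (E.e (wit w) * g)⁻¹ =
      E.e (wit w) * (g * E.e gI * g⁻¹) * (E.e (wit w))⁻¹ by group, hg]
    rw [E.comm_z, mul_inv_cancel_right]
  have hg2 : g' * z * g'⁻¹ = E.e gI := by
    rw [hg', show E.e (wit w) * g * z * (E.e (wit w) * g)⁻¹ =
      E.e (wit w) * (g * z * g⁻¹) * (E.e (wit w))⁻¹ by group, hw, ← E.e_cj, hl]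
  obtain ⟨-, f, hf, -⟩ := E.cent_map hg1 hg2
  obtain ⟨x₀, hx0, hx2, hgx⟩ : ∃ x : Ix, cm x gI = true ∧ cls x = 2 ∧
      cls (mu gI x) = 4 ∧ cm (mu gI x) gI = true ∧ x ≠ ix 0 ∧ x ≠ zI ∧ x ≠ gI ∧ x ≠ mu gI zI ∧
      x ≠ mu zI gI := by
    decide +kernel
  obtain ⟨hgx4, hgxc, hn0, hnz, hng, hngz, -⟩ := hgx
  have hgz : cm zI gI = true ∧ cm gI gI = true ∧ cm (mu gI zI) gI = true ∧ cm (ix 0) gI = true := by
    decide +kernel
  have hfinj : ∀ i j, cm i gI = true → cm j gI = true → f i = f j → i = j := fun i j hi hj he => by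
    have h' : E.e (f i) = E.e (f j) := congrArg E.e he
    rw [(hf i hi).1, (hf j hj).1] at h'
    exact E.inj (mul_left_cancel (mul_right_cancel h'))
  have f0 : f (ix 0) = ix 0 := E.inj (by rw [(hf _ hgz.2.2.2).1, E.e_one]; group)
  have fz : f zI = gI := E.inj (by rw [(hf _ hgz.1).1, E.map_z, hg2])
  have fg : f gI = zI := E.inj (by rw [(hf _ hgz.2.1).1, E.map_z, hg1])
  have fgz : f (mu gI zI) = mu gI zI := E.inj (by
    rw [(hf _ hgz.2.2.1).1, E.map_mu, E.map_z]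
    calc g' * (E.e gI * z) * g'⁻¹ = (g' * E.e gI * g'⁻¹) * (g' * z * g'⁻¹) := by group
      _ = z * E.e gI := by rw [hg1, hg2]
      _ = E.e gI * z := (E.comm_z gI).symm)
  have hgz2 : IsConj z (E.e gI) := h
  rcases g_step (f x₀) (hf x₀ hx0).2
      (fun e => hn0 (hfinj _ _ hx0 hgz.2.2.2 (e.trans f0.symm)))
      (fun e => hng (hfinj _ _ hx0 hgz.2.1 (e.trans fg.symm)))
      (fun e => hnz (hfinj _ _ hx0 hgz.1 (e.trans fz.symm)))
      (fun e => hngz (hfinj _ _ hx0 hgz.2.2.1 (e.trans fgz.symm))) with h4 | h2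
  · have e1 : IsConj (E.e gI) (E.e x₀) := ((E.isConj_rep _).2.2.2 h4).trans
      (isConj_iff.2 ⟨g', (hf x₀ hx0).1.symm⟩ : IsConj (E.e x₀) (E.e (f x₀))).symm
    exact (hgz2.trans e1).trans ((E.isConj_rep x₀).2.1 hx2).symm
  · have e2 : E.e (mu zI (f x₀)) = g' * E.e (mu gI x₀) * g'⁻¹ := by
      rw [E.map_mu, E.map_mu, E.map_z, (hf x₀ hx0).1]
      calc z * (g' * E.e x₀ * g'⁻¹) = (g' * E.e gI * g'⁻¹) * (g' * E.e x₀ * g'⁻¹) := by rw [hg1]
        _ = _ := by group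
    have e3 : IsConj (E.e gI) (E.e bI) := ((E.isConj_rep _).2.2.2 hgx4).trans
      ((isConj_iff.2 ⟨g', e2.symm⟩ : IsConj (E.e (mu gI x₀)) (E.e (mu zI (f x₀)))).trans
        ((E.isConj_rep _).2.1 h2).symm)
    exact hgz2.trans e3

variable [IsSimpleGroup G] (hG : ¬ IsMulCommutative G)
include hG

omit [Finite G] in
theorem no_index_two : ∀ H : Subgroup G, H.index ≠ 2 := by
  intro H hH
  haveI := Subgroup.normal_of_index_eq_two hH
  rcases (inferInstance : H.Normal).eq_bot_or_eq_top with rfl | rfl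
  · rw [Subgroup.index_bot] at hH
    haveI : Fact (Nat.Prime 2) := ⟨Nat.prime_two⟩
    haveI : IsCyclic G := isCyclic_of_prime_card hH
    letI := IsCyclic.commGroup (α := G)
    exact hG ⟨⟨fun a b => mul_comm a b⟩⟩
  · rw [Subgroup.index_top] at hH
    norm_num at hH

omit [Finite G] in
theorem not_central {u : G} (hu : ∀ g, g * u = u * g) : u = 1 := by
  rcases (inferInstance : (Subgroup.center G).Normal).eq_bot_or_eq_top with h | h
  · have : u ∈ Subgroup.center G := Subgroup.mem_center_iff.2 hu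
    rwa [h, Subgroup.mem_bot] at this
  · exact absurd ⟨⟨fun a b => Subgroup.mem_center_iff.1 (h ▸ Subgroup.mem_top b) a⟩⟩ hG

/-- `z` is fused with the second kind of involution. -/
theorem b_conj : IsConj z (E.e bI) := by
  obtain ⟨S, hS, -⟩ := E.exists_sylow
  by_contra hb
  have hiso : ∀ g : G, g * z * g⁻¹ ∈ S → g * z * g⁻¹ = z := by
    intro g hg
    obtain ⟨i, -, hi⟩ := (hS _).1 hg
    have hzi : IsConj z (E.e i) := isConj_iff.2 ⟨g, hi.symm⟩
    have ho : orderOf (E.e i) = 2 := by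
      rw [hi, ← E.order_z, ← MulAut.conj_apply, MulEquiv.orderOf_eq]
    obtain ⟨h1, h4⟩ := E.cls_of_order_two ho
    obtain ⟨c1, c2, c3, c4⟩ := E.isConj_rep i
    have hc : cls i = 1 ∨ cls i = 2 ∨ cls i = 3 ∨ cls i = 4 := by omega
    rcases hc with h | h | h | h
    · rw [← hi, c1 h, E.map_z]
    · exact absurd (hzi.trans (c2 h).symm) hb
    · exact absurd (hzi.trans (c3 h).symm) E.y_not_conj
    · exact absurd (E.b_conj_of_g (hzi.trans (c4 h).symm)) hb
  obtain ⟨N, hN, hodd, hcomm⟩ :=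
    S0215.result S z E.order_z ((hS z).2 ⟨zI, sI_facts.2.2.2.1, E.map_z⟩) hiso
  have hN1 : N = ⊥ := hN.eq_bot_or_eq_top.resolve_right fun e => by
    rw [e, Subgroup.card_top] at hodd
    have := Invol.even_card_of_orderOf_eq_two E.order_z
    exact (Nat.not_even_iff_odd.2 hodd) this
  refine E.z_ne_one (not_central hG fun g => ?_)
  have := hcomm g
  rw [hN1, Subgroup.mem_bot, mul_inv_eq_one, mul_inv_eq_iff_eq_mul] at this
  exact this.symm

/-- The fusion in the first case. -/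
theorem classesA (hA : IsConj z (E.e gI)) :
    (∀ i, 1 ≤ cls i → cls i ≤ 4 → (IsConj z (E.e i) ↔ isA i = true)) ∧
      ∀ u : G, orderOf u = 2 → IsConj z u ∨ IsConj (E.e yI) u := by
  have hb := E.b_conj hG
  refine ⟨fun i h1 h4 => ?_, fun u hu => ?_⟩
  · obtain ⟨c1, c2, c3, c4⟩ := E.isConj_rep i
    have hc : cls i = 1 ∨ cls i = 2 ∨ cls i = 3 ∨ cls i = 4 := by omega
    rcases hc with h | h | h | h
    · exact iff_of_true (by rw [c1 h, E.map_z]) (by simp [isA, h])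
    · exact iff_of_true (hb.trans (c2 h)) (by simp [isA, h])
    · exact iff_of_false (fun hh => E.y_not_conj (hh.trans (c3 h).symm)) (by simp [isA, h])
    · exact iff_of_true (hA.trans (c4 h)) (by simp [isA, h])
  · rcases E.four_classes hu with h | h | h | h
    · exact Or.inl h
    · exact Or.inl (hb.trans h)
    · exact Or.inr h
    · exact Or.inl (hA.trans h)

/-- The fusion in the second case. -/
theorem classesB (hB : ¬ IsConj z (E.e gI)) :
    (∀ i, 1 ≤ cls i → cls i ≤ 4 → (IsConj z (E.e i) ↔ clsB i = 1)) ∧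
      (∀ i, 1 ≤ cls i → cls i ≤ 4 → (IsConj (E.e yI) (E.e i) ↔ clsB i = 3)) ∧
      ∀ u : G, orderOf u = 2 → IsConj z u ∨ IsConj (E.e yI) u := by
  haveI : Fact (Nat.Prime 2) := ⟨Nat.prime_two⟩
  have hb := E.b_conj hG
  obtain ⟨S, hS, hScard⟩ := E.exists_sylow
  obtain ⟨hlen, hnd, h0, hiv, hmu, hsub⟩ := qI_facts
  obtain ⟨M, hM, hMcard⟩ := E.exists_sub h0 hiv hmu hnd
  have hgo : orderOf (E.e gI) = 2 :=
    E.order_two (by rw [cls_reps.2.2.2.1]; norm_num) (by rw [cls_reps.2.2.2.1])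
  obtain ⟨g, hg⟩ := Invol.exists_conj_mem_of_no_index_two (no_index_two hG) S M
    (by rw [hMcard, hlen, hScard]) hgo
  obtain ⟨q, hq, hqe⟩ := (hM _).1 hg
  have hgq : IsConj (E.e gI) (E.e q) := isConj_iff.2 ⟨g⁻¹, by rw [hqe, inv_inv]⟩
  have hyg : IsConj (E.e yI) (E.e gI) := by
    obtain ⟨h1, h4⟩ := E.cls_of_order_two (by
      rw [hqe, show g⁻¹ * E.e gI * g = MulAut.conj g⁻¹ (E.e gI) by simp, MulEquiv.orderOf_eq, hgo])
    obtain ⟨c1, c2, c3, -⟩ := E.isConj_rep q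
    have hc : cls q = 1 ∨ cls q = 2 ∨ cls q = 3 := by have := (hsub q hq).2; omega
    rcases hc with h | h | h
    · refine absurd ?_ hB
      have := hgq.symm
      rwa [c1 h, E.map_z] at this
    · exact absurd ((hb.trans (c2 h)).trans hgq.symm) hB
    · exact (c3 h).trans hgq.symm
  refine ⟨fun i h1 h4 => ?_, fun i h1 h4 => ?_, fun u hu => ?_⟩
  · obtain ⟨c1, c2, c3, c4⟩ := E.isConj_rep i
    have hc : cls i = 1 ∨ cls i = 2 ∨ cls i = 3 ∨ cls i = 4 := by omega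
    rcases hc with h | h | h | h
    · exact iff_of_true (by rw [c1 h, E.map_z]) (by simp [clsB, h])
    · exact iff_of_true (hb.trans (c2 h)) (by simp [clsB, h])
    · exact iff_of_false (fun hh => E.y_not_conj (hh.trans (c3 h).symm)) (by simp [clsB, h])
    · exact iff_of_false (fun hh => hB (hh.trans (c4 h).symm)) (by simp [clsB, h])
  · obtain ⟨c1, c2, c3, c4⟩ := E.isConj_rep i
    have hc : cls i = 1 ∨ cls i = 2 ∨ cls i = 3 ∨ cls i = 4 := by omega
    rcases hc with h | h | h | h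
    · refine iff_of_false (fun hh => E.y_not_conj ?_) (by simp [clsB, h])
      rw [c1 h, E.map_z] at hh
      exact hh.symm
    · exact iff_of_false (fun hh => E.y_not_conj ((hb.trans (c2 h)).trans hh.symm)) (by simp [clsB, h])
    · exact iff_of_true (c3 h) (by simp [clsB, h])
    · exact iff_of_true (hyg.trans (c4 h)) (by simp [clsB, h])
  · rcases E.four_classes hu with h | h | h | h
    · exact Or.inl h
    · exact Or.inl (hb.trans h)
    · exact Or.inr h
    · exact Or.inr (hyg.trans h)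

end Cfsg.Agent.M12Type.Emb
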