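import Cfsg.Agent.M12Type.Order
import Cfsg.Agent.M12Type.CaseB
import Cfsg.Agent.M12Type.RMap
import Cfsg.Agent.M12Type.Enum.Rels

/-!
Two further elements satisfying the relators.
-/

set_option autoImplicit false

namespace Cfsg.Agent.M12Type

open Cfsg

/-- a double transposition -/
def z5 : Equiv.Perm (Fin 5) := ⟨![1, 0, 3, 2, 4], ![1, 0, 3, 2, 4], by decide, by decide⟩

/-- another double transposition -/
def b5 : Equiv.Perm (Fin 5) := ⟨![2, 3, 0, 1, 4], ![2, 3, 0, 1, 4], by decide, by decide⟩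

set_option synthInstance.maxSize 4000 in
set_option synthInstance.maxHeartbeats 400000 in
theorem four_std : ∀ a : Equiv.Perm (Fin 5), a * a = 1 → a ≠ 1 → Equiv.Perm.sign a = 1 →
    ∀ b : Equiv.Perm (Fin 5), b * b = 1 → b ≠ 1 → Equiv.Perm.sign b = 1 → a * b = b * a → a ≠ b →
    ∃ σ : Equiv.Perm (Fin 5), σ * a = z5 * σ ∧ σ * b = b5 * σ := by
  decide +kernel

set_option synthInstance.maxSize 4000 in
set_option synthInstance.maxHeartbeats 400000 in
theorem five_gens : ∀ p : Equiv.Perm (Fin 5), p * p = 1 → p * z5 = z5 * p → p * b5 * p = b5 * z5 →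
    ∃ k : Equiv.Perm (Fin 5), Equiv.Perm.sign k = 1 ∧ k * k * k = 1 ∧ k * z5 = b5 * k ∧
      k * b5 = b5 * z5 * k ∧ p * k * p * k = 1 ∧
      ∃ u : Equiv.Perm (Fin 5), Equiv.Perm.sign u = 1 ∧ u * u * u = 1 ∧ u ≠ 1 ∧ u * p = p * u ∧
        z5 * u * z5 * u = 1 ∧ z5 * k * u * (z5 * k * u) = 1 ∧
        ∀ g : Equiv.Perm (Fin 5), Equiv.Perm.sign g = 1 → g * g * g = 1 → g * p = p * g →
          g = 1 ∨ g = u ∨ g = u * u := by
  decide +kernel

namespace Emb

variable {G : Type*} [Group G] {z : G} (E : Emb G z)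

/-- The two further elements. -/
structure KU (k U : G) : Prop where
  k3 : k * k * k = 1
  U3 : U * U * U = 1
  ky : k * E.e yI = E.e yI * k
  aka : E.e aI * k * (E.e aI)⁻¹ * k = 1
  Uy : U * E.e yI = E.e yI * U
  Ua : U * E.e aI = E.e aI * U
  zUz : z * U * z⁻¹ * U = 1
  nU : E.e nI * U = U * E.e nI
  zkU : z * k * U * (z * k * U) = 1
  kz : k * z * k⁻¹ = E.e bI
  kb : k * E.e bI * k⁻¹ = E.e (mu bI zI)

theorem sig_names : sig (mu bI zI) = mu bI zI := by
  rw [sig_mu, sig_facts.2.2.2.1, sig_facts.1]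

theorem KU.twist {k U : G} (h : E.KU k U) : E.twist.KU k U := by
  obtain ⟨hz, hy, ha, hb, hn, -⟩ := sig_facts
  refine ⟨h.k3, h.U3, ?_, ?_, ?_, ?_, h.zUz, ?_, h.zkU, ?_, ?_⟩ <;>
    simp only [Emb.twist, hy, ha, hb, hn, sig_names]
  · exact h.ky
  · exact h.aka
  · exact h.Uy
  · exact h.Ua
  · exact h.nU
  · exact h.kz
  · exact h.kb

variable [Finite G]

theorem CaseA.exists_KU {E : Emb G z} (hA : E.CaseA) {K : Subgroup E.CY} (hM : Main E K) :
    ∃ k U : G, E.KU k U := by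
  classical
  obtain ⟨f, hinj, hrange, hfy⟩ := hM.act
  haveI := hM.comp.normal
  have hK := hM.comp
  have hbz : IsConj z (E.e bI) := (hA.isA_iff bI).1 (by simp [isA, cls_reps.2.1])
  let A : E.CY := ⟨E.e aI, E.e_mem_CY tI_facts.2.2.2.1⟩
  let Z : E.CY := ⟨z, E.z_mem_CY⟩
  let B : E.CY := ⟨E.e bI, E.e_mem_CY tI_facts.2.2.2.2.1⟩
  have hZK : Z ∈ K := hK.z_class_mem Z (IsConj.refl z)
  have hBK : B ∈ K := hK.z_class_mem B hbz
  let F := f.comp K.subtype
  have hsign : ∀ g : K, Equiv.Perm.sign (F g) = 1 := fun g =>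
    Equiv.Perm.mem_alternatingGroup.1 (hrange ▸ ⟨g, rfl⟩)
  have hZ2 : Z * Z = 1 := Subtype.ext (sq_of_conj_two E.order_z (IsConj.refl z)).1
  have hB2 : B * B = 1 := Subtype.ext (sq_of_conj_two E.order_z hbz).1
  have hA2 : A * A = 1 :=
    Subtype.ext (sq_of_conj_two E.order_y ((E.isConj_rep aI).2.2.1 cls_reps.2.2.2.2)).1
  have hAZ : A * Z = Z * A := Subtype.ext (E.comm_z aI)
  have hAB : A * B * A = B * Z := by
    have h1 : A * B * A⁻¹ = B * Z := Subtype.ext (by
      show E.e aI * E.e bI * (E.e aI)⁻¹ = E.e bI * z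
      rw [← E.e_cj, tI_facts.2.2.2.2.2.2.2.2.2.2.1, E.map_mu, E.map_z])
    rwa [inv_eq_of_mul_eq_one_right hA2] at h1
  obtain ⟨σ, hσz, hσb⟩ := four_std (F ⟨Z, hZK⟩)
    (by rw [← map_mul, show (⟨Z, hZK⟩ : K) * ⟨Z, hZK⟩ = 1 from Subtype.ext hZ2, map_one])
    (fun h => E.z_ne_one (congrArg (fun w : K => ((w : E.CY) : G)) (hinj (h.trans (map_one F).symm)) :))
    (hsign _) (F ⟨B, hBK⟩)
    (by rw [← map_mul, show (⟨B, hBK⟩ : K) * ⟨B, hBK⟩ = 1 from Subtype.ext hB2, map_one])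
    (fun h => by
      have h1 : E.e bI = 1 := congrArg (fun w : K => ((w : E.CY) : G)) (hinj (h.trans (map_one F).symm))
      exact E.z_ne_one (isConj_one_left.1 (h1 ▸ hbz)))
    (hsign _)
    (by
      rw [← map_mul, ← map_mul]
      exact congrArg F (Subtype.ext (Subtype.ext (E.comm_z bI).symm)))
    (fun h => tI_facts.2.2.2.2.2.2.2.2.2.2.2.2.2.2.2.2.2.2.2
      (E.inj ((congrArg (fun w : K => ((w : E.CY) : G)) (hinj h) :).symm.trans E.map_z.symm)))
  let f' : E.CY →* Equiv.Perm (Fin 5) := (MulAut.conj σ).toMonoidHom.comp f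
  have hfz : f' Z = z5 := by
    show σ * f Z * σ⁻¹ = z5
    rw [show σ * f Z = z5 * σ from hσz, mul_inv_cancel_right]
  have hfb : f' B = b5 := by
    show σ * f B * σ⁻¹ = b5
    rw [show σ * f B = b5 * σ from hσb, mul_inv_cancel_right]
  have hinj' : ∀ v w : E.CY, v ∈ K → w ∈ K → f' v = f' w → v = w := fun v w hv hw h => by
    have h1 : f v = f w := mul_left_cancel (mul_right_cancel (show σ * f v * σ⁻¹ = σ * f w * σ⁻¹ from h))
    exact congrArg Subtype.val (hinj (a₁ := ⟨v, hv⟩) (a₂ := ⟨w, hw⟩) h1)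
  have hpre : ∀ π, Equiv.Perm.sign π = 1 → ∃ w : E.CY, w ∈ K ∧ f' w = π := by
    intro π hπ
    obtain ⟨w, hw⟩ : σ⁻¹ * π * σ ∈ F.range := hrange ▸ Equiv.Perm.mem_alternatingGroup.2 (by
      simp [hπ, mul_comm, mul_left_comm, Int.units_mul_self])
    refine ⟨w, w.2, ?_⟩
    show σ * F w * σ⁻¹ = π
    rw [hw]; group
  have hsign' : ∀ w ∈ K, Equiv.Perm.sign (f' w) = 1 := fun w hw => by
    show Equiv.Perm.sign (σ * F ⟨w, hw⟩ * σ⁻¹) = 1
    simp [hsign, mul_comm, Int.units_mul_self]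
  obtain ⟨k₀, hk0, hk3, hkz, hkb, hak, u₀, hu0, hu3, hu1, hup, hzu, hzku, huniq⟩ := five_gens (f' A)
    (by rw [← map_mul, hA2, map_one]) (by rw [← hfz, ← map_mul, ← map_mul, hAZ])
    (by rw [← hfz, ← hfb, ← map_mul, ← map_mul, ← map_mul, hAB])
  obtain ⟨k, hkK, hkf⟩ := hpre k₀ hk0
  obtain ⟨U, hUK, hUf⟩ := hpre u₀ hu0
  have hconjK : ∀ w ∈ K, A * w * A ∈ K := fun w hw => by
    have := hK.normal.conj_mem w hw A
    rwa [inv_eq_of_mul_eq_one_right hA2] at this
  have ek3 : k * k * k = 1 := hinj' _ _ (mul_mem (mul_mem hkK hkK) hkK) (one_mem _) (by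
    simp only [map_mul, map_one, hkf, hk3])
  have eU3 : U * U * U = 1 := hinj' _ _ (mul_mem (mul_mem hUK hUK) hUK) (one_mem _) (by
    simp only [map_mul, map_one, hUf, hu3])
  have ekz : k * Z = B * k := hinj' _ _ (mul_mem hkK hZK) (mul_mem hBK hkK) (by
    simp only [map_mul, hkf, hfz, hfb, hkz])
  have ekb : k * B = B * Z * k := hinj' _ _ (mul_mem hkK hBK) (mul_mem (mul_mem hBK hZK) hkK) (by
    simp only [map_mul, hkf, hfz, hfb, hkb])
  have eak : A * k * A * k = 1 := hinj' _ _ (mul_mem (hconjK k hkK) hkK) (one_mem _) (by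
    simp only [map_mul, map_one, hkf, hak])
  have ezu : Z * U * Z * U = 1 := hinj' _ _ (mul_mem (mul_mem (mul_mem hZK hUK) hZK) hUK) (one_mem _) (by
    simp only [map_mul, map_one, hfz, hUf, hzu])
  have ezku : Z * k * U * (Z * k * U) = 1 := hinj' _ _
    (mul_mem (mul_mem (mul_mem hZK hkK) hUK) (mul_mem (mul_mem hZK hkK) hUK)) (one_mem _) (by
    simp only [map_mul, map_one, hfz, hkf, hUf, hzku])
  have eua : A * U * A = U := hinj' _ _ (hconjK U hUK) hUK (by
    simp only [map_mul, hUf]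
    rw [← hup, mul_assoc, ← map_mul f', hA2, map_one, mul_one])
  -- the element of order 3 of the centraliser commutes with `U`
  have hUA : U * A = A * U := by
    conv_lhs => rw [← eua]
    rw [mul_assoc (A * U), hA2, mul_one]
  set n := E.e nI with hn
  obtain ⟨hn3, hny, hna, hnz⟩ := n_facts
  have hn3' : n * n * n = 1 := by
    rw [hn, ← E.map_mu, ← E.map_mu, hn3, E.e_one]
  have hny' : n * E.e yI * n⁻¹ = E.e aI := by rw [hn, ← E.e_cj, hny]
  have hna' : n * E.e aI * n⁻¹ = E.e yI * E.e aI := by rw [hn, ← E.e_cj, hna, E.map_mu]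
  have hUy' : Commute (U : G) (E.e yI) := E.mem_CY.1 U.2
  have hUa' : Commute (U : G) (E.e aI) := congrArg Subtype.val hUA
  set U' := n * (U : G) * n⁻¹ with hU'
  have hU'a : Commute U' (E.e aI) := by
    have := (conj_commute_iff (g := n)).2 hUy'
    rwa [hny', ← hU'] at this
  have hU'ya : Commute U' (E.e yI * E.e aI) := by
    have := (conj_commute_iff (g := n)).2 hUa'
    rwa [hna', ← hU'] at this
  have hU'y : Commute U' (E.e yI) := by
    have := hU'ya.mul_right hU'a.inv_right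
    rwa [mul_inv_cancel_right] at this
  let V : E.CY := ⟨U', E.mem_CY.2 hU'y.eq⟩
  have hV3 : V * V * V = 1 := Subtype.ext (by
    show n * (U : G) * n⁻¹ * (n * (U : G) * n⁻¹) * (n * (U : G) * n⁻¹) = 1
    calc _ = n * ((U : G) * (U : G) * (U : G)) * n⁻¹ := by group
      _ = 1 := by rw [show (U : G) * (U : G) * (U : G) = 1 from congrArg Subtype.val eU3]; group)
  have hVK : V ∈ K := by
    have h4 := hK.sq_mem (V * V)
    rwa [show V * V * (V * V) = (V * V * V) * V by group, hV3, one_mul] at h4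
  have hVA : V * A = A * V := Subtype.ext hU'a.eq
  have hcases := huniq (f' V) (hsign' V hVK) (by rw [← map_mul, ← map_mul, hV3, map_one])
    (by rw [← map_mul, ← map_mul, hVA])
  have hnU : n * (U : G) = (U : G) * n := by
    rcases hcases with h | h | h
    · exfalso
      have hV1 : V = 1 := hinj' _ _ hVK (one_mem _) (by rw [h, map_one])
      have : U' = 1 := congrArg Subtype.val hV1
      rw [hU', conj_eq_one_iff] at this
      have hU1 : U = 1 := Subtype.ext this
      exact hu1 (by rw [← hUf, hU1, map_one])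
    · have hVU : V = U := hinj' _ _ hVK hUK (by rw [h, hUf])
      exact mul_inv_eq_iff_eq_mul.1 (congrArg Subtype.val hVU :)
    · exfalso
      have hVU : V = U * U := hinj' _ _ hVK (mul_mem hUK hUK) (by rw [h, map_mul, hUf])
      have e1 : n * (U : G) * n⁻¹ = (U : G) * (U : G) := congrArg Subtype.val hVU
      have eU : (U : G) * (U : G) * (U : G) = 1 := congrArg Subtype.val eU3
      have e2 : n * ((U : G) * (U : G)) * n⁻¹ = (U : G) := by
        calc n * ((U : G) * (U : G)) * n⁻¹ = (n * (U : G) * n⁻¹) * (n * (U : G) * n⁻¹) := by group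
          _ = (U : G) * (U : G) * (U : G) * (U : G) := by rw [e1]; group
          _ = (U : G) := by rw [eU, one_mul]
      have e3 : (U : G) = (U : G) * (U : G) := by
        calc (U : G) = (n * n * n) * (U : G) * (n * n * n)⁻¹ := by rw [hn3']; group
          _ = n * (n * (n * (U : G) * n⁻¹) * n⁻¹) * n⁻¹ := by group
          _ = (U : G) * (U : G) := by rw [e1, e2, e1]
      have e4 : (U : G) = 1 := mul_eq_left.1 e3.symm
      exact hu1 (by rw [← hUf, show U = 1 from Subtype.ext e4, map_one])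
  have hai : (E.e aI)⁻¹ = E.e aI := inv_eq_of_mul_eq_one_right (congrArg Subtype.val hA2 :)
  have hzi : z⁻¹ = z := inv_eq_of_mul_eq_one_right (congrArg Subtype.val hZ2 :)
  refine ⟨k, U, ⟨congrArg Subtype.val ek3, congrArg Subtype.val eU3, E.mem_CY.1 k.2, ?_,
    E.mem_CY.1 U.2, hUa'.eq, ?_, hnU, congrArg Subtype.val ezku, ?_, ?_⟩⟩
  · rw [hai]; exact congrArg Subtype.val eak
  · rw [hzi]; exact congrArg Subtype.val ezu
  · rw [show (k : G) * z = E.e bI * k from congrArg Subtype.val ekz, mul_inv_cancel_right]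
  · rw [show (k : G) * E.e bI = E.e bI * z * k from congrArg Subtype.val ekb, mul_inv_cancel_right,
      E.map_mu, E.map_z]

omit [Finite G] in
theorem CaseA.clsA_eq {E : Emb G z} (hA : E.CaseA) {i j : Ix} (h : IsConj (E.e i) (E.e j)) :
    clsA i = clsA j := by
  have key : ∀ i : Ix, clsA i = if isA i then 1 else if cls i = 3 then 3 else if i = ix 0 then 0 else 5 := by
    decide +kernel
  have hy : ∀ i, (cls i = 3) ↔ IsConj (E.e yI) (E.e i) := fun i => by
    rw [← hA.isY_iff i, beq_iff_eq]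
  have hz : (isA i = true) ↔ (isA j = true) := by
    rw [hA.isA_iff, hA.isA_iff]; exact ⟨fun h' => h'.trans h, fun h' => h'.trans h.symm⟩
  have hy' : (cls i = 3) ↔ (cls j = 3) := by
    rw [hy, hy]; exact ⟨fun h' => h'.trans h, fun h' => h'.trans h.symm⟩
  have h0 : (i = ix 0) ↔ (j = ix 0) := by
    constructor <;> rintro rfl <;> rw [E.e_one] at h <;> apply E.inj <;> rw [E.e_one]
    · exact isConj_one_right.1 h
    · exact isConj_one_left.1 h
  rw [key i, key j]
  simp only [hz, hy', h0]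

/-- The two further elements with their action on `C(b)`. -/
theorem CaseA.exists_gens {E : Emb G z} (hA : E.CaseA) {K : Subgroup E.CY} (hM : Main E K) :
    ∃ (E' : Emb G z) (k U : G), E'.KU k U ∧
      k * E'.e (ix r3N) * k⁻¹ = E'.e ((f0Imgs.map ix).getD 0 (ix 0)) ∧
      k * E'.e (ix r4N) * k⁻¹ = E'.e ((f0Imgs.map ix).getD 1 (ix 0)) := by
  obtain ⟨k, U, h⟩ := hA.exists_KU hM
  have hex : ∀ i ∈ rI, ∃ j ∈ rI, E.e j = k * E.e i * k⁻¹ := by
    intro i hi
    have hb : Commute (E.e i) (E.e bI) := (E.commute_iff i bI).2 ((mem_rI i).2 hi)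
    have hbz : Commute (E.e i) (E.e (mu bI zI)) := by
      rw [E.map_mu, E.map_z]; exact hb.mul_right (E.comm_z i)
    have hz' : Commute (E.e i) z := E.comm_z i
    have h1 := (conj_commute_iff (g := k)).2 hz'
    have h2 := (conj_commute_iff (g := k)).2 hb
    rw [h.kz] at h1
    rw [h.kb, E.map_mu, E.map_z] at h2
    have h3 := h1.inv_right.mul_right h2
    rw [inv_mul_cancel_left] at h3
    obtain ⟨j, hj⟩ := E.mem_range _ h3.eq
    refine ⟨j, (mem_rI j).1 ((E.commute_iff j bI).1 ?_), hj⟩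
    rw [hj]; exact h1.eq
  choose! f hfR hf using hex
  have hhom := E.rHom_of_conj hf
  have hmem : ∀ {i}, i ∈ gR → i ∈ rI := fun {i} hi => rI_facts.2.2.2 i hi
  have hgR : gR.map f = [bI, mu bI zI, yI, f (ix r3N), f (ix r4N)] := by
    have e1 : f zI = bI := E.inj (by rw [hf _ (hmem (by simp [gR])), E.map_z, h.kz])
    have e2 : f bI = mu bI zI := E.inj (by rw [hf _ (hmem (by simp [gR])), h.kb])
    have e3 : f yI = yI := E.inj (by rw [hf _ (hmem (by simp [gR])), h.ky, mul_inv_cancel_right])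
    simp [gR, e1, e2, e3]
  have hlab : ∀ i ∈ rI, clsA (f i) = clsA i := fun i hi =>
    (hA.clsA_eq (isConj_iff.2 ⟨k, (hf i hi).symm⟩)).symm
  have hlook : ∀ i ∈ rI, look (imgs [bI, mu bI zI, yI, f (ix r3N), f (ix r4N)]) i = f i := fun i hi => by
    rw [← hgR]; exact look_eq hhom hi
  have hcjR : ∀ i ∈ rI, cj aI i ∈ rI := by decide +kernel
  have h3m : ix r3N ∈ rI := hmem (by simp [gR])
  have h4m : ix r4N ∈ rI := hmem (by simp [gR])
  rcases caseA_cands (f (ix r3N)) (hfR _ h3m) (hlab _ h3m) (f (ix r4N)) (hfR _ h4m) (hlab _ h4m)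
      (by rw [← hgR]; exact homOK_of hhom) (fun i hi => by rw [hlook i hi]; exact hlab i hi)
      (fun i hi => by
        rw [hlook i hi, hlook _ (hfR i hi), hlook _ (hfR _ (hfR i hi))]
        refine E.inj ?_
        rw [hf _ (hfR _ (hfR i hi)), hf _ (hfR i hi), hf i hi,
          show k * (k * (k * E.e i * k⁻¹) * k⁻¹) * k⁻¹ = (k * k * k) * E.e i * (k * k * k)⁻¹ by group,
          h.k3]
        group)
      (fun i hi => by
        rw [hlook i hi, hlook _ (hcjR _ (hfR i hi))]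
        refine E.inj ?_
        rw [hf _ (hcjR _ (hfR i hi)), E.e_cj, hf i hi, E.e_cj]
        have e1 : k * E.e aI * k = E.e aI := by
          have h1 := h.aka
          rw [mul_assoc, mul_assoc] at h1
          have h2 : (E.e aI)⁻¹ = k * ((E.e aI)⁻¹ * k) := inv_eq_of_mul_eq_one_right h1
          have h4 : E.e aI * E.e aI = 1 :=
            (sq_of_conj_two E.order_y ((E.isConj_rep aI).2.2.1 cls_reps.2.2.2.2)).1
          rw [inv_eq_of_mul_eq_one_right h4] at h2
          rw [mul_assoc]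
          exact h2.symm
        calc k * (E.e aI * (k * E.e i * k⁻¹) * (E.e aI)⁻¹) * k⁻¹
            = (k * E.e aI * k) * E.e i * (k * E.e aI * k)⁻¹ := by group
          _ = _ := by rw [e1]) with hc | hc
  · refine ⟨E, k, U, h, ?_, ?_⟩
    · rw [← hf _ h3m, ← hc]; rfl
    · rw [← hf _ h4m, ← hc]; rfl
  · obtain ⟨-, -, -, -, -, -, hs3, hs4, hl3, hl4⟩ := sig_facts
    have e : [bI, mu bI zI, yI] ++ f1Imgs.map ix = [bI, mu bI zI, yI, f (ix r3N), f (ix r4N)] := by
      rw [← hc]; rfl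
    rw [e, hlook _ hs3] at hl3
    rw [e, hlook _ hs4] at hl4
    refine ⟨E.twist, k, U, KU.twist E h, ?_, ?_⟩
    · simp only [Emb.twist]
      rw [← hf _ hs3, hl3]
    · simp only [Emb.twist]
      rw [← hf _ hs4, hl4]

end Emb

end Cfsg.Agent.M12Type
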