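import Cfsg.Agent.M12Type.Fusion
import Cfsg.Agent.M12Type.CodeTab
import Cfsg.Prelude.Def_SporadicB

/-!
The centraliser of a 2-central involution of M12 is given by the table.
-/

set_option autoImplicit false
set_option maxRecDepth 20000

namespace Cfsg.Agent.M12Type

open Cfsg Cfsg.Agent.SchurCert Cfsg.Agent.Golay Cfsg.Agent.AutCert
open scoped Pointwise

theorem mem_M12_of_tested {x : ℕ × ℕ} (hv : validPair x = true) (hr : PreservesRows (codeFun x.1))
    (hd : ∀ p, p ∈ Spor.squareDodecad → codeFun x.1 p ∈ Spor.squareDodecad) :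
    permOfPair x ∈ Cfsg.Spor.M12 :=
  ⟨permOfPair_mem_M24 hv hr, MulAction.mem_stabilizer_iff.2 (smul_eq_of_maps fun p hp => by
    rw [permOfPair_apply hv]; exact hd p hp)⟩

theorem genC_check : m12GenC.check = true ∧ m12GenC.bound = 95040 ∧ m12GenC.start = 3 ∧
    ∀ k < 3, m12GenC.val k = (m12Gens.map Prod.fst).getD k permOne := by
  decide +kernel

theorem exists_el (j : Ix) : ∃ g : ↥Cfsg.Spor.M12, encPerm g.1 = codeOf j := by
  have key : ∀ w : List Ix, (∀ s ∈ w, s ∈ gensI) →
      ∃ g : ↥Cfsg.Spor.M12, encPerm g.1 = codeOf (w.foldl mu (ix 0)) := by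
    intro w
    induction w using List.reverseRecOn with
    | nil => intro _; exact ⟨1, by simp [code_zero, encPerm_one]⟩
    | append_singleton w s ih =>
      intro hw
      obtain ⟨g, hg⟩ := ih fun x hx => hw x (List.mem_append_left _ hx)
      have hs := hw s (List.mem_append_right _ (by simp))
      obtain ⟨x, hx, hxe⟩ : ∃ x ∈ genPairs, x.1 = codeOf s := by
        have : codeOf s ∈ genPairs.map Prod.fst := by
          rw [genPairs_tested.2.2]; exact List.mem_map.2 ⟨s, hs, rfl⟩
        exact List.mem_map.1 this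
      have hv := List.all_eq_true.1 genPairs_tested.1 x hx
      refine ⟨g * ⟨permOfPair x, mem_M12_of_tested hv (genPairs_tested.2.1 x hx).1
        (genPairs_tested.2.1 x hx).2⟩, ?_⟩
      rw [List.foldl_append, List.foldl_cons, List.foldl_nil, Subgroup.coe_mul, encPerm_mul,
        encPerm_permOfPair hv, hxe, hg, Nat.eq_of_beq_eq_true (code_mul_gen s hs _)]
  obtain ⟨h1, h2⟩ := word_table j
  rw [← h2]
  exact key _ h1

/-- the elements -/
noncomputable def mEl (i : Ix) : ↥Cfsg.Spor.M12 := Classical.choose (exists_el i)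

theorem enc_mEl (i : Ix) : encPerm (mEl i).1 = codeOf i := Classical.choose_spec (exists_el i)

theorem mEl_injective : Function.Injective mEl := by
  intro i j h
  have h' : codeOf i = codeOf j := by rw [← enc_mEl, ← enc_mEl, h]
  obtain ⟨hlen, hnd⟩ := codes_nodup
  simp only [codeOf] at h'
  rw [List.getD_eq_getElem _ _ (by simp [hlen]),
    List.getD_eq_getElem _ _ (by simp [hlen])] at h'
  exact Fin.ext ((hnd.getElem_inj_iff).1 h')

theorem mEl_one : mEl (ix 0) = 1 :=
  Subtype.ext (encPerm_injective (by rw [enc_mEl, code_zero, Subgroup.coe_one, encPerm_one]))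

theorem mEl_gen {s : Ix} (hs : s ∈ gensI) (i : Ix) : mEl (mu i s) = mEl i * mEl s := by
  refine Subtype.ext (encPerm_injective ?_)
  rw [Subgroup.coe_mul, encPerm_mul, enc_mEl, enc_mEl, enc_mEl,
    Nat.eq_of_beq_eq_true (code_mul_gen s hs i)]

theorem mEl_mu (i j : Ix) : mEl (mu i j) = mEl i * mEl j := by
  have key : ∀ w : List Ix, (∀ s ∈ w, s ∈ gensI) → ∀ i,
      mEl (mu i (w.foldl mu (ix 0))) = mEl i * mEl (w.foldl mu (ix 0)) := by
    intro w
    induction w using List.reverseRecOn with
    | nil => intro _ i; simp [(mu_one i).2.1, mEl_one]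
    | append_singleton w s ih =>
      intro hw i
      have hs := hw s (List.mem_append_right _ (by simp))
      have hass : ∀ p, mu i (mu p s) = mu (mu i p) s := fun p => by
        have h := List.all_eq_true.1 (List.all_eq_true.1 (List.all_eq_true.1 mu_assoc_gen s hs) i
          (List.mem_finRange i)) p (List.mem_finRange p)
        exact Fin.ext (Nat.eq_of_beq_eq_true h)
      rw [List.foldl_append, List.foldl_cons, List.foldl_nil, hass, mEl_gen hs, mEl_gen hs,
        ih (fun x hx => hw x (List.mem_append_left _ hx)) i, mul_assoc]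
  obtain ⟨h1, h2⟩ := word_table j
  rw [← h2]
  exact key _ h1 i

theorem genC_start : ∀ k < m12GenC.start, ∃ g ∈ Cfsg.Spor.M12, encPerm g = m12GenC.val k := by
  intro k hk
  rw [genC_check.2.2.1] at hk
  exact ⟨_, (elemAt Cfsg.Spor.M12 m12Gens k).2,
    (enc_elemAt m12Gens_tested.1 m12Gens_mem k).trans (genC_check.2.2.2 k hk).symm⟩

theorem orb_conj : ∀ c ∈ orbCodes, ∃ x : ↥Cfsg.Spor.M12, IsConj (mEl zI) x ∧ encPerm x.1 = c := by
  have key : ∀ n, n ≤ orbTree.length →
      ∀ c ∈ (orbTree.take n).foldl orbStep [codeOf zI],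
        ∃ x : ↥Cfsg.Spor.M12, IsConj (mEl zI) x ∧ encPerm x.1 = c := by
    have hlen : ∀ n, n ≤ orbTree.length →
        ((orbTree.take n).foldl orbStep [codeOf zI]).length = n + 1 := by
      intro n
      induction n with
      | zero => simp
      | succ n ih =>
        intro hn
        rw [List.take_succ_eq_append_getElem (show n < orbTree.length by omega), List.foldl_append,
          List.foldl_cons, List.foldl_nil, orbStep, List.length_append, ih (by omega)]
        rfl
    intro n
    induction n with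
    | zero =>
      intro _ c hc
      simp only [List.take_zero, List.foldl_nil, List.mem_singleton] at hc
      exact ⟨mEl zI, IsConj.refl _, by rw [enc_mEl, hc]⟩
    | succ n ih =>
      intro hn c hc
      have hn' : n < orbTree.length := by omega
      rw [List.take_succ_eq_append_getElem hn', List.foldl_append, List.foldl_cons, List.foldl_nil,
        orbStep, List.mem_append, List.mem_singleton] at hc
      rcases hc with hc | hc
      · exact ih (by omega) c hc
      obtain ⟨h1, h2⟩ := orb_tested.2.2 (orbTree[n], n) (by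
        rw [List.mem_zipIdx_iff_getElem?]; exact List.getElem?_eq_getElem hn')
      dsimp only at h1 h2
      obtain ⟨x, hx, hxe⟩ := ih (by omega)
        (((orbTree.take n).foldl orbStep [codeOf zI]).getD (orbTree[n]).1 permOne) (by
          rw [List.getD_eq_getElem _ _ (by rw [hlen n (by omega)]; omega)]
          exact List.getElem_mem _)
      have hlenG : m12Gens.length = 3 := rfl
      set k := (orbTree[n]).2
      have hk : m12Gens.getD k (permOne, permOne) ∈ m12Gens := by
        rw [List.getD_eq_getElem _ _ (by omega)]; exact List.getElem_mem _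
      set p := m12Gens.getD k (permOne, permOne)
      have hv := List.all_eq_true.1 m12Gens_tested.1 p hk
      let g : ↥Cfsg.Spor.M12 := ⟨permOfPair p, m12Gens_mem p hk⟩
      refine ⟨g * x * g⁻¹, hx.trans (isConj_iff.2 ⟨g, rfl⟩), ?_⟩
      have hinvp : encPerm (g⁻¹ : ↥Cfsg.Spor.M12).1 = p.2 := by
        have hv2 : validPair (p.2, p.1) = true := by
          have key2 : ∀ x ∈ m12Gens, validPair (x.2, x.1) = true := by decide +kernel
          exact key2 p hk
        have e : (g⁻¹ : ↥Cfsg.Spor.M12).1 = permOfPair (p.2, p.1) := by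
          rw [Subgroup.coe_inv]
          refine inv_eq_of_mul_eq_one_right (Equiv.ext fun q => ?_)
          show permOfPair p (permOfPair (p.2, p.1) q) = q
          rw [permOfPair_apply hv, permOfPair_apply hv2]
          exact (validPair_inv hv q).2
        rw [e, encPerm_permOfPair hv2]
      rw [hc, Subgroup.coe_mul, Subgroup.coe_mul, encPerm_mul, encPerm_mul, hxe, hinvp,
        encPerm_permOfPair hv]
  intro c hc
  exact key orbTree.length le_rfl c (by rw [List.take_length]; exact hc)

/-- The centraliser in M12. -/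
noncomputable def modelEmb : Emb ↥Cfsg.Spor.M12 (mEl zI) where
  e := mEl
  inj := mEl_injective
  map_mu := mEl_mu
  map_z := rfl
  mem_range g hg := by
    classical
    haveI : Finite ↥Cfsg.Spor.M12 := Nat.finite_of_card_ne_zero (by rw [m12_card]; norm_num)
    have hz : ∀ i, mEl i * mEl zI = mEl zI * mEl i := fun i => by
      rw [← mEl_mu, ← mEl_mu]
      exact congrArg mEl (by simpa [cm] using z_central i)
    have h495 : 495 ≤ Nat.card {x : ↥Cfsg.Spor.M12 // IsConj (mEl zI) x} := by
      choose x hx hxe using orb_conj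
      obtain ⟨hlen, hnd, -⟩ := orb_tested
      rw [← Nat.card_fin 495]
      refine Nat.card_le_card_of_injective (fun k : Fin 495 =>
        (⟨x _ (List.get_mem orbCodes (k.cast hlen.symm)), hx _ _⟩ :
          {x : ↥Cfsg.Spor.M12 // IsConj (mEl zI) x})) fun a b hab => ?_
      have h' := congrArg (fun w : {x : ↥Cfsg.Spor.M12 // IsConj (mEl zI) x} => encPerm w.1.1) hab
      simp only [hxe] at h'
      exact Fin.cast_injective _ (List.Nodup.injective_get hnd h')
    have hm := Invol.card_isConj_mul (mEl zI)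
    rw [m12_card] at hm
    have hC : Nat.card (Subgroup.centralizer ({mEl zI} : Set ↥Cfsg.Spor.M12)) ≤ 192 := by
      by_contra hlt
      push Not at hlt
      have := Nat.mul_le_mul h495 hlt
      omega
    let ι : Ix → Subgroup.centralizer ({mEl zI} : Set ↥Cfsg.Spor.M12) := fun i =>
      ⟨mEl i, Subgroup.mem_centralizer_singleton_iff.2 (hz i)⟩
    have hι : Function.Injective ι := fun a b h => mEl_injective (congrArg Subtype.val h)
    have hsurj := (hι.bijective_of_nat_card_le (by rw [Nat.card_fin]; exact hC)).2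
    obtain ⟨i, hi⟩ := hsurj ⟨g, Subgroup.mem_centralizer_singleton_iff.2 hg⟩
    exact ⟨i, congrArg Subtype.val hi⟩

theorem conj_two_central {u : ↥Cfsg.Spor.M12} (hu : Cfsg.IsTwoCentralInvolution u) :
    IsConj u (mEl zI) := by
  haveI : Fact (Nat.Prime 2) := ⟨Nat.prime_two⟩
  haveI : Finite ↥Cfsg.Spor.M12 := Nat.finite_of_card_ne_zero (by rw [m12_card]; norm_num)
  obtain ⟨ho, P, huP, hcent⟩ := hu
  obtain ⟨S, hS, -⟩ := modelEmb.exists_sylow
  obtain ⟨g, hg⟩ := MulAction.exists_smul_eq ↥Cfsg.Spor.M12 P S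
  have hmem : ∀ w, g * w * g⁻¹ ∈ (S : Subgroup ↥Cfsg.Spor.M12) ↔ w ∈ (P : Subgroup ↥Cfsg.Spor.M12) := by
    intro w
    rw [← hg, Sylow.coe_subgroup_smul, Subgroup.mem_pointwise_smul_iff_inv_smul_mem]
    simp [MulAut.smul_def, mul_assoc]
  set v := g * u * g⁻¹ with hv
  obtain ⟨i, hi, he⟩ := (hS v).1 ((hmem u).2 huP)
  have hsg : ∀ s ∈ sgI, cm i s = true := by
    intro s hs
    refine (modelEmb.commute_iff i s).1 ?_
    have hsS := (hS (modelEmb.e s)).2 ⟨s, sI_facts.2.2.2.2.2.2.2 s hs, rfl⟩
    have h1 : g⁻¹ * modelEmb.e s * g ∈ (P : Subgroup ↥Cfsg.Spor.M12) := by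
      rw [← hmem, show g * (g⁻¹ * modelEmb.e s * g) * g⁻¹ = modelEmb.e s by group]
      exact hsS
    have h2 := (conj_commute_iff (g := g)).2 (show Commute (g⁻¹ * modelEmb.e s * g) u from hcent _ h1)
    rw [show g * (g⁻¹ * modelEmb.e s * g) * g⁻¹ = modelEmb.e s by group, ← hv, ← he] at h2
    exact h2.symm.eq
  refine isConj_iff.2 ⟨g, ?_⟩
  rcases sI_center i hsg with rfl | rfl
  · rw [modelEmb.e_one] at he
    have : u = 1 := conj_eq_one_iff.1 (hv ▸ he.symm)
    rw [this, orderOf_one] at ho
    norm_num at ho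
  · rw [← hv, ← he, modelEmb.map_z]

/-- The table read in any group with an isomorphic centraliser. -/
theorem exists_emb {G : Type*} [Group G] (u : ↥Cfsg.Spor.M12) (hu : Cfsg.IsTwoCentralInvolution u)
    (t : G) (ht : orderOf t = 2)
    (φ : ↥(Subgroup.centralizer ({t} : Set G)) ≃* ↥(Subgroup.centralizer ({u} : Set ↥Cfsg.Spor.M12))) :
    Nonempty (Emb G t) := by
  obtain ⟨g, hg⟩ := isConj_iff.1 (conj_two_central hu)
  have hmem : ∀ i : Ix, g⁻¹ * mEl i * g ∈ Subgroup.centralizer ({u} : Set ↥Cfsg.Spor.M12) := by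
    intro i
    rw [Subgroup.mem_centralizer_singleton_iff]
    refine (conj_commute_iff (g := g)).1 ?_
    rw [show g * (g⁻¹ * mEl i * g) * g⁻¹ = mEl i by group, hg]
    exact modelEmb.comm_z i
  let ψ : Ix → ↥(Subgroup.centralizer ({t} : Set G)) := fun i => φ.symm ⟨_, hmem i⟩
  have hψmu : ∀ i j, ψ (mu i j) = ψ i * ψ j := by
    intro i j
    rw [← map_mul]
    refine congrArg φ.symm (Subtype.ext ?_)
    show g⁻¹ * mEl (mu i j) * g = g⁻¹ * mEl i * g * (g⁻¹ * mEl j * g)
    rw [mEl_mu]; group
  have hψinj : Function.Injective ψ := fun i j h => by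
    have h' := congrArg (fun w : ↥(Subgroup.centralizer ({u} : Set ↥Cfsg.Spor.M12)) =>
      (w : ↥Cfsg.Spor.M12)) (φ.symm.injective h)
    exact mEl_injective (mul_left_cancel (mul_right_cancel h'))
  have hψsurj : Function.Surjective ψ := by
    intro w
    have hw := Subgroup.mem_centralizer_singleton_iff.1 (φ w).2
    obtain ⟨i, hi⟩ := modelEmb.mem_range (g * ((φ w : ↥Cfsg.Spor.M12)) * g⁻¹) (by
      rw [← hg]; exact ((conj_commute_iff (g := g)).2 hw).eq)
    refine ⟨i, φ.injective (Subtype.ext ?_)⟩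
    show ((φ (φ.symm ⟨_, hmem i⟩)) : ↥Cfsg.Spor.M12) = _
    rw [MulEquiv.apply_symm_apply]
    show g⁻¹ * mEl i * g = _
    rw [show mEl i = g * ((φ w : ↥Cfsg.Spor.M12)) * g⁻¹ from hi]; group
  obtain ⟨i, hi⟩ := hψsurj ⟨t, Subgroup.mem_centralizer_singleton_iff.2 rfl⟩
  have hz : i = zI := by
    have hcz : ∀ s ∈ sgI, cm i s = true := by
      intro s _
      have h : ψ i * ψ s = ψ s * ψ i := by
        rw [hi]
        exact Subtype.ext (Subgroup.mem_centralizer_singleton_iff.1 (ψ s).2).symm
      rw [← hψmu, ← hψmu] at h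
      rw [cm, beq_iff_eq]
      exact hψinj h
    rcases sI_center i hcz with h | h
    · exfalso
      subst h
      have h1 := hψmu (ix 0) (ix 0)
      rw [(mu_one _).1, hi] at h1
      have h2 : t = t * t := congrArg Subtype.val h1
      rw [mul_eq_left.1 h2.symm, orderOf_one] at ht
      norm_num at ht
    · exact h
  exact ⟨{
    e := fun i => (ψ i : G)
    inj := fun a b h => hψinj (Subtype.ext h)
    map_mu := fun a b => congrArg Subtype.val (hψmu a b)
    mem_range := fun w hw => by
      obtain ⟨j, hj⟩ := hψsurj ⟨w, Subgroup.mem_centralizer_singleton_iff.2 hw⟩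
      exact ⟨j, congrArg Subtype.val hj⟩
    map_z := by rw [← hz]; exact congrArg Subtype.val hi }⟩

end Cfsg.Agent.M12Type
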