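import Cfsg.Agent.M12Type.Gens
import Cfsg.Agent.M12Type.Model
import Cfsg.Agent.Golay.MathieuSimple

/-!
A group with the table as centraliser and the relators is M12.
-/

set_option autoImplicit false
set_option maxRecDepth 20000

namespace Cfsg.Agent.M12Type

open Cfsg Cfsg.Agent.SchurCert Cfsg.Agent.Golay Cfsg.Agent.AutCert
open Enum (lett ev ev_append ev_single ev_invW map_ev_lett relL relX invW wz wb wn w3 w4 fW modelGens backW)

theorem rels_of {G : Type*} [Group G] {z : G} (E : Emb G z) {k U : G} (h : E.KU k U)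
    (h3 : k * E.e (ix r3N) * k⁻¹ = E.e ((f0Imgs.map ix).getD 0 (ix 0)))
    (h4 : k * E.e (ix r4N) * k⁻¹ = E.e ((f0Imgs.map ix).getD 1 (ix 0))) :
    Enum.Rels ![E.e yI, E.e aI, E.e bI, E.e nI, E.e hI, k, U] := by
  set e : Fin 7 → G := ![E.e yI, E.e aI, E.e bI, E.e nI, E.e hI, k, U] with he
  have hev : ∀ {w : List ℕ}, (∀ l ∈ w, l ≤ 10) → ev (lett e) w = E.e (Enum.evI w) := fun hw =>
    Enum.ev_emb E rfl rfl rfl rfl rfl hw
  obtain ⟨hle, vz, vb, vn, v3, v4, vf⟩ := Enum.word_values
  have l1 : lett e 1 = E.e yI := rfl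
  have l3 : lett e 3 = E.e aI := rfl
  have l11 : lett e 11 = k := rfl
  have l12 : lett e 12 = k⁻¹ := rfl
  have l13 : lett e 13 = U := rfl
  have l14 : lett e 14 = U⁻¹ := rfl
  have hwz : ev (lett e) wz = z := by rw [hev (hle wz (by simp)), vz, E.map_z]
  have hwb : ev (lett e) wb = E.e bI := by rw [hev (hle wb (by simp)), vb]
  have hwn : ev (lett e) wn = E.e nI := by rw [hev (hle wn (by simp)), vn]
  have hw3 : ev (lett e) w3 = E.e (ix r3N) := by rw [hev (hle w3 (by simp)), v3]
  have hw4 : ev (lett e) w4 = E.e (ix r4N) := by rw [hev (hle w4 (by simp)), v4]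
  have hf : ∀ i, i < 4 → ev (lett e) (fW.getD i []) =
      E.e (([bI, mu bI zI] ++ f0Imgs.map ix).getD i (ix 0)) := by
    intro i hi
    have hlen : fW.length = 4 := rfl
    rw [← vf, List.getD_eq_getElem _ _ (by omega), List.getD_eq_getElem _ _ (by simp [hlen, hi]),
      List.getElem_map, hev (hle _ (by simp [List.getElem_mem]))]
  have hc : ∀ {a b : G}, a * b = b * a → a * b * a⁻¹ * b⁻¹ = 1 := fun {a b} hab => by
    rw [hab, mul_inv_cancel_right, mul_inv_cancel]
  intro w hw
  rcases List.mem_append.1 hw with hw | hw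
  · rw [hev (Enum.relL_table w hw).1, (Enum.relL_table w hw).2, E.e_one]
  simp only [relX, List.mem_cons, List.not_mem_nil, or_false] at hw
  rcases hw with rfl | rfl | rfl | rfl | rfl | rfl | rfl | rfl | rfl | rfl | rfl | rfl | rfl
  · simpa [ev, l11, mul_assoc] using h.k3
  · simpa [ev, l13, mul_assoc] using h.U3
  · rw [ev_append, ev_append, ev_append, ev_invW, ev_single, ev_single, ev_single, l11, l12, l1]
    exact hc h.ky
  · rw [ev_append, ev_append, ev_append, ev_invW, ev_single, ev_single, l11, l3]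
    exact h.aka
  · rw [ev_append, ev_append, ev_append, ev_invW, ev_single, ev_single, ev_single, l13, l14, l1]
    exact hc h.Uy
  · rw [ev_append, ev_append, ev_append, ev_invW, ev_single, ev_single, ev_single, l13, l14, l3]
    exact hc h.Ua
  · rw [ev_append, ev_append, ev_append, ev_invW, ev_single, hwz, l13]
    exact h.zUz
  · rw [ev_append, ev_append, ev_append, ev_invW, ev_single, ev_single, hwn, l13, l14]
    exact hc h.nU
  · have hpair : ev (lett e) [11, 13] = k * U := by simp [ev, l11, l13]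
    rw [ev_append, ev_append, ev_append, hwz, hpair]
    calc z * (k * U) * z * (k * U) = z * k * U * (z * k * U) := by group
      _ = 1 := h.zkU
  · rw [ev_append, ev_append, ev_append, ev_invW, ev_single, ev_single, hwz, hf 0 (by norm_num), l11,
      l12, h.kz]
    exact mul_inv_cancel _
  · rw [ev_append, ev_append, ev_append, ev_invW, ev_single, ev_single, hwb, hf 1 (by norm_num), l11,
      l12, h.kb]
    exact mul_inv_cancel _
  · rw [ev_append, ev_append, ev_append, ev_invW, ev_single, ev_single, hw3, hf 2 (by norm_num), l11,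
      l12, h3]
    exact mul_inv_cancel _
  · rw [ev_append, ev_append, ev_append, ev_invW, ev_single, ev_single, hw4, hf 3 (by norm_num), l11,
      l12, h4]
    exact mul_inv_cancel _

theorem modelGens_tested : modelGens.all validPair = true ∧ (∀ x ∈ modelGens,
    PreservesRows (codeFun x.1) ∧
      ∀ p, p ∈ Spor.squareDodecad → codeFun x.1 p ∈ Spor.squareDodecad) ∧
    ([yI, aI, bI, nI, hI].map codeOf) = (modelGens.map Prod.fst).take 5 := by
  decide +kernel

theorem modelGens_mem : ∀ x ∈ modelGens, permOfPair x ∈ Cfsg.Spor.M12 := fun x hx =>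
  mem_M12_of_tested (List.all_eq_true.1 modelGens_tested.1 x hx) (modelGens_tested.2.1 x hx).1
    (modelGens_tested.2.1 x hx).2

/-- the seven elements in M12 -/
noncomputable def em (i : Fin 7) : ↥Cfsg.Spor.M12 := elemAt Cfsg.Spor.M12 modelGens i.val

theorem enc_em (i : Fin 7) : encPerm (em i).1 = (modelGens.map Prod.fst).getD i.val permOne :=
  enc_elemAt modelGens_tested.1 modelGens_mem i.val

/-- the code of a letter -/
def letC (l : ℕ) : ℕ :=
  ([permOne] ++ modelGens.flatMap fun p => [p.1, p.2]).getD l permOne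

theorem letC_inv : ∀ i : Fin 7, validPair ((modelGens.getD i.val (permOne, permOne)).2,
    (modelGens.getD i.val (permOne, permOne)).1) = true := by
  decide +kernel

theorem enc_lett (l : ℕ) (hl : l ≤ 14) : encPerm (lett em l).1 = letC l := by
  have hinv : ∀ i : Fin 7, encPerm ((em i)⁻¹ : ↥Cfsg.Spor.M12).1 =
      (modelGens.getD i.val (permOne, permOne)).2 := by
    intro i
    have hlen : modelGens.length = 7 := rfl
    have hmem : modelGens.getD i.val (permOne, permOne) ∈ modelGens := by
      rw [List.getD_eq_getElem _ _ (by omega)]; exact List.getElem_mem _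
    have hv := List.all_eq_true.1 modelGens_tested.1 _ hmem
    have e1 : (em i).1 = permOfPair (modelGens.getD i.val (permOne, permOne)) := by
      refine encPerm_injective ?_
      rw [enc_em, encPerm_permOfPair hv, List.getD_eq_getElem _ _ (by simp [hlen]),
        List.getD_eq_getElem _ _ (by omega), List.getElem_map]
    rw [Subgroup.coe_inv, e1]
    have e2 : (permOfPair (modelGens.getD i.val (permOne, permOne)))⁻¹ =
        permOfPair ((modelGens.getD i.val (permOne, permOne)).2,
          (modelGens.getD i.val (permOne, permOne)).1) := by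
      refine inv_eq_of_mul_eq_one_right (Equiv.ext fun q => ?_)
      rw [Equiv.Perm.mul_apply, permOfPair_apply hv, permOfPair_apply (letC_inv i)]
      exact (validPair_inv hv q).2
    rw [e2, encPerm_permOfPair (letC_inv i)]
  interval_cases l
  · exact encPerm_one
  · exact enc_em 0
  · exact hinv 0
  · exact enc_em 1
  · exact hinv 1
  · exact enc_em 2
  · exact hinv 2
  · exact enc_em 3
  · exact hinv 3
  · exact enc_em 4
  · exact hinv 4
  · exact enc_em 5
  · exact hinv 5
  · exact enc_em 6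
  · exact hinv 6

/-- the code of a word -/
def evC (w : List ℕ) : ℕ := w.foldr (fun l q => permMul (letC l) q) permOne

theorem enc_ev {w : List ℕ} (h : ∀ l ∈ w, l ≤ 14) : encPerm (ev (lett em) w).1 = evC w := by
  induction w with
  | nil => exact encPerm_one
  | cons l w ih =>
    rw [List.forall_mem_cons] at h
    rw [Enum.ev_cons, Subgroup.coe_mul, encPerm_mul, enc_lett l h.1, ih h.2]
    rfl

theorem model_table : (∀ w ∈ relL ++ relX, (∀ l ∈ w, l ≤ 14) ∧ evC w = permOne) ∧
    (∀ w ∈ backW, ∀ l ∈ w, 1 ≤ l ∧ l ≤ 14) ∧ backW.map evC = m12Gens.map Prod.fst := by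
  decide +kernel

theorem rels_em : Enum.Rels em := fun w hw => by
  refine Subtype.ext (encPerm_injective ?_)
  rw [enc_ev (model_table.1 w hw).1, (model_table.1 w hw).2, Subgroup.coe_one, encPerm_one]

theorem letters_eq : Enum.step.letters = List.range' 1 14 := rfl

theorem closure_em : Subgroup.closure (lett em '' {l | l ∈ Enum.step.letters}) = ⊤ := by
  haveI : Finite ↥Cfsg.Spor.M12 := Nat.finite_of_card_ne_zero (by rw [m12_card]; norm_num)
  set H := Subgroup.closure (lett em '' {l | l ∈ Enum.step.letters})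
  refine Subgroup.eq_top_of_le_card _ ?_
  rw [m12_card, ← Subgroup.card_map_of_injective (K := H) (Cfsg.Spor.M12).subtype_injective,
    ← genC_check.2.1]
  refine bound_le_of_check m12GenC genC_check.1 _ fun k hk => ?_
  rw [genC_check.2.2.1] at hk
  obtain ⟨hlet, hback⟩ := model_table.2
  have hlen : backW.length = 3 := rfl
  have hw : backW.getD k [] ∈ backW := by
    rw [List.getD_eq_getElem _ _ (by omega)]; exact List.getElem_mem _
  refine ⟨(ev (lett em) (backW.getD k [])).1, ⟨_, ?_, rfl⟩, ?_⟩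
  · refine Subgroup.list_prod_mem _ fun g hg => ?_
    obtain ⟨l, hl, rfl⟩ := List.mem_map.1 hg
    refine Subgroup.subset_closure ⟨l, ?_, rfl⟩
    show l ∈ Enum.step.letters
    rw [letters_eq, List.mem_range']
    obtain ⟨h1, h14⟩ := hlet _ hw l hl
    exact ⟨l - 1, by omega, by omega⟩
  · rw [enc_ev fun l hl => (hlet _ hw l hl).2, genC_check.2.2.2 k hk, ← hback,
      List.getD_eq_getElem _ _ (by omega), List.getD_eq_getElem _ _ (by simp [hlen, hk]),
      List.getElem_map]

theorem iso_M12 {G : Type*} [Group G] [Finite G] {z : G} (E : Emb G z) {k U : G}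
    (hR : Enum.Rels ![E.e yI, E.e aI, E.e bI, E.e nI, E.e hI, k, U]) (hcard : Nat.card G = 95040) :
    Nonempty (G ≃* ↥Cfsg.Spor.M12) := by
  set e : Fin 7 → G := ![E.e yI, E.e aI, E.e bI, E.e nI, E.e hI, k, U] with he
  let q : Fin 7 → G × ↥Cfsg.Spor.M12 := fun j => (e j, em j)
  have hq : Enum.Rels q := fun w hw => Prod.ext
    ((map_ev_lett (MonoidHom.fst _ _) q w).trans (hR w hw))
    ((map_ev_lett (MonoidHom.snd _ _) q w).trans (rels_em w hw))
  -- the first five generators lie in a copy of the table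
  have hfive : ∀ j : Fin 5, (em ⟨j.val, by omega⟩) = mEl ([yI, aI, bI, nI, hI].getD j.val (ix 0)) := by
    intro j
    refine Subtype.ext (encPerm_injective ?_)
    rw [enc_em, enc_mEl]
    have h5 := modelGens_tested.2.2
    fin_cases j <;> simp [modelGens] at h5 ⊢ <;> simp [h5]
  let π : Ix → G × ↥Cfsg.Spor.M12 := fun i => (E.e i, mEl i)
  let P₀ : Subgroup (G × ↥Cfsg.Spor.M12) :=
    { carrier := Set.range π
      one_mem' := ⟨ix 0, Prod.ext E.e_one mEl_one⟩
      mul_mem' := by
        rintro _ _ ⟨a, rfl⟩ ⟨b, rfl⟩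
        exact ⟨mu a b, Prod.ext (E.map_mu a b) (mEl_mu a b)⟩
      inv_mem' := by
        rintro _ ⟨a, rfl⟩
        exact ⟨iv a, Prod.ext (E.e_iv a) (modelEmb.e_iv a)⟩ }
  have hP0 : Nat.card P₀ ≤ 192 := by
    rw [← Nat.card_fin 192]
    exact Nat.card_le_card_of_surjective (fun i : Ix => (⟨π i, i, rfl⟩ : P₀))
      (by rintro ⟨_, i, rfl⟩; exact ⟨i, rfl⟩)
  have hle : Subgroup.closure (lett q '' {l | l ∈ List.range' 1 10}) ≤ P₀ := by
    refine (Subgroup.closure_le _).2 ?_
    rintro _ ⟨l, hl, rfl⟩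
    have hl' : 1 ≤ l ∧ l ≤ 10 := by
      obtain ⟨a, ha, rfl⟩ := List.mem_range'.1 hl
      omega
    obtain ⟨h1, h10⟩ := hl'
    have hm : ∀ j : Fin 5, q ⟨j.val, by omega⟩ ∈ P₀ := fun j =>
      ⟨[yI, aI, bI, nI, hI].getD j.val (ix 0), Prod.ext (by fin_cases j <;> rfl) (hfive j).symm⟩
    interval_cases l
    · exact hm 0
    · exact inv_mem (hm 0)
    · exact hm 1
    · exact inv_mem (hm 1)
    · exact hm 2
    · exact inv_mem (hm 2)
    · exact hm 3
    · exact inv_mem (hm 3)
    · exact hm 4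
    · exact inv_mem (hm 4)
  haveI : Finite P₀ := Finite.of_surjective (fun i : Ix => (⟨π i, i, rfl⟩ : P₀))
    (by rintro ⟨_, i, rfl⟩; exact ⟨i, rfl⟩)
  obtain ⟨hfin, hbound⟩ := Enum.bound_rels hq
    ⟨Finite.of_injective _ (Subgroup.inclusion_injective hle),
      (Subgroup.card_le_of_le hle).trans hP0⟩
  set P := Subgroup.closure (lett q '' {l | l ∈ Enum.step.letters})
  let ψ : P →* ↥Cfsg.Spor.M12 := (MonoidHom.snd G ↥Cfsg.Spor.M12).comp P.subtype
  let χ : P →* G := (MonoidHom.fst G ↥Cfsg.Spor.M12).comp P.subtype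
  have hsurj : Function.Surjective ψ := by
    have himg : P.map (MonoidHom.snd G ↥Cfsg.Spor.M12) = ⊤ := by
      rw [MonoidHom.map_closure, Set.image_image]
      simp only [Enum.map_lett]
      exact closure_em
    intro y
    obtain ⟨x, hx, rfl⟩ := (himg ▸ Subgroup.mem_top y : y ∈ P.map (MonoidHom.snd G ↥Cfsg.Spor.M12))
    exact ⟨⟨x, hx⟩, rfl⟩
  have hK : Nat.card ↥Cfsg.Spor.M12 = 95040 := m12_card
  have hle' := Nat.card_le_card_of_surjective _ hsurj
  have hbij : Function.Bijective ψ :=
    (Nat.bijective_iff_surjective_and_card ψ).2 ⟨hsurj, le_antisymm (hbound.trans hK.ge) hle'⟩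
  haveI : IsSimpleGroup ↥Cfsg.Spor.M12 := isSimpleGroup_M12
  have hsimp : IsSimpleGroup P :=
    (MulEquiv.isSimpleGroup_congr (MulEquiv.ofBijective ψ hbij)).2 inferInstance
  have hker : χ.ker = ⊥ := by
    refine ((χ.normal_ker).eq_bot_or_eq_top).resolve_right fun htop => ?_
    have hy : lett q 1 ∈ P := Subgroup.subset_closure ⟨1, by rw [letters_eq]; decide, rfl⟩
    have hm : (⟨lett q 1, hy⟩ : P) ∈ χ.ker := htop ▸ Subgroup.mem_top _
    have h1 : E.e yI = 1 := hm
    have := E.order_y
    rw [h1, orderOf_one] at this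
    norm_num at this
  have hχ : Function.Bijective χ := by
    refine (Nat.bijective_iff_injective_and_card χ).2 ⟨(MonoidHom.ker_eq_bot_iff χ).1 hker, ?_⟩
    rw [hcard, ← hK]
    exact Nat.card_congr (Equiv.ofBijective ψ hbij)
  exact ⟨(MulEquiv.ofBijective χ hχ).symm.trans (MulEquiv.ofBijective ψ hbij)⟩

theorem main {G : Type*} [Group G] [Finite G] [IsSimpleGroup G] (hG : ¬ IsMulCommutative G)
    (u : ↥Cfsg.Spor.M12) (hu : Cfsg.IsTwoCentralInvolution u)
    (t : G) (ht : orderOf t = 2)
    (φ : ↥(Subgroup.centralizer ({t} : Set G)) ≃* ↥(Subgroup.centralizer ({u} : Set ↥Cfsg.Spor.M12))) :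
    Cfsg.Spor.IsoM12 G := by
  obtain ⟨E⟩ := exists_emb u hu t ht φ
  by_cases hg : IsConj t (E.e gI)
  · obtain ⟨hc, hall⟩ := E.classesA hG hg
    have hA : E.CaseA := ⟨hc, hall⟩
    obtain ⟨K, hM, hcard⟩ := hA.exists_main
    obtain ⟨E', k, U, h, h3, h4⟩ := hA.exists_gens hM
    exact iso_M12 E' (rels_of E' h h3 h4) hcard
  · exact (E.caseB_false hG hg).elim

end Cfsg.Agent.M12Type
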