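import Cfsg.Agent.M12Type.Five
import Cfsg.Agent.S0213
import Mathlib.GroupTheory.SpecificGroups.Alternating

/-!
The order of the group in the first fusion case.
-/

set_option autoImplicit false

namespace Cfsg.Agent.M12Type

open Cfsg

theorem eq_of_mem_zpowers_two {G : Type*} [Group G] [Finite G] {x v w : G} (hv : orderOf v = 2)
    (hw : orderOf w = 2) (hv' : v ∈ Subgroup.zpowers x) (hw' : w ∈ Subgroup.zpowers x) : v = w := by
  classical
  have key : ∀ u : G, orderOf u = 2 → u ∈ Subgroup.zpowers x → u = x ^ (orderOf x / 2) := by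
    intro u hu hu'
    rw [mem_zpowers_iff_mem_range_orderOf, Finset.mem_image] at hu'
    obtain ⟨k, hk, rfl⟩ := hu'
    rw [Finset.mem_range] at hk
    have h1 : orderOf x ∣ k * 2 := orderOf_dvd_of_pow_eq_one (by
      rw [pow_mul, pow_two, ← pow_two, ← hu, pow_orderOf_eq_one])
    have h2 : k ≠ 0 := fun h => by rw [h, pow_zero, orderOf_one] at hu; norm_num at hu
    obtain ⟨c, hc⟩ := h1
    have hc1 : c = 1 := by
      rcases c with _ | _ | c
      · omega
      · rfl
      · have : orderOf x * 2 ≤ orderOf x * (c + 1 + 1) := Nat.mul_le_mul_left _ (by omega)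
        omega
    subst hc1
    have h3 : orderOf x / 2 = k := by omega
    rw [h3]
  rw [key v hv hv', key w hw hw']

theorem range_alt5 {A : Type*} [Group A] [Finite A] (f : A →* Equiv.Perm (Fin 5))
    (hf : Function.Injective f) (hcard : Nat.card A = 60) : f.range = alternatingGroup (Fin 5) := by
  have hr : Nat.card f.range = Nat.card A := Nat.card_congr (MonoidHom.ofInjective hf).symm.toEquiv
  have h := Subgroup.card_mul_index f.range
  rw [hr, hcard, Nat.card_perm, Nat.card_fin] at h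
  refine Equiv.Perm.eq_alternatingGroup_of_index_eq_two ?_
  have : (5 : ℕ).factorial = 120 := rfl
  omega

/-- pairs in the alternating group of degree 5 -/
def pairCnt : ℕ :=
  ∑ u ∈ (Finset.univ : Finset (Equiv.Perm (Fin 5))).filter
      (fun u => u * u = 1 ∧ u ≠ 1 ∧ Equiv.Perm.sign u = 1),
    (((Finset.univ : Finset (Equiv.Perm (Fin 5))).filter
      (fun v => v * v = 1 ∧ Equiv.Perm.sign v = 1)).filter fun v => (u * v) ^ 15 = 1).card

theorem pairCnt_eq : pairCnt = 195 := by decide +kernel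

theorem alt5_pow30 : ∀ g : Equiv.Perm (Fin 5), Equiv.Perm.sign g = 1 → g ^ 30 = 1 := by
  decide +kernel

theorem odd_order_iff {g : Equiv.Perm (Fin 5)} (hg : Equiv.Perm.sign g = 1) :
    Odd (orderOf g) ↔ g ^ 15 = 1 := by
  constructor
  · intro h
    have h1 : orderOf g ∣ 15 * 2 := orderOf_dvd_of_pow_eq_one (alt5_pow30 g hg)
    exact orderOf_dvd_iff_pow_eq_one.1 (Nat.Coprime.dvd_of_dvd_mul_right (Nat.coprime_two_right.2 h) h1)
  · intro h
    exact Odd.of_dvd_nat (by decide) (orderOf_dvd_of_pow_eq_one h)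

namespace Emb

variable {G : Type*} [Group G] [Finite G] {z : G} {E : Emb G z}

/-- The pairs inside `K`. -/
abbrev KPair (K : Subgroup E.CY) : Type _ :=
  {x : K × K // x.1 * x.1 = 1 ∧ x.1 ≠ 1 ∧ x.2 * x.2 = 1 ∧ Odd (orderOf (x.1 * x.2))}

theorem Comp.card_pairs_y {K : Subgroup E.CY} (hA : E.CaseA) (hK : E.Comp K) :
    Nat.card {x : G × G // IsConj z x.1 ∧ IsConj (E.e yI) x.2 ∧
      E.e yI ∈ Subgroup.zpowers (x.1 * x.2)} = Nat.card (KPair K) := by
  haveI := hK.normal
  set y := E.e yI with hy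
  have hyy : y * y = 1 := (sq_of_conj_two E.order_y (IsConj.refl y)).1
  let Y : E.CY := ⟨y, E.e_mem_CY tI_facts.2.2.1⟩
  have hYK : Y ∉ K := hK.y_notMem Y rfl
  have hYY : Y * Y = 1 := Subtype.ext hyy
  have hYc : ∀ w : E.CY, Commute Y w := fun w => Subtype.ext (E.mem_CY.1 w.2).symm
  have hback : ∀ x : KPair K, IsConj z (((x.1.1 : K) : E.CY) : G) ∧
      IsConj y (y * (((x.1.2 : K) : E.CY) : G)) ∧
      y ∈ Subgroup.zpowers ((((x.1.1 : K) : E.CY) : G) * (y * (((x.1.2 : K) : E.CY) : G))) := by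
    rintro ⟨⟨u, v⟩, hu, hu1, hv, hodd⟩
    refine ⟨hK.invol_conj_z hA hu hu1, ?_, ?_⟩
    · have hnv : Y * (v : E.CY) ∉ K := fun h => hYK (by
        have := mul_mem h (inv_mem v.2)
        rwa [mul_inv_cancel_right] at this)
      have h2 : (y * ((v : E.CY) : G)) * (y * ((v : E.CY) : G)) = 1 := by
        have h' : (Y * (v : E.CY)) * (Y * (v : E.CY)) = 1 := by
          rw [(hYc (v : E.CY)).symm.mul_mul_mul_comm, hYY, one_mul]
          exact congrArg Subtype.val hv
        exact congrArg Subtype.val h'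
      have ho : orderOf (y * ((v : E.CY) : G)) = 2 := orderOf_eq_prime (by rw [pow_two]; exact h2) fun h =>
        hnv (by rw [show Y * (v : E.CY) = 1 from Subtype.ext h]; exact one_mem K)
      exact (hA.classes _ ho).resolve_left fun h => hnv (hK.z_class_mem _ h)
    · refine ⟨(orderOf (u * v) : ℕ), ?_⟩
      show ((((u : K) : E.CY) : G) * (y * (((v : K) : E.CY) : G))) ^ ((orderOf (u * v) : ℕ) : ℤ) = y
      rw [zpow_natCast]
      have e : ((u : E.CY) * (Y * (v : E.CY))) ^ orderOf (u * v) = Y := by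
        rw [← mul_assoc, ← (hYc (u : E.CY)).eq, mul_assoc, (hYc _).mul_pow,
          show ((u : E.CY) * (v : E.CY)) ^ orderOf (u * v) = 1 from
            congrArg Subtype.val (pow_orderOf_eq_one (u * v)), mul_one]
        obtain ⟨m, hm⟩ := hodd
        rw [hm, pow_succ, pow_mul, pow_two, hYY, one_pow, one_mul]
      exact congrArg Subtype.val e
  refine (Nat.card_congr (Equiv.ofBijective
    (fun x => (⟨(((x.1.1 : K) : E.CY), y * (((x.1.2 : K) : E.CY) : G)), hback x⟩ :
      {x : G × G // IsConj z x.1 ∧ IsConj y x.2 ∧ y ∈ Subgroup.zpowers (x.1 * x.2)}))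
    ⟨?hinj, ?hsurj⟩)).symm
  case hinj =>
    intro a b h
    have h' := Prod.ext_iff.1 (congrArg Subtype.val h :)
    exact Subtype.ext (Prod.ext (Subtype.ext (Subtype.ext h'.1))
      (Subtype.ext (Subtype.ext (mul_left_cancel h'.2))))
  case hsurj =>
    rintro ⟨⟨u, v⟩, hu, hv, hmem⟩
    obtain ⟨hu2, huo⟩ := sq_of_conj_two E.order_z hu
    obtain ⟨hv2, -⟩ := sq_of_conj_two E.order_y hv
    obtain ⟨huy, hvy⟩ := pair_commute hu2 hv2 hyy hmem
    let U : E.CY := ⟨u, E.mem_CY.2 huy⟩
    let V : E.CY := ⟨v, E.mem_CY.2 hvy⟩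
    have hUK : U ∈ K := hK.z_class_mem U hu
    obtain ⟨n, hn⟩ := hmem
    have hn' : (U * V) ^ n = Y := Subtype.ext (by
      rw [Subgroup.coe_zpow]; exact hn)
    let π := QuotientGroup.mk' K
    have hU0 : π U = 1 := (QuotientGroup.eq_one_iff U).2 hUK
    have hY0 : π Y ≠ 1 := fun e => hYK ((QuotientGroup.eq_one_iff Y).1 e)
    have hsq : ∀ w : E.CY, π w * π w = 1 := fun w => by
      rw [← map_mul]; exact (QuotientGroup.eq_one_iff _).2 (hK.sq_mem w)
    have e1 : π V ^ n = π Y := by rw [← hn', map_zpow, map_mul, hU0, one_mul]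
    obtain ⟨m, rfl⟩ : ∃ m, n = 2 * m + 1 := by
      rcases Int.even_or_odd' n with ⟨m, rfl | rfl⟩
      · rw [zpow_mul, zpow_two, hsq, one_zpow] at e1
        exact absurd e1.symm hY0
      · exact ⟨m, rfl⟩
    rw [zpow_add_one, zpow_mul, zpow_two, hsq, one_zpow, one_mul] at e1
    have hW : Y * V ∈ K := (QuotientGroup.eq_one_iff _).1 (by
      show π (Y * V) = 1
      rw [map_mul, e1, hsq])
    have hW2 : Y * V * (Y * V) = 1 := by
      rw [(hYc V).symm.mul_mul_mul_comm, hYY, one_mul]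
      exact Subtype.ext hv2
    have hpow : (U * (Y * V)) ^ (2 * m + 1) = 1 := by
      have e2 : U * V = Y * (U * (Y * V)) := by
        rw [← mul_assoc U, ← (hYc U).eq, mul_assoc Y U, ← mul_assoc Y Y, hYY, one_mul]
      rw [e2, (hYc _).mul_zpow, zpow_add_one, zpow_mul, zpow_two, hYY, one_zpow, one_mul] at hn'
      exact mul_eq_left.1 hn'
    refine ⟨⟨(⟨U, hUK⟩, ⟨Y * V, hW⟩), Subtype.ext (Subtype.ext hu2), ?_, Subtype.ext hW2, ?_⟩, ?_⟩
    · intro h
      have : u = 1 := congrArg (fun w : K => ((w : E.CY) : G)) h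
      rw [this, orderOf_one] at huo
      norm_num at huo
    · have hd : (orderOf ((⟨U, hUK⟩ : K) * ⟨Y * V, hW⟩) : ℤ) ∣ 2 * m + 1 :=
        orderOf_dvd_iff_zpow_eq_one.2 (Subtype.ext (by rw [Subgroup.coe_zpow]; exact hpow))
      rw [← Nat.not_even_iff_odd]
      intro he
      obtain ⟨k, hk⟩ := dvd_trans (Int.natCast_dvd_natCast.2 he.two_dvd) hd
      omega
    · refine Subtype.ext (Prod.ext rfl ?_)
      show y * (y * v) = v
      rw [← mul_assoc, hyy, one_mul]

theorem CaseA.card_pairs_z' (hA : E.CaseA) :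
    Nat.card {x : G × G // IsConj z x.1 ∧ IsConj (E.e yI) x.2 ∧
      z ∈ Subgroup.zpowers (x.1 * x.2)} = 240 :=
  (E.card_pairs_z E.order_y hA.isA_iff hA.isY_iff).trans count_zA

theorem CaseA.card_G (hA : E.CaseA) : Nat.card G =
    Nat.card E.CY * 240 + 192 * Nat.card {x : G × G // IsConj z x.1 ∧ IsConj (E.e yI) x.2 ∧
      E.e yI ∈ Subgroup.zpowers (x.1 * x.2)} := by
  rw [S0213.result z (E.e yI) E.order_z E.order_y E.y_not_conj hA.classes, hA.card_pairs_z',
    E.card_centralizer]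

/-- At least 319 conjugates of `z`. -/
theorem CaseA.many_conjugates (hA : E.CaseA) : 319 ≤ Nat.card {u : G // IsConj z u} := by
  classical
  obtain ⟨h12, h24, h31⟩ := twelve
  have hgz : IsConj (E.e gI) z := ((hA.isA_iff gI).1 (by simp [isA, cls_reps.2.2.2.1])).symm
  obtain ⟨g, hg⟩ := isConj_iff.1 hgz
  obtain ⟨w₀, hw₀, -, hw1, hw4⟩ := E.image_z hg (by decide +kernel)
  obtain ⟨hcc, -⟩ := E.cent_map hg hw₀
  have hw₀4 : cls w₀ = 4 := (cc_cls w₀ hw1 hw4).2 (hcc.symm.trans cc_reps.2)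
  have hex : ∀ w : {w : Ix // (cls w == 4) = true},
      ∃ h : G, h * E.e gI * h⁻¹ = z ∧ h * z * h⁻¹ = E.e w.1 := by
    rintro ⟨w, hw⟩
    have hw' : cls w = 4 := by simpa using hw
    have e1 := (cls_wit w₀).2.2.2 hw₀4
    have e2 := (cls_wit w).2.2.2 hw'
    refine ⟨(E.e (wit w))⁻¹ * E.e (wit w₀) * g, ?_, ?_⟩
    · calc _ = (E.e (wit w))⁻¹ * (E.e (wit w₀) * (g * E.e gI * g⁻¹) * (E.e (wit w₀))⁻¹) * E.e (wit w) := by group
        _ = (E.e (wit w))⁻¹ * (z * E.e (wit w)) := by
          rw [hg, E.comm_z, mul_inv_cancel_right, mul_assoc]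
        _ = z := by rw [← E.comm_z, inv_mul_cancel_left]
    · calc _ = (E.e (wit w))⁻¹ * (E.e (wit w₀) * (g * z * g⁻¹) * (E.e (wit w₀))⁻¹) * E.e (wit w) := by group
        _ = (E.e (wit w))⁻¹ * (E.e (wit w) * E.e w * (E.e (wit w))⁻¹) * E.e (wit w) := by
          rw [hw₀, ← E.e_cj, e1, ← E.e_cj, e2]
        _ = E.e w := by group
  choose h hh1 hh2 using hex
  let P : Ix → Bool := fun t => isA t && !cm t gI && inPow zI (mu t gI)
  have hP : ∀ t : {t : Ix // P t = true}, IsConj z (E.e t.1) ∧ ¬ (cm t.1 gI = true) ∧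
      z ∈ Subgroup.zpowers (E.e t.1 * E.e gI) := by
    rintro ⟨t, ht⟩
    simp only [P, Bool.and_eq_true, Bool.not_eq_true'] at ht
    refine ⟨(hA.isA_iff t).1 ht.1.1, by simp [ht.1.2], ?_⟩
    have h' := E.inPow_iff.2 ht.2
    rwa [E.map_z, E.map_mu] at h'
  let D := {i : Ix // isA i = true} ⊕ ({w : Ix // (cls w == 4) = true} × {t : Ix // P t = true})
  let Φ : D → {u : G // IsConj z u} := Sum.elim (fun i => ⟨E.e i.1, (hA.isA_iff i.1).1 i.2⟩)
    (fun p => ⟨h p.1 * E.e p.2.1 * (h p.1)⁻¹, (hP p.2).1.trans (isConj_iff.2 ⟨h p.1, rfl⟩)⟩)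
  have hnc : ∀ p : {w : Ix // (cls w == 4) = true} × {t : Ix // P t = true},
      ¬ Commute (h p.1 * E.e p.2.1 * (h p.1)⁻¹) z := fun p hc => by
    have hc' : Commute (h p.1 * E.e p.2.1 * (h p.1)⁻¹) (h p.1 * E.e gI * (h p.1)⁻¹) := by
      rw [hh1 p.1]; exact hc
    exact (hP p.2).2.1 ((E.commute_iff _ _).1 (conj_commute_iff.1 hc'))
  have hinj : Function.Injective Φ := by
    intro a b hab
    have h' : ((Φ a : {u : G // IsConj z u}) : G) = (Φ b : {u : G // IsConj z u}) := congrArg Subtype.val hab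
    rcases a with i | p <;> rcases b with j | q
    · exact congrArg Sum.inl (Subtype.ext (E.inj h'))
    · have e : E.e i.1 = h q.1 * E.e q.2.1 * (h q.1)⁻¹ := h'
      exact absurd (e ▸ (E.comm_z i.1 : Commute (E.e i.1) z)) (hnc q)
    · have e : h p.1 * E.e p.2.1 * (h p.1)⁻¹ = E.e j.1 := h'
      exact absurd (e.symm ▸ (E.comm_z j.1 : Commute (E.e j.1) z)) (hnc p)
    · have e : h p.1 * E.e p.2.1 * (h p.1)⁻¹ = h q.1 * E.e q.2.1 * (h q.1)⁻¹ := h'
      have hmem : ∀ r : {w : Ix // (cls w == 4) = true} × {t : Ix // P t = true},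
          E.e r.1.1 ∈ Subgroup.zpowers (h r.1 * E.e r.2.1 * (h r.1)⁻¹ * z) := by
        intro r
        obtain ⟨n, hn⟩ := (hP r.2).2.2
        refine ⟨n, ?_⟩
        show (h r.1 * E.e r.2.1 * (h r.1)⁻¹ * z) ^ n = E.e r.1.1
        calc (h r.1 * E.e r.2.1 * (h r.1)⁻¹ * z) ^ n
            = (h r.1 * E.e r.2.1 * (h r.1)⁻¹ * (h r.1 * E.e gI * (h r.1)⁻¹)) ^ n := by rw [hh1 r.1]
          _ = (h r.1 * (E.e r.2.1 * E.e gI) * (h r.1)⁻¹) ^ n := by
            congr 1; group
          _ = E.e r.1.1 := by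
            rw [conj_zpow, show (E.e r.2.1 * E.e gI) ^ n = z from hn, hh2]
      have ho : ∀ w : {w : Ix // (cls w == 4) = true}, orderOf (E.e w.1) = 2 := fun w => by
        have : cls w.1 = 4 := by simpa using w.2
        exact E.order_two (by omega) (by omega)
      have hpq : p.1 = q.1 :=
        Subtype.ext (E.inj (eq_of_mem_zpowers_two (ho _) (ho _) (hmem p) (e ▸ hmem q)))
      rw [← hpq] at e
      exact congrArg Sum.inr (Prod.ext hpq (Subtype.ext (E.inj (mul_left_cancel (mul_right_cancel e)))))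
  have hc := Nat.card_le_card_of_injective Φ hinj
  rw [Nat.card_sum, Nat.card_prod, card_filter, card_filter, card_filter, h31, h24, h12] at hc
  exact hc

/-- The structure of the centraliser of `y`. -/
structure Main (E : Emb G z) (K : Subgroup E.CY) : Prop where
  comp : E.Comp K
  cardK : Nat.card K = 60
  act : ∃ f : E.CY →* Equiv.Perm (Fin 5), Function.Injective (f.comp K.subtype) ∧
    (f.comp K.subtype).range = alternatingGroup (Fin 5) ∧
    f ⟨E.e yI, E.e_mem_CY tI_facts.2.2.1⟩ = 1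

theorem CaseA.exists_main (hA : E.CaseA) : ∃ K : Subgroup E.CY, Main E K ∧ Nat.card G = 95040 := by
  classical
  obtain ⟨K, hK⟩ := hA.exists_comp
  rcases hK.dichotomy hA with ⟨h48, hmem⟩ | ⟨h60, f, hinj, hy⟩
  · exfalso
    have hthree : Nat.card (zInCY E) = 3 := by
      have := hA.card_CY
      omega
    have hpairs : Nat.card (KPair K) = 3 := by
      rw [← hthree]
      have hin : ∀ w : K, w * w = 1 → ∃ i ∈ fourI, E.e i = ((w : E.CY) : G) := by
        intro w hw
        by_cases h1 : w = 1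
        · exact ⟨ix 0, by simp [fourI], by rw [E.e_one, h1]; rfl⟩
        · exact hmem _ (w : E.CY).2 (hK.invol_conj_z hA hw h1)
      refine Nat.card_congr (Equiv.ofBijective (fun x => (⟨((x.1.1 : K) : E.CY), ((x.1.1 : K) : E.CY).2,
        hK.invol_conj_z hA x.2.1 x.2.2.1⟩ : zInCY E)) ⟨?_, ?_⟩)
      · intro a b hab
        have hu : a.1.1 = b.1.1 := Subtype.ext (Subtype.ext (congrArg Subtype.val hab :))
        have heq : ∀ x : KPair K, x.1.2 = x.1.1 := by
          rintro ⟨⟨u, v⟩, hu, hu1, hv, hodd⟩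
          obtain ⟨i, hi, hi'⟩ := hin u hu
          obtain ⟨j, hj, hj'⟩ := hin v hv
          have hc : Commute u v := by
            have := four_comm (E := E) hi hj
            rw [hi', hj'] at this
            exact Subtype.ext (Subtype.ext this)
          have h2 : (u * v) ^ 2 = 1 := by
            rw [pow_two, hc.symm.mul_mul_mul_comm, hu, hv, one_mul]
          have h1 : orderOf (u * v) = 1 :=
            Nat.eq_one_of_dvd_coprimes (Nat.coprime_two_left.2 hodd) (orderOf_dvd_of_pow_eq_one h2)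
              dvd_rfl
          have h3 := orderOf_eq_one_iff.1 h1
          show v = u
          rw [← inv_eq_of_mul_eq_one_right h3, inv_eq_of_mul_eq_one_right hu]
        exact Subtype.ext (Prod.ext hu (by rw [heq a, heq b, hu]))
      · rintro ⟨u, hu, huz⟩
        have hu2 := (sq_of_conj_two E.order_z huz).1
        let U : K := ⟨⟨u, hu⟩, hK.z_class_mem _ huz⟩
        have hU1 : U ≠ 1 := fun e => by
          have : u = 1 := congrArg (fun w : K => ((w : E.CY) : G)) e
          subst this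
          exact E.z_ne_one (isConj_one_left.1 huz)
        have hUU : U * U = 1 := Subtype.ext (Subtype.ext hu2)
        exact ⟨⟨(U, U), hUU, hU1, hUU, by rw [hUU, orderOf_one]; exact odd_one⟩, rfl⟩
    have hG : Nat.card G = 12096 := by rw [hA.card_G, hK.card_pairs_y hA, hpairs, h48]
    have h := Invol.card_isConj_mul z
    rw [E.card_centralizer, hG] at h
    have := hA.many_conjugates
    omega
  · set F := f.comp K.subtype with hF
    have hrange := range_alt5 F hinj h60
    have hsign : ∀ g : K, Equiv.Perm.sign (F g) = 1 := fun g =>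
      Equiv.Perm.mem_alternatingGroup.1 (hrange ▸ ⟨g, rfl⟩)
    have hpairs : Nat.card (KPair K) = 195 := by
      let S := ((Finset.univ : Finset (Equiv.Perm (Fin 5))).filter
        (fun u => u * u = 1 ∧ u ≠ 1 ∧ Equiv.Perm.sign u = 1)).sigma fun u =>
          (((Finset.univ : Finset (Equiv.Perm (Fin 5))).filter
            (fun v => v * v = 1 ∧ Equiv.Perm.sign v = 1)).filter fun v => (u * v) ^ 15 = 1)
      have hfwd : ∀ x : KPair K, (⟨F x.1.1, F x.1.2⟩ : (_ : Equiv.Perm (Fin 5)) × Equiv.Perm (Fin 5)) ∈ S := by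
        rintro ⟨⟨u, v⟩, hu, hu1, hv, hodd⟩
        simp only [S, Finset.mem_sigma, Finset.mem_filter, Finset.mem_univ, true_and]
        refine ⟨⟨by rw [← map_mul, hu, map_one], fun h => hu1 (hinj (h.trans (map_one F).symm)), hsign u⟩,
          ⟨by rw [← map_mul, hv, map_one], hsign v⟩, ?_⟩
        rw [← map_mul]
        exact (odd_order_iff (hsign _)).1 (by rwa [orderOf_injective F hinj])
      have hS : S.card = 195 := by rw [Finset.card_sigma]; exact pairCnt_eq
      rw [← hS, ← Nat.card_eq_finsetCard]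
      refine Nat.card_congr (Equiv.ofBijective (fun x => (⟨_, hfwd x⟩ : S)) ⟨?_, ?_⟩)
      · intro a b hab
        have h' := congrArg Subtype.val hab
        simp only [Sigma.mk.injEq] at h'
        exact Subtype.ext (Prod.ext (hinj h'.1) (hinj (eq_of_heq h'.2)))
      · rintro ⟨⟨a, b⟩, hab⟩
        simp only [S, Finset.mem_sigma, Finset.mem_filter, Finset.mem_univ, true_and] at hab
        obtain ⟨⟨ha, ha1, has⟩, ⟨hb, hbs⟩, hab15⟩ := hab
        obtain ⟨u, rfl⟩ : a ∈ F.range := hrange ▸ Equiv.Perm.mem_alternatingGroup.2 has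
        obtain ⟨v, rfl⟩ : b ∈ F.range := hrange ▸ Equiv.Perm.mem_alternatingGroup.2 hbs
        refine ⟨⟨(u, v), hinj (by rw [map_mul, ha, map_one]), fun h => ha1 (by simp only at h; rw [h, map_one]),
          hinj (by rw [map_mul, hb, map_one]), ?_⟩, rfl⟩
        rw [← orderOf_injective F hinj, odd_order_iff (hsign _), map_mul]
        exact hab15
    refine ⟨K, ⟨hK, h60, f, hinj, hrange, hy⟩, ?_⟩
    have hCY : Nat.card E.CY = 240 := by
      have h := Subgroup.card_mul_index K
      rw [h60, hK.index] at h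
      exact h.symm
    rw [hA.card_G, hK.card_pairs_y hA, hpairs, hCY]

end Emb

end Cfsg.Agent.M12Type
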