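import Cfsg.Agent.M12Type.Data
import Mathlib.Data.Fintype.Basic
import Mathlib.Data.Fin.Basic
import Mathlib.Data.List.FinRange

/-!
Facts about the table of the centraliser of a 2-central involution of M12, checked by the kernel.
-/

set_option autoImplicit false
set_option maxRecDepth 20000
set_option synthInstance.maxSize 4000
set_option synthInstance.maxHeartbeats 400000

namespace Cfsg.Agent.M12Type

/-- read an entry of a packed row -/
def tget (row j : ℕ) : ℕ := (row >>> (8 * j)) &&& 255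

/-- the product on indices -/
def mulN (i j : ℕ) : ℕ := tget ((rowList.getD (i / 16) []).getD (i % 16) 0) j

/-- the inverse on indices -/
def invN (i : ℕ) : ℕ := tget invCode i

/-- the indices -/
abbrev Ix := Fin 192

/-- an index from a number -/
def ix (k : ℕ) : Ix := Fin.ofNat 192 k

/-- the product -/
def mu (i j : Ix) : Ix := ix (mulN i.val j.val)

/-- the inverse -/
def iv (i : Ix) : Ix := ix (invN i.val)

/-- conjugation -/
def cj (l i : Ix) : Ix := mu (mu l i) (iv l)

/-- commuting, as a Boolean -/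
def cm (i j : Ix) : Bool := mu i j == mu j i

/-- the class of an index -/
def cls (i : Ix) : ℕ := tget clsCode i.val

/-- the conjugator to the representative -/
def wit (i : Ix) : Ix := ix (tget witCode i.val)

/-- the automorphism -/
def sig (i : Ix) : Ix := ix (tget sigmaCode i.val)

/-- the central involution -/
def zI : Ix := ix zN
/-- an involution of the second class -/
def yI : Ix := ix yN
/-- a second involution of the second class -/
def aI : Ix := ix aN
/-- a non-central involution of the kernel -/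
def bI : Ix := ix bN
/-- an element of order 3 -/
def nI : Ix := ix nN
/-- the last generator -/
def hI : Ix := ix hN
/-- an outer involution of the first class -/
def gI : Ix := ix gN

/-- the generators of the centraliser of `b` -/
def gR : List Ix := [zI, bI, yI, ix r3N, ix r4N]

/-- number of commuting indices -/
def cc (i : Ix) : ℕ := ((List.finRange 192).filter fun j => cm i j).length

/-- in the first class (merged) -/
def isA (i : Ix) : Bool := cls i == 1 || cls i == 2 || cls i == 4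

/-- powers -/
def pw (i : Ix) : ℕ → Ix
  | 0 => ix 0
  | k + 1 => mu (pw i k) i

/-- membership among the powers -/
def inPow (w i : Ix) : Bool := (List.range 24).any fun k => pw i k == w

/-- the merged classes of the second case -/
def clsB (i : Ix) : ℕ := if cls i = 2 then 1 else if cls i = 4 then 3 else cls i

/-- the merged classes of the first case -/
def clsA (i : Ix) : ℕ := if cls i = 2 ∨ cls i = 4 then 1 else cls i

/-- one step in the tree -/
def treeStep (g : List Ix) (acc : List Ix) (t : ℕ × ℕ × ℕ) : List Ix :=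
  acc ++ [mu (acc.getD t.1 (ix 0)) (g.getD t.2.1 (ix 0))]

/-- images along the tree -/
def imgs (g : List Ix) : List Ix := rTree.foldl (treeStep g) [ix 0]

/-- the elements of the centraliser of `b` -/
def rI : List Ix := rList.map ix

/-- the value of the map given by images -/
def look (im : List Ix) (h : Ix) : Ix := im.getD (rI.idxOf h) (ix 0)

/-- multiplicativity on generators -/
def homOK (g im : List Ix) : Bool :=
  rI.all fun r => (List.range 5).all fun s =>
    look im (mu r (gR.getD s (ix 0))) == mu (look im r) (g.getD s (ix 0))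

theorem mu_one : ∀ i : Ix, mu (ix 0) i = i ∧ mu i (ix 0) = i ∧ mu i (iv i) = ix 0 ∧ mu (iv i) i = ix 0 := by
  decide +kernel

theorem cls_invol : ∀ i : Ix, (mu i i = ix 0 ∧ i ≠ ix 0) ↔ (1 ≤ cls i ∧ cls i ≤ 4) := by decide +kernel

theorem cls_wit : ∀ i : Ix, (cls i = 1 → i = zI) ∧ (cls i = 2 → cj (wit i) i = bI) ∧
    (cls i = 3 → cj (wit i) i = yI) ∧ (cls i = 4 → cj (wit i) i = gI) := by
  decide +kernel

theorem cls_reps : cls zI = 1 ∧ cls bI = 2 ∧ cls yI = 3 ∧ cls gI = 4 ∧ cls aI = 3 := by decide +kernel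

theorem cls_cj_y : ∀ l : Ix, cls (cj l yI) = 3 := by decide +kernel

theorem cc_cls : ∀ i : Ix, 1 ≤ cls i → cls i ≤ 4 →
    (cc i = 16 → cls i = 3) ∧ (cc i = 8 → cls i = 4) := by
  decide +kernel

theorem cc_reps : cc yI = 16 ∧ cc gI = 8 := by decide +kernel

theorem sq_not_y : ∀ c : Ix, cls (mu c c) ≠ 3 := by decide +kernel

theorem z_central : ∀ i : Ix, cm i zI = true := by decide +kernel

theorem pw_24 : ∀ i : Ix, pw i 24 = ix 0 := by decide +kernel

/-- the Sylow subgroup -/
def sI : List Ix := sylList.map ix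

/-- generators of it -/
def sgI : List Ix := sylGens.map ix

/-- the maximal subgroup avoiding the last class -/
def qI : List Ix := maxList.map ix

/-- the centraliser of `y` -/
def tI : List Ix := tList.map ix

theorem sI_facts : sI.length = 64 ∧ sI.Nodup ∧ ix 0 ∈ sI ∧ zI ∈ sI ∧ gI ∈ sI ∧
    (∀ i ∈ sI, iv i ∈ sI) ∧ (∀ i ∈ sI, ∀ j ∈ sI, mu i j ∈ sI) ∧ ∀ i ∈ sgI, i ∈ sI := by
  decide +kernel

theorem sI_center : ∀ c : Ix, (∀ s ∈ sgI, cm c s = true) → c = ix 0 ∨ c = zI := by decide +kernel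

theorem qI_facts : qI.length = 32 ∧ qI.Nodup ∧ ix 0 ∈ qI ∧
    (∀ i ∈ qI, iv i ∈ qI) ∧ (∀ i ∈ qI, ∀ j ∈ qI, mu i j ∈ qI) ∧ (∀ i ∈ qI, i ∈ sI ∧ cls i ≠ 4) := by
  decide +kernel

theorem g_step : ∀ c : Ix, cm c gI = true → c ≠ ix 0 → c ≠ zI → c ≠ gI → c ≠ mu gI zI →
    cls c = 4 ∨ cls (mu zI c) = 2 := by
  decide +kernel

theorem rI_facts : rI.length = 32 ∧ rI.Nodup ∧ ix 0 ∈ rI ∧ (∀ g ∈ gR, g ∈ rI) := by decide +kernel

theorem mem_rI : ∀ i : Ix, cm i bI = true ↔ i ∈ rI := by decide +kernel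

theorem rTree_facts : rI = ix 0 :: rTree.map (fun t => ix t.2.2) ∧
    ∀ p ∈ rTree.zipIdx, p.1.1 ≤ p.2 ∧ p.1.2.1 < 5 ∧
      mu (rI.getD p.1.1 (ix 0)) (gR.getD p.1.2.1 (ix 0)) = ix p.1.2.2 := by
  decide +kernel

theorem caseB_swap : ∀ yy ∈ rI, cls yy = 3 → ∀ r3 ∈ rI, clsB r3 = clsB (ix r3N) →
    ∀ r4 ∈ rI, clsB r4 = clsB (ix r4N) →
    homOK [bI, zI, yy, r3, r4] (imgs [bI, zI, yy, r3, r4]) = true →
    (∀ h ∈ rI, clsB (look (imgs [bI, zI, yy, r3, r4]) h) = clsB h) → False := by
  decide +kernel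

theorem caseA_cands : ∀ r3 ∈ rI, clsA r3 = clsA (ix r3N) → ∀ r4 ∈ rI, clsA r4 = clsA (ix r4N) →
    homOK [bI, mu bI zI, yI, r3, r4] (imgs [bI, mu bI zI, yI, r3, r4]) = true →
    (∀ h ∈ rI, clsA (look (imgs [bI, mu bI zI, yI, r3, r4]) h) = clsA h) →
    (∀ h ∈ rI, look (imgs [bI, mu bI zI, yI, r3, r4]) (look (imgs [bI, mu bI zI, yI, r3, r4])
      (look (imgs [bI, mu bI zI, yI, r3, r4]) h)) = h) →
    (∀ h ∈ rI, look (imgs [bI, mu bI zI, yI, r3, r4])
      (cj aI (look (imgs [bI, mu bI zI, yI, r3, r4]) h)) = cj aI h) →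
    [r3, r4] = f0Imgs.map ix ∨ [r3, r4] = f1Imgs.map ix := by
  decide +kernel

theorem sig_facts : sig zI = zI ∧ sig yI = yI ∧ sig aI = aI ∧ sig bI = bI ∧ sig nI = nI ∧
    (∀ i, sig (sig i) = i) ∧ sig (ix r3N) ∈ rI ∧ sig (ix r4N) ∈ rI ∧
    look (imgs ([bI, mu bI zI, yI] ++ f1Imgs.map ix)) (sig (ix r3N)) = sig ((f0Imgs.map ix).getD 0 (ix 0)) ∧
    look (imgs ([bI, mu bI zI, yI] ++ f1Imgs.map ix)) (sig (ix r4N)) = sig ((f0Imgs.map ix).getD 1 (ix 0)) := by
  decide +kernel

theorem sig_mu : ∀ i j : Ix, sig (mu i j) = mu (sig i) (sig j) := by decide +kernel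

theorem count_zA : ((List.finRange 192).map fun i => ((List.finRange 192).filter fun j =>
    isA i && (cls j == 3) && inPow zI (mu i j)).length).sum = 240 := by
  decide +kernel

theorem count_zB : ((List.finRange 192).map fun i => ((List.finRange 192).filter fun j =>
    (clsB i == 1) && (clsB j == 3) && inPow zI (mu i j)).length).sum = 48 := by
  decide +kernel

theorem count_yB : (tI.map fun i => (tI.filter fun j =>
    (clsB i == 1) && (clsB j == 3) && inPow yI (mu i j)).length).sum = 3 := by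
  decide +kernel

theorem mem_tI : ∀ i : Ix, cm i yI = true ↔ i ∈ tI := by decide +kernel

theorem tI_facts : tI.length = 16 ∧ tI.Nodup ∧ yI ∈ tI ∧ aI ∈ tI ∧ bI ∈ tI ∧ zI ∈ tI ∧ mu bI zI ∈ tI ∧
    (∀ c ∈ tI, mu c c = ix 0 ∨ mu c c = zI) ∧
    (∀ i ∈ tI, isA i = true → i = zI ∨ i = bI ∨ i = mu bI zI) ∧
    (∀ i ∈ tI, ∀ j ∈ tI, mu i j ∈ tI) ∧
    cj aI bI = mu bI zI ∧ cm aI zI = true ∧ cm aI bI = false ∧ cm yI bI = true ∧ cm yI zI = true ∧
    cm bI zI = true ∧ cm aI yI = true ∧ mu bI zI ≠ bI ∧ mu bI zI ≠ zI ∧ bI ≠ zI := by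
  decide +kernel

theorem twelve : ((List.finRange 192).filter fun t =>
      isA t && !cm t gI && inPow zI (mu t gI)).length = 12 ∧
    ((List.finRange 192).filter fun w => cls w == 4).length = 24 ∧
    ((List.finRange 192).filter fun w => isA w).length = 31 := by
  decide +kernel

theorem n_facts : mu (mu nI nI) nI = ix 0 ∧ cj nI yI = aI ∧ cj nI aI = mu yI aI ∧ cm nI zI = true := by
  decide +kernel

end Cfsg.Agent.M12Type
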